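import Cfsg.Agent.H64.SympD

set_option autoImplicit false

open scoped commutatorElement

namespace Cfsg.Agent.H64.Symp

variable {G : Type*} [Group G]

namespace ED

section
variable [Finite G] {p n : ℕ} [hp : Fact p.Prime] {H : Subgroup G} {u : G} {E : Subgroup G} (d : ED p n H u E)
include d

theorem exists_k (g : G) : ∃ k : ℤ, g * u * g⁻¹ = u ^ k := by
  have hUn : (Subgroup.zpowers u).Normal := by
    have := d.Uchar
    infer_instance
  exact MaxClass.exists_conj_zpow hUn g

/-- if `p^(n-1) ∣ k - 1` then `g ∈ V` -/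
theorem mem_V_of_dvd {g : G} {k : ℤ} (hk : g * u * g⁻¹ = u ^ k) (h : (p : ℤ) ^ (n - 1) ∣ k - 1) : g ∈ d.Vs := by
  rw [d.mem_Vs, hk]
  obtain ⟨m, hm⟩ := h
  have : u ^ k * u⁻¹ = (u ^ p ^ (n - 1)) ^ m := by
    rw [← zpow_natCast, ← zpow_mul]
    push_cast
    rw [← hm, zpow_sub_one]
  rw [this]
  exact Subgroup.zpow_mem _ (Subgroup.mem_zpowers _) _

theorem dvd_of_pow_mem {g : G} {k : ℤ} (hk : g * u * g⁻¹ = u ^ k) (h : g ^ p ∈ Subgroup.zpowers u) :
    (p : ℤ) ^ n ∣ k ^ p - 1 := by
  have h1 := MaxClass.conj_pow_iter hk p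
  obtain ⟨j, hj⟩ := Subgroup.mem_zpowers_iff.1 h
  have h2 : g ^ p * u * (g ^ p)⁻¹ = u := by
    rw [← hj]
    have : Commute (u ^ j) u := (Commute.refl u).zpow_left j
    rw [this.eq]; group
  rw [h2] at h1
  have h3 : u ^ (k ^ p) = u ^ (1 : ℤ) := by rw [← h1, zpow_one]
  have h4 := (MaxClass.zpow_eq_iff d.ord _ _).1 h3
  push_cast at h4
  exact h4

/-- odd primes -/
theorem odd_case (hp2 : p ≠ 2) : Concl p G := by
  by_cases hR : ∀ r ∈ Subgroup.centralizer (E : Set G), r ∈ Subgroup.zpowers u
  · exact d.concl_cyclic hR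
  push Not at hR
  obtain ⟨g, hgR, hgU⟩ := hR
  have hn := d.n1
  have hn2 : 2 ≤ n := by
    by_contra h
    have hn1 : n = 1 := by omega
    apply hgU
    apply d.CRU hgR
    have hz : u ^ p ^ (n - 1) = u := by rw [hn1]; simp
    have := d.Zcomm (x := u) (by rw [hz]; exact Subgroup.mem_zpowers u) g
    exact this
  obtain ⟨t, ht1, ht2⟩ := MaxClass.exists_last_pow d.pg (Subgroup.zpowers u) hgU
  rw [pow_succ, pow_mul] at ht2
  set g' := g ^ p ^ t with hg'
  have hg'R : g' ∈ Subgroup.centralizer (E : Set G) := Subgroup.pow_mem _ hgR _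
  obtain ⟨k, hk⟩ := d.exists_k g'
  have h1 := d.dvd_of_pow_mem hk ht2
  have h2 : (p : ℤ) ^ (n - 1) ∣ k - 1 := by
    apply MaxClass.pow_one_mod_odd hp2 (n - 1) (by omega)
    rwa [show n - 1 + 1 = n by omega]
  have hV := d.mem_V_of_dvd hk h2
  rcases Nat.lt_or_ge n 3 with h3 | h3
  · have hn2' : n = 2 := by omega
    have h4 := d.caseA2 hn2' hg'R ht1
    refine ⟨⊤, ⊥, ?_, by simp, Or.inr ?_, Or.inl inferInstance⟩
    · intro e _ r hr
      rw [Subgroup.mem_bot] at hr
      rw [hr, one_mul, mul_one]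
    · have h5 := Cfsg.Agent.Extra.isExtraspecial_iff.1 h4
      apply Cfsg.Agent.Extra.isExtraspecial_of_ges (h5.1.of_equiv Subgroup.topEquiv.symm)
      intro h6
      apply h5.2
      rw [eq_top_iff]
      intro x _
      have h7 : (⟨x, trivial⟩ : (⊤ : Subgroup G)) ∈ Subgroup.center (⊤ : Subgroup G) := by rw [h6]; trivial
      rw [Subgroup.mem_center_iff] at h7 ⊢
      intro y
      exact congrArg Subtype.val (h7 ⟨y, trivial⟩)
  · exact (d.caseA1 h3 hV hg'R ht1).elim

end

section two
variable [Finite G] {n : ℕ} {H : Subgroup G} {u : G} {E : Subgroup G} (d : ED 2 n H u E)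
include d

theorem two_case : Concl 2 G := by
  haveI : Fact (Nat.Prime 2) := ⟨Nat.prime_two⟩
  by_cases hR : ∀ r ∈ Subgroup.centralizer (E : Set G), r ∈ Subgroup.zpowers u
  · exact d.concl_cyclic hR
  push Not at hR
  obtain ⟨g, hgR, hgU⟩ := hR
  have hn := d.n1
  have hn2 : 2 ≤ n := by
    by_contra h
    have hn1 : n = 1 := by omega
    apply hgU
    apply d.CRU hgR
    have hz : u ^ 2 ^ (n - 1) = u := by rw [hn1]; simp
    have := d.Zcomm (x := u) (by rw [hz]; exact Subgroup.mem_zpowers u) g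
    exact this
  rcases Nat.lt_or_ge n 3 with h3 | h3
  · have hn2' : n = 2 := by omega
    have h4 := d.caseA2 hn2' hgR hgU
    refine ⟨⊤, ⊥, ?_, by simp, Or.inr ?_, Or.inl inferInstance⟩
    · intro e _ r hr
      rw [Subgroup.mem_bot] at hr
      rw [hr, one_mul, mul_one]
    · have h5 := Cfsg.Agent.Extra.isExtraspecial_iff.1 h4
      apply Cfsg.Agent.Extra.isExtraspecial_of_ges (h5.1.of_equiv Subgroup.topEquiv.symm)
      intro h6
      apply h5.2
      rw [eq_top_iff]
      intro x _
      have h7 : (⟨x, trivial⟩ : (⊤ : Subgroup G)) ∈ Subgroup.center (⊤ : Subgroup G) := by rw [h6]; trivial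
      rw [Subgroup.mem_center_iff] at h7 ⊢
      intro y
      exact congrArg Subtype.val (h7 ⟨y, trivial⟩)
  · have hVR : ∀ v ∈ d.Vs, v ∈ Subgroup.centralizer (E : Set G) → v ∈ Subgroup.zpowers u := by
      intro v hv hvR
      by_contra hvU
      exact d.caseA1 h3 hv hvR hvU
    set u₂ := u ^ 2 ^ (n - 2) with hu₂
    have hu₂U : u₂ ∈ Subgroup.zpowers u := Subgroup.pow_mem _ (Subgroup.mem_zpowers u) _
    have hord : orderOf u₂ = 4 := by
      rw [hu₂, orderOf_pow, d.ord, Nat.gcd_eq_right (pow_dvd_pow 2 (by omega)), Nat.pow_div (by omega) (by norm_num)]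
      have : n - (n - 2) = 2 := by omega
      rw [this]
    have hconj : ∀ (g : G) (k : ℤ), g * u * g⁻¹ = u ^ k → g * u₂ * g⁻¹ = u₂ ^ k := by
      intro g k hk
      rw [hu₂, ← conj_pow, hk, ← zpow_natCast, ← zpow_natCast, ← zpow_mul, ← zpow_mul, mul_comm]
    have h4n : (4 : ℤ) ∣ 2 ^ (n - 1) := by
      have : (2 : ℤ) ^ 2 ∣ 2 ^ (n - 1) := pow_dvd_pow 2 (by omega)
      norm_num at this
      exact this
    -- C1
    have C1 : ∀ g ∈ Subgroup.centralizer (E : Set G), g * u₂ = u₂ * g → g ∈ Subgroup.zpowers u := by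
      intro g hgR hgu
      by_contra hgU
      obtain ⟨t, ht1, ht2⟩ := MaxClass.exists_last_pow d.pg (Subgroup.zpowers u) hgU
      rw [pow_succ, pow_mul] at ht2
      set g' := g ^ 2 ^ t with hg'
      have hg'R : g' ∈ Subgroup.centralizer (E : Set G) := Subgroup.pow_mem _ hgR _
      have hg'u : g' * u₂ = u₂ * g' := ((show Commute g u₂ from hgu).pow_left _).eq
      obtain ⟨k, hk⟩ := d.exists_k g'
      have h1 := d.dvd_of_pow_mem hk ht2
      rcases MaxClass.sq_one_mod_two_pow n hn2 k (by exact_mod_cast h1) with h2 | h2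
      · apply ht1
        exact hVR g' (d.mem_V_of_dvd hk (by exact_mod_cast h2)) hg'R
      · have h5 := hconj g' k hk
        rw [hg'u] at h5
        have h6 : u₂ ^ k = u₂ ^ (1 : ℤ) := by rw [← h5]; group
        have h7 := (MaxClass.zpow_eq_iff hord _ _).1 h6
        have h8 : (4 : ℤ) ∣ k + 1 := dvd_trans h4n h2
        push_cast at h7
        omega
    -- C2
    have C2 : ∀ g ∈ Subgroup.centralizer (E : Set G), g ∉ Subgroup.zpowers u → g * u₂ * g⁻¹ = u₂⁻¹ := by
      intro g hgR hgU
      obtain ⟨k, hk⟩ := d.exists_k g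
      have h5 := hconj g k hk
      have hodd : ¬ (2 : ℤ) ∣ k := by
        rintro ⟨m, rfl⟩
        have h6 : g * u₂ ^ 2 * g⁻¹ = 1 := by
          rw [← conj_pow, h5, ← zpow_natCast, ← zpow_mul]
          have : (2 : ℤ) * m * ((2 : ℕ) : ℤ) = (orderOf u₂ : ℤ) * m := by rw [hord]; push_cast; ring
          rw [this, zpow_mul, zpow_natCast, pow_orderOf_eq_one, one_zpow]
        have h7 : u₂ ^ 2 = 1 := by
          calc u₂ ^ 2 = g⁻¹ * (g * u₂ ^ 2 * g⁻¹) * g := by group
            _ = 1 := by rw [h6]; group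
        have h8 := orderOf_dvd_of_pow_eq_one h7
        rw [hord] at h8
        norm_num at h8
      have hk4 : (4 : ℤ) ∣ k - 1 ∨ (4 : ℤ) ∣ k - (-1) := by omega
      rcases hk4 with h6 | h6
      · exfalso
        apply hgU
        apply C1 g hgR
        have h7 : u₂ ^ k = u₂ ^ (1 : ℤ) := (MaxClass.zpow_eq_iff hord _ _).2 (by exact_mod_cast h6)
        rw [h7, zpow_one] at h5
        calc g * u₂ = g * u₂ * g⁻¹ * g := by group
          _ = u₂ * g := by rw [h5]
      · rw [h5]
        have h7 : u₂ ^ k = u₂ ^ (-1 : ℤ) := (MaxClass.zpow_eq_iff hord _ _).2 (by exact_mod_cast h6)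
        rw [h7, zpow_neg_one]
    -- C3
    have C3 : ∀ g ∈ Subgroup.centralizer (E : Set G), g ∉ Subgroup.zpowers u →
        ∀ h ∈ Subgroup.centralizer (E : Set G), h ∉ Subgroup.zpowers u → h * g ∈ Subgroup.zpowers u := by
      intro g hgR hgU h hhR hhU
      apply C1 _ (mul_mem hhR hgR)
      have h1 := C2 g hgR hgU
      have h2 := C2 h hhR hhU
      have h3 : h * g * u₂ * (h * g)⁻¹ = u₂ := by
        calc h * g * u₂ * (h * g)⁻¹ = h * (g * u₂ * g⁻¹) * h⁻¹ := by group
          _ = (h * u₂ * h⁻¹)⁻¹ := by rw [h1]; group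
          _ = u₂ := by rw [h2, inv_inv]
      calc h * g * u₂ = h * g * u₂ * (h * g)⁻¹ * (h * g) := by group
        _ = u₂ * (h * g) := by rw [h3]
    apply d.concl_of
    right
    set R := Subgroup.centralizer (E : Set G) with hRdef
    have hUR : Subgroup.zpowers u ≤ R := fun v hv => d.UR hv
    set C := (Subgroup.zpowers u).subgroupOf R with hC
    have hCi : C.index = 2 := by
      rw [Subgroup.index_eq_two_iff]
      refine ⟨⟨g, hgR⟩, ?_⟩
      rintro ⟨b, hb⟩
      by_cases hbU : b ∈ Subgroup.zpowers u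
      · right
        refine ⟨Subgroup.mem_subgroupOf.2 hbU, ?_⟩
        intro h
        apply hgU
        have h1 : b * g ∈ Subgroup.zpowers u := Subgroup.mem_subgroupOf.1 h
        have := mul_mem (inv_mem hbU) h1
        rwa [inv_mul_cancel_left] at this
      · left
        exact ⟨Subgroup.mem_subgroupOf.2 (C3 g hgR hgU b hb hbU), fun h => hbU (Subgroup.mem_subgroupOf.1 h)⟩
    have hCcard : Nat.card C = 2 ^ n := by
      rw [hC, Nat.card_congr (Subgroup.subgroupOfEquivOfLe hUR).toEquiv, Nat.card_zpowers, d.ord]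
    have hRcard : Nat.card R = 2 ^ (n + 1) := by
      rw [← Subgroup.card_mul_index C, hCcard, hCi, pow_succ]
    have hCcyc : IsCyclic C := by
      have h1 : IsCyclic (Subgroup.zpowers u) := inferInstance
      exact isCyclic_of_surjective (Subgroup.subgroupOfEquivOfLe hUR).symm.toMonoidHom
        (Subgroup.subgroupOfEquivOfLe hUR).symm.surjective
    obtain ⟨a, b, haC, ha, hb, h⟩ := MaxClass.two_group_cyclic_max (n + 1) (by omega) hRcard C hCcyc hCi (by
      refine ⟨⟨g, hgR⟩, ⟨u, hUR (Subgroup.mem_zpowers u)⟩, ?_⟩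
      intro h
      exact hgU (d.CRU hgR (congrArg Subtype.val h)))
    refine ⟨rfl, ?_, ?_⟩
    · rw [hRcard]
      calc 16 = 2 ^ 4 := by norm_num
        _ ≤ 2 ^ (n + 1) := Nat.pow_le_pow_right (by norm_num) (by omega)
    · have e1 : n + 1 - 1 = n := by omega
      have e2 : n + 1 - 2 = n - 1 := by omega
      rw [e1] at ha
      rw [e2] at h
      rcases h with ⟨hb2, hab⟩ | ⟨hb2, hab⟩ | ⟨_, hb2, hab⟩ | ⟨_, hb2, hab⟩
      · left
        refine ⟨2 ^ n, MaxClass.nonempty_mulEquiv_dihedral (by positivity) ha hb hb2 hab ?_⟩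
        rw [hRcard, pow_succ, mul_comm]
      · right; left
        refine ⟨2 ^ (n - 1), MaxClass.nonempty_mulEquiv_quaternion (by positivity) ?_ hb hb2 hab ?_⟩
        · rw [ha, ← pow_succ']; congr 1; omega
        · rw [hRcard]
          have : n + 1 = (n - 1) + 2 := by omega
          rw [this, pow_add]; ring
      · exfalso
        -- b ∈ V
        have hbU : (b : G) ∉ Subgroup.zpowers u := by
          intro h
          apply hb
          rw [haC]
          exact Subgroup.mem_subgroupOf.2 h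
        have haU : (a : G) ∈ Subgroup.zpowers u := by
          have : a ∈ C := by rw [← haC]; exact Subgroup.mem_zpowers a
          exact Subgroup.mem_subgroupOf.1 this
        have haG : orderOf (a : G) = 2 ^ n := by rw [Subgroup.orderOf_coe]; exact ha
        have hua : u ∈ Subgroup.zpowers (a : G) := by
          apply mem_zpowers_sub d.cyc haU (Subgroup.mem_zpowers u)
          rw [haG, ← d.ord, pow_orderOf_eq_one]
        apply hbU
        apply hVR _ _ b.2
        rw [d.mem_Vs]
        obtain ⟨j, hj⟩ := Subgroup.mem_zpowers_iff.1 hua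
        have hab' : (b : G) * a * (b : G)⁻¹ = (a : G) ^ (1 + 2 ^ (n - 1)) := by
          have := congrArg Subtype.val hab
          exact_mod_cast this
        have h1 : (b : G) * u * (b : G)⁻¹ * u⁻¹ = ((a : G) ^ 2 ^ (n - 1)) ^ j := by
          rw [← hj, ← conj_zpow, hab', pow_add, pow_one]
          have : Commute (a : G) ((a : G) ^ 2 ^ (n - 1)) := (Commute.refl _).pow_right _
          rw [this.eq, this.symm.mul_zpow]
          group
        rw [h1]
        apply d.mem_Z
        · exact Subgroup.zpow_mem _ (Subgroup.pow_mem _ haU _) _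
        · rw [← zpow_natCast, ← zpow_mul, mul_comm, zpow_mul, zpow_natCast, ← pow_mul, ← pow_succ]
          have : n - 1 + 1 = n := by omega
          rw [this, ← haG, pow_orderOf_eq_one, one_zpow]
      · right; right
        refine ⟨n, h3, hRcard, a, b, ha, ?_, hab⟩
        apply orderOf_eq_prime hb2
        intro h
        apply hb
        rw [h]; exact one_mem _

end two

end ED

theorem main {G : Type*} [Group G] [Finite G] {p : ℕ} [hp : Fact p.Prime] (hG : IsPGroup p G)
    (hsymp : ∀ A : Subgroup G, A.Characteristic → IsMulCommutative A → IsCyclic A) : ED.Concl p G := by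
  obtain ⟨H, hHc, hΦ, hcm, hC⟩ := Cfsg.Agent.S0093.key hG
  set U := Subgroup.centralizer (H : Set G) with hU
  have hUchar : U.Characteristic := by
    have := hHc
    infer_instance
  have hUcomm : IsMulCommutative U := by
    rw [← Subgroup.le_centralizer_iff_isMulCommutative]
    exact Subgroup.centralizer_le (SetLike.coe_subset_coe.2 hC)
  have hUcyc := hsymp U hUchar hUcomm
  obtain ⟨⟨u, huU⟩, hu⟩ := hUcyc.exists_generator
  have huU' : Subgroup.zpowers u = U := by
    apply le_antisymm
    · rw [Subgroup.zpowers_le]; exact huU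
    · intro x hx
      obtain ⟨k, hk⟩ := Subgroup.mem_zpowers_iff.1 (hu ⟨x, hx⟩)
      exact Subgroup.mem_zpowers_iff.2 ⟨k, congrArg Subtype.val hk⟩
  obtain ⟨n, hn⟩ := (IsPGroup.iff_orderOf.1 hG) u
  by_cases hn0 : n = 0
  · -- U trivial, so G trivial
    have hu1 : u = 1 := by rwa [hn0, pow_zero, orderOf_eq_one_iff] at hn
    have hbot : U = ⊥ := by rw [← huU', hu1, Subgroup.zpowers_one_eq_bot]
    have hcen : Subgroup.center G = ⊥ := by
      rw [eq_bot_iff, ← hbot]
      exact Subgroup.center_le_centralizer _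
    have hsub : Subsingleton G := by
      by_contra hcon
      rw [not_subsingleton_iff_nontrivial] at hcon
      have := hG.center_nontrivial
      rw [hcen] at this
      exact not_nontrivial _ this
    refine ⟨⊥, ⊤, ?_, bot_sup_eq _, Or.inl rfl, Or.inl ?_⟩
    · intro e _ r _
      exact Subsingleton.elim _ _
    · haveI : Subsingleton (⊤ : Subgroup G) := ⟨fun a b => Subtype.ext (Subsingleton.elim _ _)⟩
      infer_instance
  · have c : Ctx p n H u :=
      { pg := hG
        symp := hsymp
        hchar := hHc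
        pw := by
          intro h hh
          apply hΦ
          have h1 := Cfsg.Agent.Solv.pow_mem_frattini_of_pGroup (hG.to_subgroup H) ⟨h, hh⟩
          exact ⟨_, h1, rfl⟩
        cm := by
          intro h hh g
          exact (hcm (Subgroup.commutator_mem_commutator hh (Subgroup.mem_top g))).2
        ch := hC
        hu := huU'
        ord := hn
        n1 := by omega }
    obtain ⟨E, h1, h2, h3, h4, h5⟩ := c.exists_E
    have d : ED p n H u E := { c with ZE := h1, EH := h2, Ep := h3, EU := h4, FE := h5 }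
    by_cases hp2 : p = 2
    · subst hp2
      exact d.two_case
    · exact d.odd_case hp2

end Cfsg.Agent.H64.Symp
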