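import Cfsg.Agent.H71.MtDef

/-!
# S4351 (Martineau), piece P5 (helper64 for helper71)
-/

set_option autoImplicit false
set_option linter.unusedVariables false
set_option linter.unusedSectionVars false

namespace Cfsg.Agent.H64.MtP5

open Cfsg.Agent.H71.Mt

universe v

/-- additive maps `F → V` -/
def MM (F : Type) (V : Type v) [Field F] [AddCommGroup V] : Type v := F →+ V

section

variable {F : Type} {V : Type v} [Field F] [AddCommGroup V]

instance : AddCommGroup (MM F V) := inferInstanceAs (AddCommGroup (F →+ V))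

instance : FunLike (MM F V) F V := inferInstanceAs (FunLike (F →+ V) F V)

instance : AddMonoidHomClass (MM F V) F V := inferInstanceAs (AddMonoidHomClass (F →+ V) F V)

theorem MM.ext {f g : MM F V} (h : ∀ x, f x = g x) : f = g := DFunLike.ext f g h

theorem MM.add_apply (f g : MM F V) (x : F) : (f + g) x = f x + g x := rfl

theorem MM.zero_apply (x : F) : (0 : MM F V) x = 0 := rfl

instance : Module F (MM F V) where
  smul c f := AddMonoidHom.comp (f : F →+ V) (AddMonoidHom.mulLeft c)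
  one_smul f := MM.ext (fun x => by show f (1 * x) = f x; rw [one_mul])
  mul_smul c d f := MM.ext (fun x => by show f (c * d * x) = f (d * (c * x)); congr 1; ring)
  smul_zero c := MM.ext (fun x => rfl)
  smul_add c f g := MM.ext (fun x => rfl)
  add_smul c d f := MM.ext (fun x => by show f ((c + d) * x) = f (c * x) + f (d * x); rw [add_mul, map_add])
  zero_smul f := MM.ext (fun x => by show f (0 * x) = 0; rw [zero_mul, map_zero])

theorem MM.smul_apply (c : F) (f : MM F V) (x : F) : (c • f) x = f (c * x) := rfl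

instance [Finite F] [Finite V] : Finite (MM F V) :=
  Finite.of_injective (fun f : MM F V => (f : F → V)) DFunLike.coe_injective

variable {X : Type*} [Group X]

/-- the action on `MM F V` -/
def rM (ρ : X →* AddMonoid.End V) : Representation F X (MM F V) where
  toFun g :=
    { toFun := fun f => AddMonoidHom.comp (ρ g : V →+ V) (f : F →+ V)
      map_add' := fun f f' => MM.ext (fun x => map_add (ρ g) (f x) (f' x))
      map_smul' := fun c f => MM.ext (fun x => rfl) }
  map_one' := by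
    ext f
    apply MM.ext
    intro x
    show ρ 1 (f x) = f x
    rw [map_one]; rfl
  map_mul' g h := by
    ext f
    apply MM.ext
    intro x
    show ρ (g * h) (f x) = ρ g (ρ h (f x))
    rw [map_mul]; rfl

theorem rM_apply (ρ : X →* AddMonoid.End V) (g : X) (f : MM F V) (x : F) : rM ρ g f x = ρ g (f x) := rfl

theorem exists_ne_zero [CharP F 2] (h2 : ∀ v : V, v + v = 0) {v0 : V} (hv0 : v0 ≠ 0) : ∃ f : MM F V, f ≠ 0 := by
  letI : Algebra (ZMod 2) F := ZMod.algebra F 2
  letI : Module (ZMod 2) V := AddCommGroup.zmodModule (fun x => by rw [two_nsmul]; exact h2 x)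
  obtain ⟨φ, hφ⟩ : ∃ φ : Module.Dual (ZMod 2) F, φ 1 ≠ 0 := by
    by_contra hcon
    push Not at hcon
    exact one_ne_zero ((Module.forall_dual_apply_eq_zero_iff (ZMod 2) (1 : F)).1 hcon)
  refine ⟨((LinearMap.smulRight φ v0 : F →ₗ[ZMod 2] V).toAddMonoidHom : F →+ V), ?_⟩
  intro h
  have h1 : (φ 1) • v0 = 0 := by
    have := congrArg (fun f : MM F V => f 1) h
    exact this
  rcases smul_eq_zero.1 h1 with h3 | h3
  · exact hφ h3
  · exact hv0 h3

end

section sub

variable {X : Type*} [Group X] {F : Type} [Field F] {M : Type v} [AddCommGroup M] [Module F M]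

/-- restriction of a representation -/
def rsub (ρ : Representation F X M) (W : Submodule F M) (hW : ∀ g : X, ∀ v ∈ W, ρ g v ∈ W) : Representation F X W where
  toFun g := (ρ g).restrict (hW g)
  map_one' := by
    ext f
    show ρ 1 (f : M) = f
    rw [map_one]; rfl
  map_mul' g h := by
    ext f
    show ρ (g * h) (f : M) = ρ g (ρ h (f : M))
    rw [map_mul]; rfl

theorem rsub_apply (ρ : Representation F X M) (W : Submodule F M) (hW : ∀ g : X, ∀ v ∈ W, ρ g v ∈ W) (g : X) (v : W) :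
    ((rsub ρ W hW g v : W) : M) = ρ g (v : M) := rfl

theorem exists_irr [Finite M] (ρ : Representation F X M) (h0 : ∃ v : M, v ≠ 0) :
    ∃ (W : Submodule F M) (hW : ∀ g : X, ∀ v ∈ W, ρ g v ∈ W), IrrF (rsub ρ W hW) := by
  classical
  have hfin : {W : Submodule F M | W ≠ ⊥ ∧ ∀ g : X, ∀ v ∈ W, ρ g v ∈ W}.Finite := Set.toFinite _
  have hne : {W : Submodule F M | W ≠ ⊥ ∧ ∀ g : X, ∀ v ∈ W, ρ g v ∈ W}.Nonempty := by
    refine ⟨⊤, ?_, fun g v _ => trivial⟩
    intro h
    obtain ⟨v, hv⟩ := h0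
    apply hv
    have : v ∈ (⊤ : Submodule F M) := trivial
    rwa [h, Submodule.mem_bot] at this
  obtain ⟨W, hW⟩ := hfin.exists_minimal hne
  refine ⟨W, hW.prop.2, ?_, ?_⟩
  · obtain ⟨v, hv, hv0⟩ := Submodule.exists_mem_ne_zero_of_ne_bot hW.prop.1
    exact ⟨⟨v, hv⟩, fun h => hv0 (congrArg Subtype.val h)⟩
  · intro U hU
    by_cases hU0 : U = ⊥
    · exact Or.inl hU0
    · right
      have h1 : U.map W.subtype ≤ W := by
        rintro _ ⟨u, -, rfl⟩
        exact u.2
      have h2 : U.map W.subtype ∈ {W : Submodule F M | W ≠ ⊥ ∧ ∀ g : X, ∀ v ∈ W, ρ g v ∈ W} := by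
        refine ⟨?_, ?_⟩
        · intro h3
          apply hU0
          rw [eq_bot_iff]
          intro u hu
          have h4 : (u : M) ∈ U.map W.subtype := ⟨u, hu, rfl⟩
          rw [h3, Submodule.mem_bot] at h4
          exact (Submodule.mem_bot F).2 (Subtype.ext h4)
        · rintro g _ ⟨u, hu, rfl⟩
          exact ⟨rsub ρ W hW.prop.2 g u, hU g u hu, rfl⟩
      have h3 := hW.le_of_le h2 h1
      rw [eq_top_iff]
      intro x _
      obtain ⟨u, hu, hux⟩ := h3 x.2
      have : u = x := Subtype.ext hux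
      rwa [← this]

end sub

section main

variable {X : Type*} [Group X] {F : Type} [Field F] [Fintype F] {θ : F ≃+* F} {S E K : Subgroup X}
  {w s0 : X} {a b κ : X → F}

/-- every nonzero element of `F` is `κ θ⁻¹(κ)` -/
theorem surj_lam (D : SzD θ S E K w s0 a b κ) {d : F} (hd : d ≠ 0) : ∃ k ∈ K, κ k * θ.symm (κ k) = d := by
  have hθ : θ d ≠ 0 := (map_ne_zero θ).2 hd
  obtain ⟨k, hk, hkk⟩ := D.κ_surj (d * d / θ d) (div_ne_zero (mul_ne_zero hd hd) hθ)
  refine ⟨k, hk, ?_⟩
  have h1 : θ.symm (d * d / θ d) = θ d / d := by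
    apply θ.injective
    rw [θ.apply_symm_apply, map_div₀, D.theta]
  rw [hkk, h1]
  field_simp

/-- a nonzero invariant additive subgroup contains a nonzero multiple of `v1` -/
theorem exists_v1 (D : SzD θ S E K w s0 a b κ) {τ : F ≃+* F} {V : Type v} [AddCommGroup V] [Module F V]
    {ρ : Representation F X V} {v1 v2 v3 v4 : V} (N : Nat4 θ S E K w a b κ τ ρ v1 v2 v3 v4)
    (I : AddSubgroup V) (hI : ∀ g : X, ∀ v ∈ I, ρ g v ∈ I) (h0 : I ≠ ⊥) : ∃ c : F, c ≠ 0 ∧ c • v1 ∈ I := by
  obtain ⟨s, hs, hsa⟩ := D.a_surj 1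
  have hτ : τ (a s) = 1 := by rw [hsa, map_one]
  have hτθ : τ (θ (a s)) = 1 := by rw [hsa, map_one, map_one]
  obtain ⟨e, h3⟩ := N.s3 s hs
  obtain ⟨f, g, h4⟩ := N.s4 s hs
  have h1 := N.s1 s hs
  have h2 := N.s2 s hs
  rw [hτ] at h2 h4
  rw [hτθ] at h3
  -- step C
  have stepC : ∀ x1 x2 : F, x2 ≠ 0 → x1 • v1 + x2 • v2 ∈ I → ∃ c : F, c ≠ 0 ∧ c • v1 ∈ I := by
    intro x1 x2 hx hv
    refine ⟨x2, hx, ?_⟩
    have h5 := I.sub_mem (hI s _ hv) hv
    have h6 : ρ s (x1 • v1 + x2 • v2) - (x1 • v1 + x2 • v2) = x2 • v1 := by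
      rw [map_add, map_smul, map_smul, h1, h2]
      module
    rwa [h6] at h5
  have stepB : ∀ x1 x2 x3 : F, x3 ≠ 0 → x1 • v1 + x2 • v2 + x3 • v3 ∈ I → ∃ c : F, c ≠ 0 ∧ c • v1 ∈ I := by
    intro x1 x2 x3 hx hv
    have h5 := I.sub_mem (hI s _ hv) hv
    have h6 : ρ s (x1 • v1 + x2 • v2 + x3 • v3) - (x1 • v1 + x2 • v2 + x3 • v3) = (x2 + x3 * e) • v1 + x3 • v2 := by
      rw [map_add, map_add, map_smul, map_smul, map_smul, h1, h2, h3]
      module
    rw [h6] at h5
    exact stepC _ _ hx h5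
  have stepA : ∀ x1 x2 x3 x4 : F, x4 ≠ 0 → x1 • v1 + x2 • v2 + x3 • v3 + x4 • v4 ∈ I → ∃ c : F, c ≠ 0 ∧ c • v1 ∈ I := by
    intro x1 x2 x3 x4 hx hv
    have h5 := I.sub_mem (hI s _ hv) hv
    have h6 : ρ s (x1 • v1 + x2 • v2 + x3 • v3 + x4 • v4) - (x1 • v1 + x2 • v2 + x3 • v3 + x4 • v4) =
        (x2 + x3 * e + x4 * g) • v1 + (x3 + x4 * f) • v2 + x4 • v3 := by
      rw [map_add, map_add, map_add, map_smul, map_smul, map_smul, map_smul, h1, h2, h3, h4]
      module
    rw [h6] at h5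
    exact stepB _ _ _ hx h5
  obtain ⟨v, hv, hv0⟩ : ∃ v ∈ I, v ≠ 0 := by
    by_contra hcon
    push Not at hcon
    exact h0 ((AddSubgroup.eq_bot_iff_forall I).2 hcon)
  obtain ⟨x1, x2, x3, x4, rfl⟩ := N.span v
  by_cases h44 : x4 = 0
  · rw [h44, zero_smul, add_zero] at hv hv0
    by_cases h33 : x3 = 0
    · rw [h33, zero_smul, add_zero] at hv hv0
      by_cases h22 : x2 = 0
      · rw [h22, zero_smul, add_zero] at hv hv0
        refine ⟨x1, ?_, hv⟩
        rintro rfl
        exact hv0 (zero_smul _ _)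
      · exact stepC _ _ h22 hv
    · exact stepB _ _ _ h33 hv
  · exact stepA _ _ _ _ h44 hv

/-- an invariant additive subgroup of an irreducible module with `Nat4` is trivial or everything -/
theorem eq_top_of_ne_bot (D : SzD θ S E K w s0 a b κ) {τ : F ≃+* F} {V : Type v} [AddCommGroup V] [Module F V]
    {ρ : Representation F X V} (hi : IrrF ρ) {v1 v2 v3 v4 : V} (N : Nat4 θ S E K w a b κ τ ρ v1 v2 v3 v4)
    (I : AddSubgroup V) (hI : ∀ g : X, ∀ v ∈ I, ρ g v ∈ I) (h0 : I ≠ ⊥) : I = ⊤ := by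
  obtain ⟨c, hc, hcI⟩ := exists_v1 D N I hI h0
  have hv1 : ∀ d : F, d • v1 ∈ I := by
    intro d
    by_cases hd : d = 0
    · rw [hd, zero_smul]; exact I.zero_mem
    obtain ⟨k, hk, hkd⟩ := surj_lam D (d := τ.symm (d / c)) ((map_ne_zero τ.symm).2 (div_ne_zero hd hc))
    have h1 := hI k _ hcI
    rw [map_smul, N.k1 k hk, hkd, τ.apply_symm_apply, smul_smul] at h1
    have h2 : c * (d / c) = d := by field_simp
    rwa [h2] at h1
  let J : Submodule F V :=
    { carrier := {f | ∀ c : F, c • f ∈ I}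
      add_mem' := fun {x y} hx hy c => by rw [smul_add]; exact I.add_mem (hx c) (hy c)
      zero_mem' := fun c => by rw [smul_zero]; exact I.zero_mem
      smul_mem' := fun d x hx c => by rw [smul_smul]; exact hx _ }
  have hJ : ∀ {f : V}, f ∈ J ↔ ∀ c : F, c • f ∈ I := Iff.rfl
  have hv10 : v1 ≠ 0 := by
    intro h
    have := (N.indep 1 0 0 0 (by rw [h]; simp)).1
    exact one_ne_zero this
  have hJt : J = ⊤ := by
    rcases hi.2 J (fun g f hf c => by rw [← map_smul]; exact hI g _ (hf c)) with h | h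
    · exfalso
      have h1 : v1 ∈ J := hv1
      rw [h, Submodule.mem_bot] at h1
      exact hv10 h1
    · exact h
  rw [eq_top_iff]
  intro x _
  have h1 : x ∈ J := by rw [hJt]; trivial
  have h2 := h1 1
  rwa [one_smul] at h2

/-- transport along an equivariant additive equivalence, removing `τ` -/
theorem transport {τ : F ≃+* F} {W V : Type v} [AddCommGroup W] [Module F W] [AddCommGroup V]
    {ρ : Representation F X W} {v1 v2 v3 v4 : W} (N : Nat4 θ S E K w a b κ τ ρ v1 v2 v3 v4)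
    (ρV : X →* AddMonoid.End V) (e : W ≃+ V) (he : ∀ g x, ρV g (e x) = e (ρ g x)) :
    ∃ (_ : Module F V) (ρ' : Representation F X V) (v1 v2 v3 v4 : V), (∀ g v, ρ' g v = ρV g v) ∧
      Nat4 θ S E K w a b κ (RingEquiv.refl F) ρ' v1 v2 v3 v4 := by
  letI mod : Module F V :=
    { smul := fun c v => e (τ c • e.symm v)
      one_smul := fun v => by show e (τ 1 • e.symm v) = v; rw [map_one, one_smul, e.apply_symm_apply]
      mul_smul := fun c d v => by
        show e (τ (c * d) • e.symm v) = e (τ c • e.symm (e (τ d • e.symm v)))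
        rw [e.symm_apply_apply, map_mul, mul_smul]
      smul_zero := fun c => by show e (τ c • e.symm 0) = 0; rw [map_zero, smul_zero, map_zero]
      smul_add := fun c x y => by
        show e (τ c • e.symm (x + y)) = e (τ c • e.symm x) + e (τ c • e.symm y)
        rw [map_add, smul_add, map_add]
      add_smul := fun c d x => by
        show e (τ (c + d) • e.symm x) = e (τ c • e.symm x) + e (τ d • e.symm x)
        rw [map_add, add_smul, map_add]
      zero_smul := fun x => by show e (τ 0 • e.symm x) = 0; rw [map_zero, zero_smul, map_zero] }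
  have hsm : ∀ (c : F) (x : W), c • (e x) = e (τ c • x) := by
    intro c x
    show e (τ c • e.symm (e x)) = _
    rw [e.symm_apply_apply]
  have hsm' : ∀ (c : F) (x : W), e (c • x) = τ.symm c • e x := by
    intro c x
    rw [hsm, τ.apply_symm_apply]
  let ρ' : Representation F X V :=
    { toFun := fun g =>
        { toFun := ρV g
          map_add' := fun x y => map_add (ρV g) x y
          map_smul' := fun c x => by
            obtain ⟨y, rfl⟩ := e.surjective x
            show ρV g (c • e y) = c • ρV g (e y)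
            rw [hsm, he, he, map_smul, hsm] }
      map_one' := by
        ext x
        show ρV 1 x = x
        rw [map_one]; rfl
      map_mul' := fun g h => by
        ext x
        show ρV (g * h) x = ρV g (ρV h x)
        rw [map_mul]; rfl }
  have hρ : ∀ g x, ρ' g (e x) = e (ρ g x) := he
  refine ⟨mod, ρ', e v1, e v2, e v3, e v4, fun g v => rfl, ?_⟩
  constructor
  · intro v
    obtain ⟨y, rfl⟩ := e.surjective v
    obtain ⟨x1, x2, x3, x4, rfl⟩ := N.span y
    refine ⟨τ.symm x1, τ.symm x2, τ.symm x3, τ.symm x4, ?_⟩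
    rw [map_add, map_add, map_add, hsm', hsm', hsm', hsm']
  · intro x1 x2 x3 x4 h
    rw [hsm, hsm, hsm, hsm, ← map_add, ← map_add, ← map_add] at h
    have h1 := e.injective (h.trans (map_zero e).symm)
    obtain ⟨i1, i2, i3, i4⟩ := N.indep _ _ _ _ h1
    exact ⟨(map_eq_zero τ).1 i1, (map_eq_zero τ).1 i2, (map_eq_zero τ).1 i3, (map_eq_zero τ).1 i4⟩
  · intro s hs
    rw [hρ, N.s1 s hs]
  · intro s hs
    rw [hρ, N.s2 s hs, map_add, hsm]; rfl
  · intro s hs
    obtain ⟨x, hx⟩ := N.s3 s hs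
    refine ⟨τ.symm x, ?_⟩
    rw [hρ, hx, map_add, map_add, hsm, hsm, τ.apply_symm_apply]; rfl
  · intro s hs
    obtain ⟨x, y, hx⟩ := N.s4 s hs
    refine ⟨τ.symm x, τ.symm y, ?_⟩
    rw [hρ, hx, map_add, map_add, map_add, hsm, hsm, hsm, τ.apply_symm_apply, τ.apply_symm_apply]; rfl
  · intro t ht
    rw [hρ, N.e3 t ht, map_add, hsm]; rfl
  · intro t ht
    rw [hρ, N.e4 t ht, map_add, map_add, hsm, hsm]; rfl
  · intro k hk
    rw [hρ, N.k1 k hk, hsm]; rfl
  · intro k hk
    rw [hρ, N.k2 k hk, hsm]; rfl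
  · intro k hk
    rw [hρ, N.k3 k hk, hsm, map_inv₀]; rfl
  · intro k hk
    rw [hρ, N.k4 k hk, hsm, map_inv₀]; rfl
  · obtain ⟨c, hc, h⟩ := N.wv
    refine ⟨τ.symm c, (map_ne_zero τ.symm).2 hc, ?_⟩
    rw [hρ, h, hsm, τ.apply_symm_apply]

/-- [P5] (natF as hypothesis) -/
theorem exists_nat [Finite X] (D : SzD θ S E K w s0 a b κ)
    (natF : ∀ {V : Type v} [AddCommGroup V] [Module F V] [Finite V] (ρ : Representation F X V), FpfF ρ → IrrF ρ →
      ∃ (τ : F ≃+* F) (v1 v2 v3 v4 : V), Nat4 θ S E K w a b κ τ ρ v1 v2 v3 v4)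
    {V : Type v} [AddCommGroup V] [Finite V] (h2 : ∀ v : V, v + v = 0) (ρ : X →* AddMonoid.End V) (hf : Fpf2 ρ)
    (hi : Irr2 ρ) :
    ∃ (_ : Module F V) (ρ' : Representation F X V) (v1 v2 v3 v4 : V), (∀ g v, ρ' g v = ρ g v) ∧
      Nat4 θ S E K w a b κ (RingEquiv.refl F) ρ' v1 v2 v3 v4 := by
  classical
  haveI := D.char
  obtain ⟨v0, hv0⟩ := hi.1
  obtain ⟨W, hW, hirr⟩ := exists_irr (rM (F := F) ρ) (exists_ne_zero h2 hv0)
  have hfpf : FpfF (rsub (rM (F := F) ρ) W hW) := by
    intro g hg hg1 f hfix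
    apply Subtype.ext
    apply MM.ext
    intro x
    apply hf g hg hg1
    have h1 := congrArg (fun f : W => (f : MM F V) x) hfix
    exact h1
  obtain ⟨τ, v1, v2, v3, v4, N⟩ := natF (rsub (rM (F := F) ρ) W hW) hfpf hirr
  let ev : W →+ V :=
    { toFun := fun f => (f : MM F V) 1
      map_zero' := rfl
      map_add' := fun f g => rfl }
  have hev : ∀ g f, ρ g (ev f) = ev (rsub (rM (F := F) ρ) W hW g f) := fun g f => rfl
  have hne : ∃ f : W, ev f ≠ 0 := by
    obtain ⟨f, hf0⟩ := hirr.1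
    by_contra hcon
    push Not at hcon
    apply hf0
    apply Subtype.ext
    apply MM.ext
    intro x
    have h1 := hcon (x • f)
    have h3 : ((x • f : W) : MM F V) 1 = (f : MM F V) (x * 1) := rfl
    rw [mul_one] at h3
    exact h3.symm.trans h1
  have hinj : Function.Injective ev := by
    rw [← AddMonoidHom.ker_eq_bot_iff]
    by_contra hcon
    have h1 := eq_top_of_ne_bot D hirr N ev.ker (fun g f hf => by
      rw [AddMonoidHom.mem_ker] at hf ⊢
      rw [← hev, hf, map_zero]) hcon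
    obtain ⟨f, hf⟩ := hne
    apply hf
    rw [← AddMonoidHom.mem_ker, h1]
    trivial
  have hsurj : Function.Surjective ev := by
    rw [← AddMonoidHom.range_eq_top]
    rcases hi.2 ev.range (by
      rintro g _ ⟨f, rfl⟩
      exact ⟨rsub (rM (F := F) ρ) W hW g f, (hev g f).symm⟩) with h | h
    · exfalso
      obtain ⟨f, hf⟩ := hne
      apply hf
      have h1 : ev f ∈ ev.range := ⟨f, rfl⟩
      rw [h] at h1
      exact AddSubgroup.mem_bot.1 h1
    · exact h
  exact transport N ρ (AddEquiv.ofBijective ev ⟨hinj, hsurj⟩) (fun g x => hev g x)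

end main

end Cfsg.Agent.H64.MtP5
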