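import Cfsg.Agent.H64.Basic

set_option autoImplicit false

/-! Real elements: an element conjugate to its inverse is inverted by a 2-element. -/

namespace Cfsg.Agent.H64

variable {G : Type*} [Group G]

/-- If `g` inverts `x` then odd powers of `g` invert `x` and even powers centralize it. -/
theorem conj_pow_inverting {g x : G} (h : g * x * g⁻¹ = x⁻¹) (n : ℕ) :
    g ^ (2 * n) * x * (g ^ (2 * n))⁻¹ = x ∧ g ^ (2 * n + 1) * x * (g ^ (2 * n + 1))⁻¹ = x⁻¹ := by
  have h2 : g * x⁻¹ * g⁻¹ = x := by
    have := congrArg (fun y => y⁻¹) h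
    simpa [mul_assoc] using this
  have step : ∀ (y : G) (k : ℕ), g ^ (k + 1) * y * (g ^ (k + 1))⁻¹ = g * (g ^ k * y * (g ^ k)⁻¹) * g⁻¹ := by
    intro y k
    rw [pow_succ' g k]
    group
  induction n with
  | zero => simpa using h
  | succ n ih =>
    have h3 : g ^ (2 * (n + 1)) * x * (g ^ (2 * (n + 1)))⁻¹ = x := by
      rw [show 2 * (n + 1) = (2 * n + 1) + 1 by ring, step, ih.2, h2]
    refine ⟨h3, ?_⟩
    rw [step, h3, h]

/-- A real element of a finite group is inverted by a 2-element. -/
theorem exists_two_element_inverting [Finite G] {x : G} (hx : IsConj x x⁻¹) :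
    ∃ t : G, (∃ j : ℕ, orderOf t = 2 ^ j) ∧ t * x * t⁻¹ = x⁻¹ := by
  rw [isConj_iff] at hx
  obtain ⟨g, hg⟩ := hx
  have ho : orderOf g ≠ 0 := (orderOf_pos g).ne'
  obtain ⟨k, m, hm, hkm⟩ := Nat.exists_eq_two_pow_mul_odd ho
  obtain ⟨n, hn⟩ := hm
  refine ⟨g ^ m, ⟨k, ?_⟩, ?_⟩
  · rw [orderOf_pow' g (by omega : m ≠ 0), hkm]
    rw [Nat.gcd_eq_right (Dvd.intro_left _ rfl)]
    exact Nat.mul_div_cancel _ (by omega)
  · rw [hn]
    exact (conj_pow_inverting hg n).2

/-- A real element whose class has odd size has order at most two. -/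
theorem sq_eq_one_of_real_odd_class [Finite G] {x : G} (hx : IsConj x x⁻¹)
    (hodd : Odd (Subgroup.centralizer ({x} : Set G)).index) : x ^ 2 = 1 := by
  obtain ⟨t, ⟨j, htj⟩, ht⟩ := exists_two_element_inverting hx
  by_contra hne
  -- the subgroup C ⟨t⟩
  set C := Subgroup.centralizer ({x} : Set G) with hC
  have htN : t ∉ C := by
    intro h
    rw [hC, Subgroup.mem_centralizer_singleton_iff] at h
    apply hne
    have h1 : x = x⁻¹ := by
      rw [← ht, h]; group
    rw [pow_two]; nth_rewrite 1 [h1]; exact inv_mul_cancel _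
  -- extended centralizer
  let E : Subgroup G :=
    { carrier := {g | g * x * g⁻¹ = x ∨ g * x * g⁻¹ = x⁻¹}
      one_mem' := by left; simp
      mul_mem' := by
        intro a b ha hb
        simp only [Set.mem_setOf_eq] at ha hb ⊢
        have e : a * b * x * (a * b)⁻¹ = a * (b * x * b⁻¹) * a⁻¹ := by group
        have e2 : a * x⁻¹ * a⁻¹ = (a * x * a⁻¹)⁻¹ := by group
        rw [e]
        rcases hb with hb | hb <;> rw [hb]
        · exact ha
        · rw [e2]
          rcases ha with ha | ha <;> rw [ha]
          · right; rfl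
          · left; simp
      inv_mem' := by
        intro a ha
        simp only [Set.mem_setOf_eq] at ha ⊢
        rcases ha with ha | ha
        · left
          have : x = a⁻¹ * x * a := by nth_rewrite 2 [← ha]; group
          rw [inv_inv]; exact this.symm
        · right
          have : x⁻¹ = a⁻¹ * x * a := by
            have h2 : a * x⁻¹ * a⁻¹ = x := by
              have := congrArg (fun y => y⁻¹) ha
              simpa [mul_assoc] using this
            nth_rewrite 2 [← h2]; group
          rw [inv_inv]; exact this.symm }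
  have hCE : C ≤ E := by
    intro g hg
    left
    rw [hC, Subgroup.mem_centralizer_singleton_iff] at hg
    rw [hg]; group
  have htE : t ∈ E := Or.inr ht
  have hrel : C.relIndex E = 2 := by
    have : (C.subgroupOf E).index = 2 := by
      rw [Subgroup.index_eq_two_iff]
      refine ⟨⟨t, htE⟩, ?_⟩
      rintro ⟨b, hb⟩
      simp only [Subgroup.mem_subgroupOf, Subgroup.coe_mul]
      rcases hb with hb | hb
      · right
        refine ⟨?_, ?_⟩
        · rw [hC, Subgroup.mem_centralizer_singleton_iff]
          nth_rewrite 2 [← hb]; group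
        · intro h
          apply htN
          have hbC : b ∈ C := by
            rw [hC, Subgroup.mem_centralizer_singleton_iff]
            nth_rewrite 2 [← hb]; group
          have := C.mul_mem (C.inv_mem hbC) h
          simpa using this
      · left
        refine ⟨?_, ?_⟩
        · rw [hC, Subgroup.mem_centralizer_singleton_iff]
          have h2 : b * t * x * (b * t)⁻¹ = x := by
            have e : b * t * x * (b * t)⁻¹ = b * (t * x * t⁻¹) * b⁻¹ := by group
            have e2 : b * x⁻¹ * b⁻¹ = (b * x * b⁻¹)⁻¹ := by group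
            rw [e, ht, e2, hb, inv_inv]
          nth_rewrite 2 [← h2]; group
        · intro h
          apply hne
          rw [hC, Subgroup.mem_centralizer_singleton_iff] at h
          have h1 : x = x⁻¹ := by rw [← hb, h]; group
          rw [pow_two]; nth_rewrite 1 [h1]; exact inv_mul_cancel _
    exact this
  have hdvd : 2 ∣ C.index := by
    rw [← Subgroup.relIndex_mul_index hCE, hrel]
    exact Dvd.intro _ rfl
  exact (Nat.not_even_iff_odd.2 hodd) (even_iff_two_dvd.2 hdvd)

end Cfsg.Agent.H64
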