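import Cfsg.Agent.S0093
import Cfsg.Agent.Extra.Basic
import Cfsg.Agent.Extra.More
import Cfsg.Agent.MaxClass.CyclicMax
import Cfsg.Agent.MaxClass.Pres
import Cfsg.Agent.MaxClass.SelfCent
import Cfsg.Agent.MaxClass.UniqueOrderP
import Cfsg.Agent.H72.GenExtra
import Cfsg.Prelude.Def_CaseTheorems

/-!
P. Hall's theorem on `p`-groups of symplectic type.
-/

set_option autoImplicit false

open scoped commutatorElement

namespace Cfsg.Agent.H64.Symp

variable {G : Type*} [Group G]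

theorem mem_zpowers_of_pow {A : Type*} [Group A] [Finite A] [IsCyclic A] {a x : A} (h : x ^ orderOf a = 1) :
    x ∈ Subgroup.zpowers a := by
  classical
  cases nonempty_fintype A
  have h1 := IsCyclic.card_pow_eq_one_le (α := A) (n := orderOf a) (orderOf_pos a)
  have h2 : (Finset.univ.filter (fun y => y ∈ Subgroup.zpowers a)) ⊆ Finset.univ.filter (fun y : A => y ^ orderOf a = 1) := by
    intro y hy
    rw [Finset.mem_filter] at hy ⊢
    refine ⟨Finset.mem_univ _, ?_⟩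
    obtain ⟨k, hk⟩ := Subgroup.mem_zpowers_iff.1 hy.2
    rw [← hk, ← zpow_natCast, ← zpow_mul, mul_comm, zpow_mul, zpow_natCast, pow_orderOf_eq_one, one_zpow]
  have h3 : (Finset.univ.filter (fun y => y ∈ Subgroup.zpowers a)).card = orderOf a := by
    rw [← Nat.card_zpowers, Nat.card_eq_fintype_card, Fintype.card_subtype]
  have h4 := Finset.eq_of_subset_of_card_le h2 (by rw [h3]; exact h1)
  have h5 : x ∈ Finset.univ.filter (fun y : A => y ^ orderOf a = 1) := by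
    rw [Finset.mem_filter]; exact ⟨Finset.mem_univ _, h⟩
  rw [← h4, Finset.mem_filter] at h5
  exact h5.2

theorem mem_zpowers_sub [Finite G] {A : Subgroup G} (hA : IsCyclic A) {a x : G} (ha : a ∈ A) (hx : x ∈ A)
    (h : x ^ orderOf a = 1) : x ∈ Subgroup.zpowers a := by
  have h1 : (⟨x, hx⟩ : A) ∈ Subgroup.zpowers (⟨a, ha⟩ : A) := by
    apply mem_zpowers_of_pow
    rw [Subgroup.orderOf_mk]
    exact Subtype.ext h
  obtain ⟨k, hk⟩ := Subgroup.mem_zpowers_iff.1 h1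
  exact Subgroup.mem_zpowers_iff.2 ⟨k, congrArg Subtype.val hk⟩

theorem char_of {K : Subgroup G} (h : ∀ φ : G ≃* G, ∀ x ∈ K, φ x ∈ K) : K.Characteristic := by
  rw [Subgroup.characteristic_iff_map_le]
  rintro φ _ ⟨x, hx, rfl⟩
  exact h φ x hx

theorem char_mem {K : Subgroup G} (hK : K.Characteristic) (φ : G ≃* G) {x : G} (hx : x ∈ K) : φ x ∈ K :=
  Subgroup.characteristic_iff_map_le.1 hK φ ⟨x, hx, rfl⟩

structure Ctx (p n : ℕ) (H : Subgroup G) (u : G) : Prop where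
  pg : IsPGroup p G
  symp : ∀ A : Subgroup G, A.Characteristic → IsMulCommutative A → IsCyclic A
  hchar : H.Characteristic
  pw : ∀ h ∈ H, h ^ p ∈ Subgroup.centralizer (H : Set G)
  cm : ∀ h ∈ H, ∀ g : G, ⁅h, g⁆ ∈ Subgroup.centralizer (H : Set G)
  ch : Subgroup.centralizer (H : Set G) ≤ H
  hu : Subgroup.zpowers u = Subgroup.centralizer (H : Set G)
  ord : orderOf u = p ^ n
  n1 : 1 ≤ n

namespace Ctx

variable [Finite G] {p n : ℕ} [hp : Fact p.Prime] {H : Subgroup G} {u : G} (d : Ctx p n H u)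
include d

theorem memU {x : G} : x ∈ Subgroup.zpowers u ↔ ∀ h ∈ H, h * x = x * h := by
  rw [d.hu, Subgroup.mem_centralizer_iff]; rfl

theorem uH : u ∈ H := d.ch (d.hu ▸ Subgroup.mem_zpowers u)

theorem UleH : Subgroup.zpowers u ≤ H := by rw [d.hu]; exact d.ch

theorem cyc : IsCyclic (Subgroup.zpowers u) := inferInstance

theorem ordz : orderOf (u ^ p ^ (n - 1)) = p := by
  have hn := d.n1
  rw [orderOf_pow, d.ord, Nat.gcd_eq_right (pow_dvd_pow p (by omega)),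
    Nat.pow_div (by omega) hp.out.pos]
  have : n - (n - 1) = 1 := by omega
  rw [this, pow_one]

theorem mem_Z {x : G} (hx : x ∈ Subgroup.zpowers u) (hxp : x ^ p = 1) :
    x ∈ Subgroup.zpowers (u ^ p ^ (n - 1)) := by
  apply mem_zpowers_sub d.cyc (Subgroup.pow_mem _ (Subgroup.mem_zpowers u) _) hx
  rw [d.ordz]; exact hxp

theorem Z_pow {x : G} (hx : x ∈ Subgroup.zpowers (u ^ p ^ (n - 1))) : x ^ p = 1 := by
  obtain ⟨k, hk⟩ := Subgroup.mem_zpowers_iff.1 hx
  rw [← hk, ← zpow_natCast, ← zpow_mul, mul_comm, zpow_mul, zpow_natCast]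
  have := pow_orderOf_eq_one (u ^ p ^ (n - 1))
  rw [d.ordz] at this
  rw [this, one_zpow]

theorem Z_le : Subgroup.zpowers (u ^ p ^ (n - 1)) ≤ Subgroup.zpowers u := by
  rw [Subgroup.zpowers_le]
  exact Subgroup.pow_mem _ (Subgroup.mem_zpowers u) _

theorem Uchar : (Subgroup.zpowers u).Characteristic := by
  rw [d.hu]
  have := d.hchar
  infer_instance

theorem Zchar : (Subgroup.zpowers (u ^ p ^ (n - 1))).Characteristic := by
  apply char_of
  intro φ x hx
  apply d.mem_Z (char_mem d.Uchar φ (d.Z_le hx))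
  rw [← map_pow, d.Z_pow hx, map_one]

theorem Znormal : (Subgroup.zpowers (u ^ p ^ (n - 1))).Normal := by
  have := d.Zchar
  infer_instance

theorem Zcen : Subgroup.zpowers (u ^ p ^ (n - 1)) ≤ Subgroup.center G := by
  have := d.Znormal
  apply MaxClass.le_center_of_card_eq_prime d.pg
  rw [Nat.card_zpowers, d.ordz]

theorem Zcomm {x : G} (hx : x ∈ Subgroup.zpowers (u ^ p ^ (n - 1))) (g : G) : g * x = x * g :=
  Subgroup.mem_center_iff.1 (d.Zcen hx) g

/-- commutators with elements whose `p`-th power is central -/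
theorem comm_mem_Z {x g : G} (hx : x ∈ H) (hxp : g * x ^ p = x ^ p * g) :
    g * x * g⁻¹ * x⁻¹ ∈ Subgroup.zpowers (u ^ p ^ (n - 1)) := by
  have h1 : g * x * g⁻¹ * x⁻¹ ∈ Subgroup.zpowers u := by
    rw [d.hu]
    have h2 := inv_mem (d.cm x hx g)
    rw [commutatorElement_def] at h2
    have e : (x * g * x⁻¹ * g⁻¹)⁻¹ = g * x * g⁻¹ * x⁻¹ := by group
    rwa [e] at h2
  apply d.mem_Z h1
  set c := g * x * g⁻¹ * x⁻¹ with hc
  have hcx : Commute c x := (d.memU.1 h1 x hx).symm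
  have h3 : (c * x) ^ p = c ^ p * x ^ p := hcx.mul_pow p
  have h4 : c * x = g * x * g⁻¹ := by rw [hc]; group
  rw [h4, conj_pow, hxp] at h3
  have h5 : x ^ p * g * g⁻¹ = x ^ p := by group
  rw [h5] at h3
  exact mul_eq_right.1 h3.symm

theorem HH {x y : G} (hx : x ∈ H) (hy : y ∈ H) : y * x * y⁻¹ * x⁻¹ ∈ Subgroup.zpowers (u ^ p ^ (n - 1)) := by
  apply d.comm_mem_Z hx
  have : x ^ p ∈ Subgroup.zpowers u := by rw [d.hu]; exact d.pw x hx
  exact d.memU.1 this y hy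

/-- power of a product modulo `Z`, when the commutator lies in `Z` -/
theorem pow_mod {x y : G} (hxy : y * x * y⁻¹ * x⁻¹ ∈ Subgroup.zpowers (u ^ p ^ (n - 1))) (k : ℕ) :
    ∃ w ∈ Subgroup.zpowers (u ^ p ^ (n - 1)), (x * y) ^ k = x ^ k * y ^ k * w := by
  haveI := d.Znormal
  let π := QuotientGroup.mk' (Subgroup.zpowers (u ^ p ^ (n - 1)))
  have hc : Commute (π x) (π y) := by
    have h1 : π (y * x * y⁻¹ * x⁻¹) = 1 := (QuotientGroup.eq_one_iff _).2 hxy
    rw [map_mul, map_mul, map_mul, map_inv, map_inv] at h1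
    have h2 : π y * π x = π x * π y := by
      calc π y * π x = (π y * π x * (π y)⁻¹ * (π x)⁻¹) * (π x * π y) := by group
        _ = π x * π y := by rw [h1, one_mul]
    exact h2.symm
  have h3 : π ((x * y) ^ k) = π (x ^ k * y ^ k) := by
    rw [map_pow, map_mul, hc.mul_pow, map_mul, map_pow, map_pow]
  have h4 := QuotientGroup.eq.1 h3.symm
  exact ⟨_, h4, by group⟩

/-- the subgroup `F` -/
def Fs (d : Ctx p n H u) : Subgroup G where
  carrier := {h | h ∈ H ∧ h ^ p ∈ Subgroup.zpowers (u ^ p ^ (n - 1))}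
  one_mem' := ⟨one_mem _, by rw [one_pow]; exact one_mem _⟩
  mul_mem' := by
    rintro a b ⟨ha, ha'⟩ ⟨hb, hb'⟩
    refine ⟨mul_mem ha hb, ?_⟩
    obtain ⟨w, hw, h⟩ := d.pow_mod (d.HH ha hb) p
    rw [h]
    exact mul_mem (mul_mem ha' hb') hw
  inv_mem' := by
    rintro a ⟨ha, ha'⟩
    exact ⟨inv_mem ha, by rw [inv_pow]; exact inv_mem ha'⟩

theorem mem_Fs {h : G} : h ∈ d.Fs ↔ h ∈ H ∧ h ^ p ∈ Subgroup.zpowers (u ^ p ^ (n - 1)) := Iff.rfl

theorem Zroot (hn : 2 ≤ n) {x : G} (hx : x ∈ Subgroup.zpowers (u ^ p ^ (n - 1))) :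
    ∃ v ∈ Subgroup.zpowers u, v ^ p = x := by
  obtain ⟨k, hk⟩ := Subgroup.mem_zpowers_iff.1 hx
  refine ⟨(u ^ p ^ (n - 2)) ^ k, Subgroup.zpow_mem _ (Subgroup.pow_mem _ (Subgroup.mem_zpowers u) _) _, ?_⟩
  rw [← hk, ← zpow_natCast, ← zpow_mul, mul_comm, zpow_mul, zpow_natCast, ← pow_mul, ← pow_succ]
  congr 3
  omega

theorem exists_E : ∃ E : Subgroup G, Subgroup.zpowers (u ^ p ^ (n - 1)) ≤ E ∧ E ≤ H ∧
    (∀ e ∈ E, e ^ p ∈ Subgroup.zpowers (u ^ p ^ (n - 1))) ∧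
    (∀ x ∈ E, x ∈ Subgroup.zpowers u → x ∈ Subgroup.zpowers (u ^ p ^ (n - 1))) ∧
    (∀ h ∈ H, h ^ p ∈ Subgroup.zpowers (u ^ p ^ (n - 1)) → ∃ e ∈ E, ∃ v ∈ Subgroup.zpowers u, h = e * v) := by
  have hn := d.n1
  rcases Nat.lt_or_ge n 2 with h2 | h2
  · have hn1 : n = 1 := by omega
    have hz : u ^ p ^ (n - 1) = u := by rw [hn1]; simp
    rw [hz]
    refine ⟨H, d.UleH, le_rfl, fun e he => ?_, fun x _ hx => hx, fun h hh _ => ⟨h, hh, 1, one_mem _, (mul_one h).symm⟩⟩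
    rw [d.hu]; exact d.pw e he
  · haveI := d.Znormal
    let π := QuotientGroup.mk' (Subgroup.zpowers (u ^ p ^ (n - 1)))
    have hker : ∀ x : G, π x = 1 ↔ x ∈ Subgroup.zpowers (u ^ p ^ (n - 1)) := fun x => QuotientGroup.eq_one_iff x
    set u₂ := u ^ p ^ (n - 2) with hu₂
    have hu₂p : u₂ ^ p = u ^ p ^ (n - 1) := by
      rw [hu₂, ← pow_mul, ← pow_succ]; congr 2; omega
    have hu₂H : u₂ ∈ H := pow_mem d.uH _
    have hu₂U : u₂ ∈ Subgroup.zpowers u := Subgroup.pow_mem _ (Subgroup.mem_zpowers u) _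
    have hu₂F : u₂ ∈ d.Fs := ⟨hu₂H, by rw [hu₂p]; exact Subgroup.mem_zpowers _⟩
    have hu₂1 : π u₂ ≠ 1 := by
      intro h
      rw [hker] at h
      have h3 := d.Z_pow h
      rw [hu₂p] at h3
      have h4 := d.ordz
      rw [h3, orderOf_one] at h4
      exact hp.out.one_lt.ne h4
    obtain ⟨A, hAC, hzA, hA⟩ := Cfsg.Agent.H72.exists_complement_elem (p := p) (d.Fs.map π) (by
        rintro _ ⟨a, ha, rfl⟩ _ ⟨b, hb, rfl⟩
        have h1 : π (a * b * a⁻¹ * b⁻¹) = 1 := (hker _).2 (d.HH hb.1 ha.1)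
        rw [map_mul, map_mul, map_mul, map_inv, map_inv] at h1
        calc π a * π b = (π a * π b * (π a)⁻¹ * (π b)⁻¹) * (π b * π a) := by group
          _ = π b * π a := by rw [h1, one_mul]) (by
        rintro _ ⟨a, ha, rfl⟩
        rw [← map_pow, hker]; exact ha.2) (z := π u₂) ⟨u₂, hu₂F, rfl⟩ hu₂1
    refine ⟨A.comap π, ?_, ?_, ?_, ?_, ?_⟩
    · intro x hx
      rw [Subgroup.mem_comap, (hker x).2 hx]
      exact one_mem _
    · intro x hx
      obtain ⟨a, ha, hax⟩ := hAC hx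
      have h1 := QuotientGroup.eq.1 hax
      have e : x = a * (a⁻¹ * x) := by group
      rw [e]
      exact mul_mem ha.1 (d.UleH (d.Z_le h1))
    · intro x hx
      obtain ⟨a, ha, hax⟩ := hAC hx
      rw [← hker, map_pow, ← hax, ← map_pow, hker]
      exact ha.2
    · intro x hx hxU
      have hxF : x ^ p ∈ Subgroup.zpowers (u ^ p ^ (n - 1)) := by
        obtain ⟨a, ha, hax⟩ := hAC hx
        rw [← hker, map_pow, ← hax, ← map_pow, hker]
        exact ha.2
      have hord : orderOf u₂ = p ^ 2 := by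
        rw [hu₂, orderOf_pow, d.ord, Nat.gcd_eq_right (pow_dvd_pow p (by omega)), Nat.pow_div (by omega) hp.out.pos]
        congr 1; omega
      have h1 : x ∈ Subgroup.zpowers u₂ := by
        apply mem_zpowers_sub d.cyc hu₂U hxU
        rw [hord, sq, pow_mul]; exact d.Z_pow hxF
      obtain ⟨k, hk⟩ := Subgroup.mem_zpowers_iff.1 h1
      have h2 : π u₂ ^ p = 1 := by rw [← map_pow, hu₂p, hker]; exact Subgroup.mem_zpowers _
      by_cases hpk : (p : ℤ) ∣ k
      · obtain ⟨m, rfl⟩ := hpk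
        rw [← hk, zpow_mul, zpow_natCast, hu₂p]
        exact Subgroup.zpow_mem _ (Subgroup.mem_zpowers _) _
      · exfalso
        apply hzA
        have h3 : π u₂ ^ k ∈ A := by
          rw [← map_zpow, hk]; exact hx
        have h4 : IsCoprime (p : ℤ) k := (Nat.prime_iff_prime_int.1 hp.out).coprime_iff_not_dvd.2 hpk
        obtain ⟨a, b, hab⟩ := h4
        have h5 : π u₂ = (π u₂ ^ k) ^ b := by
          calc π u₂ = π u₂ ^ (a * (p : ℤ) + b * k) := by rw [hab, zpow_one]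
            _ = (π u₂ ^ p) ^ a * (π u₂ ^ k) ^ b := by
                rw [zpow_add, mul_comm a, mul_comm b, zpow_mul, zpow_mul, zpow_natCast]
            _ = (π u₂ ^ k) ^ b := by rw [h2, one_zpow, one_mul]
        rw [h5]
        exact Subgroup.zpow_mem _ h3 _
    · intro h hh hhp
      obtain ⟨a, ha, k, hk⟩ := hA (π h) ⟨h, ⟨hh, hhp⟩, rfl⟩
      refine ⟨h * (u₂ ^ k)⁻¹, ?_, u₂ ^ k, Subgroup.zpow_mem _ hu₂U _, by group⟩
      rw [Subgroup.mem_comap]
      change π (h * (u₂ ^ k)⁻¹) ∈ A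
      rw [map_mul, map_inv, map_zpow, hk, mul_inv_cancel_right]
      exact ha

/-- the subgroup `K = F U` -/
def Ks (d : Ctx p n H u) : Subgroup G where
  carrier := {x | ∃ f ∈ d.Fs, ∃ v ∈ Subgroup.zpowers u, x = f * v}
  one_mem' := ⟨1, one_mem _, 1, one_mem _, by simp⟩
  mul_mem' := by
    rintro _ _ ⟨f, hf, v, hv, rfl⟩ ⟨f', hf', v', hv', rfl⟩
    refine ⟨f * f', mul_mem hf hf', v * v', mul_mem hv hv', ?_⟩
    have h1 : f' * v = v * f' := d.memU.1 hv f' hf'.1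
    calc f * v * (f' * v') = f * (v * f') * v' := by group
      _ = f * f' * (v * v') := by rw [← h1]; group
  inv_mem' := by
    rintro _ ⟨f, hf, v, hv, rfl⟩
    refine ⟨f⁻¹, inv_mem hf, v⁻¹, inv_mem hv, ?_⟩
    have h1 : f * v = v * f := d.memU.1 hv f hf.1
    rw [h1, mul_inv_rev]

theorem Fchar : d.Fs.Characteristic := by
  apply char_of
  rintro φ x ⟨hx, hx'⟩
  refine ⟨char_mem d.hchar φ hx, ?_⟩
  rw [← map_pow]; exact char_mem d.Zchar φ hx'

theorem Kchar : d.Ks.Characteristic := by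
  apply char_of
  rintro φ _ ⟨f, hf, v, hv, rfl⟩
  exact ⟨φ f, char_mem d.Fchar φ hf, φ v, char_mem d.Uchar φ hv, map_mul _ _ _⟩

theorem KleH : d.Ks ≤ H := by
  rintro _ ⟨f, hf, v, hv, rfl⟩
  exact mul_mem hf.1 (d.UleH hv)

/-- `Z(K) ≤ U` -/
theorem cenK (hn : 2 ≤ n) {w : G} (hw : w ∈ d.Ks) (hwc : ∀ x ∈ d.Ks, x * w = w * x) : w ∈ Subgroup.zpowers u := by
  set C := d.Ks ⊓ Subgroup.centralizer (d.Ks : Set G) with hC
  have hCchar : C.Characteristic := by
    have := d.Kchar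
    infer_instance
  have hCcomm : IsMulCommutative C := by
    rw [← Subgroup.le_centralizer_iff_isMulCommutative]
    exact inf_le_right.trans (Subgroup.centralizer_le (SetLike.coe_subset_coe.2 inf_le_left))
  have hCcyc := d.symp C hCchar hCcomm
  have hUC : Subgroup.zpowers u ≤ C := by
    refine le_inf ?_ ?_
    · intro v hv
      exact ⟨1, one_mem _, v, hv, (one_mul v).symm⟩
    · intro v hv
      rw [Subgroup.mem_centralizer_iff]
      intro k hk
      exact d.memU.1 hv k (d.KleH hk)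
  have hwC : w ∈ C := ⟨hw, Subgroup.mem_centralizer_iff.2 hwc⟩
  obtain ⟨f, hf, v, hv, rfl⟩ := hw
  obtain ⟨v', hv', hv'p⟩ := d.Zroot hn hf.2
  have hfv : f * v'⁻¹ ∈ C := by
    have e : f * v'⁻¹ = (f * v) * v⁻¹ * v'⁻¹ := by group
    rw [e]
    exact mul_mem (mul_mem hwC (inv_mem (hUC hv))) (inv_mem (hUC hv'))
  have h1 : (f * v'⁻¹) ^ p = 1 := by
    have : Commute f v'⁻¹ := Commute.inv_right (d.memU.1 hv' f hf.1)
    rw [this.mul_pow, inv_pow, hv'p, mul_inv_cancel]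
  have h2 : f * v'⁻¹ ∈ Subgroup.zpowers (u ^ p ^ (n - 1)) := by
    apply mem_zpowers_sub hCcyc (hUC (d.Z_le (Subgroup.mem_zpowers _))) hfv
    rw [d.ordz]; exact h1
  have h3 : f = (f * v'⁻¹) * v' := by group
  rw [h3]
  exact mul_mem (mul_mem (d.Z_le h2) hv') hv

end Ctx

end Cfsg.Agent.H64.Symp
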