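import Cfsg.Agent.H64.Symp

set_option autoImplicit false

open scoped commutatorElement

namespace Cfsg.Agent.H64.Symp

variable {G : Type*} [Group G]

structure ED (p n : ℕ) (H : Subgroup G) (u : G) (E : Subgroup G) : Prop extends Ctx p n H u where
  ZE : Subgroup.zpowers (u ^ p ^ (n - 1)) ≤ E
  EH : E ≤ H
  Ep : ∀ e ∈ E, e ^ p ∈ Subgroup.zpowers (u ^ p ^ (n - 1))
  EU : ∀ x ∈ E, x ∈ Subgroup.zpowers u → x ∈ Subgroup.zpowers (u ^ p ^ (n - 1))
  FE : ∀ h ∈ H, h ^ p ∈ Subgroup.zpowers (u ^ p ^ (n - 1)) → ∃ e ∈ E, ∃ v ∈ Subgroup.zpowers u, h = e * v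

namespace ED

variable [Finite G] {p n : ℕ} [hp : Fact p.Prime] {H : Subgroup G} {u : G} {E : Subgroup G} (d : ED p n H u E)
include d

/-- `Z(E) = Z` -/
theorem cenE {x : G} (hx : x ∈ E) (hxc : ∀ e ∈ E, e * x = x * e) : x ∈ Subgroup.zpowers (u ^ p ^ (n - 1)) := by
  have hn := d.n1
  apply d.EU x hx
  rcases Nat.lt_or_ge n 2 with h2 | h2
  · have hn1 : n = 1 := by omega
    have hz : u ^ p ^ (n - 1) = u := by rw [hn1]; simp
    rw [d.memU]
    intro h hh
    obtain ⟨e, he, v, hv, rfl⟩ := d.FE h hh (by rw [hz, d.hu]; exact d.pw h hh)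
    have h1 : x * v = v * x := d.memU.1 hv x (d.EH hx)
    have h2 : e * x = x * e := hxc e he
    calc e * v * x = e * (v * x) := by group
      _ = e * x * v := by rw [← h1]; group
      _ = x * (e * v) := by rw [h2]; group
  · apply d.cenK h2
    · exact ⟨x, ⟨d.EH hx, d.Ep x hx⟩, 1, one_mem _, (mul_one x).symm⟩
    · rintro _ ⟨f, hf, v, hv, rfl⟩
      obtain ⟨e, he, v', hv', rfl⟩ := d.FE f hf.1 hf.2
      have h1 : x * v = v * x := d.memU.1 hv x (d.EH hx)
      have h1' : x * v' = v' * x := d.memU.1 hv' x (d.EH hx)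
      have h2 : e * x = x * e := hxc e he
      calc e * v' * v * x = e * v' * (v * x) := by group
        _ = e * (v' * x) * v := by rw [← h1]; group
        _ = e * x * v' * v := by rw [← h1']; group
        _ = x * (e * v' * v) := by rw [h2]; group

theorem mem_center {x : E} : x ∈ Subgroup.center E ↔ (x : G) ∈ Subgroup.zpowers (u ^ p ^ (n - 1)) := by
  rw [Subgroup.mem_center_iff]
  constructor
  · intro h
    apply d.cenE x.2
    intro e he
    exact congrArg Subtype.val (h ⟨e, he⟩)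
  · intro h y
    exact Subtype.ext (d.Zcomm h y)

theorem ges : Cfsg.Agent.Extra.GES p E := by
  constructor
  · have h1 : (Subgroup.center E).map E.subtype = Subgroup.zpowers (u ^ p ^ (n - 1)) := by
      ext x
      constructor
      · rintro ⟨y, hy, rfl⟩
        exact d.mem_center.1 hy
      · intro hx
        exact ⟨⟨x, d.ZE hx⟩, d.mem_center.2 hx, rfl⟩
    have h2 : Nat.card ((Subgroup.center E).map E.subtype) = Nat.card (Subgroup.center E) :=
      Subgroup.card_map_of_injective E.subtype_injective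
    rw [h1, Nat.card_zpowers, d.ordz] at h2
    exact h2.symm
  · rw [Cfsg.Agent.Extra.classTwo_iff]
    intro x y
    rw [d.mem_center, commutatorElement_def]
    exact d.HH (d.EH y.2) (d.EH x.2)

theorem Enormal : E.Normal := by
  constructor
  intro e he g
  have h1 : g * e * g⁻¹ * e⁻¹ ∈ Subgroup.zpowers (u ^ p ^ (n - 1)) :=
    d.comm_mem_Z (d.EH he) (d.Zcomm (d.Ep e he) g)
  have : g * e * g⁻¹ = (g * e * g⁻¹ * e⁻¹) * e := by group
  rw [this]
  exact mul_mem (d.ZE h1) he

theorem decomp (g : G) : ∃ e ∈ E, ∃ c ∈ Subgroup.centralizer (E : Set G), g = e * c := by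
  by_cases htop : Subgroup.center E = ⊤
  · refine ⟨1, one_mem _, g, ?_, by simp⟩
    rw [Subgroup.mem_centralizer_iff]
    intro e he
    have h1 : (⟨e, he⟩ : E) ∈ Subgroup.center E := by rw [htop]; trivial
    exact (d.Zcomm (d.mem_center.1 h1) g).symm
  · have h1 := Cfsg.Agent.Extra.isExtraspecial_of_ges d.ges htop
    have h2 := Cfsg.Agent.Extra.sup_centralizer_eq_top E h1 (by
      rw [Subgroup.commutator_le]
      intro g _ e he
      have h3 : g * e * g⁻¹ * e⁻¹ ∈ Subgroup.zpowers (u ^ p ^ (n - 1)) :=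
        d.comm_mem_Z (d.EH he) (d.Zcomm (d.Ep e he) g)
      rw [commutatorElement_def]
      refine Subgroup.mem_inf.2 ⟨d.ZE h3, ?_⟩
      rw [Subgroup.mem_centralizer_iff]
      intro y _
      exact d.Zcomm h3 y)
    have := d.Enormal
    have h3 : g ∈ E ⊔ Subgroup.centralizer (E : Set G) := by rw [h2]; trivial
    obtain ⟨e, he, c, hc, h⟩ := Subgroup.mem_sup_of_normal_left.1 h3
    exact ⟨e, he, c, hc, h.symm⟩

/-- `C_H(E) = U` -/
theorem CHE {c : G} (hc : c ∈ H) (hcE : c ∈ Subgroup.centralizer (E : Set G)) : c ∈ Subgroup.zpowers u := by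
  have hn := d.n1
  rw [Subgroup.mem_centralizer_iff] at hcE
  rcases Nat.lt_or_ge n 2 with h2 | h2
  · have hn1 : n = 1 := by omega
    have hz : u ^ p ^ (n - 1) = u := by rw [hn1]; simp
    rw [d.memU]
    intro h hh
    obtain ⟨e, he, v, hv, rfl⟩ := d.FE h hh (by rw [hz, d.hu]; exact d.pw h hh)
    have h1 : c * v = v * c := d.memU.1 hv c hc
    have h2 : e * c = c * e := hcE e he
    calc e * v * c = e * (v * c) := by group
      _ = e * c * v := by rw [← h1]; group
      _ = c * (e * v) := by rw [h2]; group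
  · -- Claim 1
    have claim1 : ∀ c' ∈ H, c' ∈ Subgroup.centralizer (E : Set G) → ∀ v ∈ Subgroup.zpowers u,
        ∀ w ∈ Subgroup.zpowers (u ^ p ^ (n - 1)), c' ^ p = v ^ p * w → c' ∈ Subgroup.zpowers u := by
      intro c' hc' hc'E v hv w hw hcv
      rw [Subgroup.mem_centralizer_iff] at hc'E
      have hcomm : c' * v = v * c' := d.memU.1 hv c' hc'
      have hF : c' * v⁻¹ ∈ d.Fs := by
        refine ⟨mul_mem hc' (inv_mem (d.UleH hv)), ?_⟩
        have : Commute c' v⁻¹ := Commute.inv_right hcomm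
        have hvw : Commute (v ^ p) w := (d.Zcomm hw (v ^ p))
        rw [this.mul_pow, hcv, hvw.eq, inv_pow, mul_inv_cancel_right]
        exact hw
      obtain ⟨e, he, v', hv', hev⟩ := d.FE _ hF.1 hF.2
      have hK : c' ∈ d.Ks := ⟨c' * v⁻¹, hF, v, hv, by group⟩
      apply d.cenK h2 hK
      rintro _ ⟨f, hf, v₁, hv₁, rfl⟩
      obtain ⟨e₁, he₁, v₂, hv₂, rfl⟩ := d.FE f hf.1 hf.2
      have h1 : c' * v₁ = v₁ * c' := d.memU.1 hv₁ c' hc'
      have h1' : c' * v₂ = v₂ * c' := d.memU.1 hv₂ c' hc'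
      have h2 : e₁ * c' = c' * e₁ := hc'E e₁ he₁
      calc e₁ * v₂ * v₁ * c' = e₁ * v₂ * (v₁ * c') := by group
        _ = e₁ * (v₂ * c') * v₁ := by rw [← h1]; group
        _ = e₁ * c' * v₂ * v₁ := by rw [← h1']; group
        _ = c' * (e₁ * v₂ * v₁) := by rw [h2]; group
    by_contra hcU
    have hcE' : c ∈ Subgroup.centralizer (E : Set G) := Subgroup.mem_centralizer_iff.2 hcE
    have hcp : c ^ p ∈ Subgroup.zpowers u := by rw [d.hu]; exact d.pw c hc
    obtain ⟨k, hk⟩ := Subgroup.mem_zpowers_iff.1 hcp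
    have hpk : ¬ (p : ℤ) ∣ k := by
      rintro ⟨m, rfl⟩
      apply hcU
      apply claim1 c hc hcE' (u ^ m) (Subgroup.zpow_mem _ (Subgroup.mem_zpowers u) _) 1 (one_mem _)
      rw [← hk, mul_one, mul_comm, zpow_mul, zpow_natCast]
    have h4 : IsCoprime (p : ℤ) k := (Nat.prime_iff_prime_int.1 hp.out).coprime_iff_not_dvd.2 hpk
    obtain ⟨a, b, hab⟩ := h4
    -- Claim 2
    have claim2 : ∀ c' ∈ H, c' ∈ Subgroup.centralizer (E : Set G) → c' * c = c * c' := by
      intro c' hc' hc'E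
      have hc'p : c' ^ p ∈ Subgroup.zpowers u := by rw [d.hu]; exact d.pw c' hc'
      obtain ⟨k', hk'⟩ := Subgroup.mem_zpowers_iff.1 hc'p
      set j := b * k' with hj
      have hcj : c ^ j ∈ H := Subgroup.zpow_mem _ hc _
      obtain ⟨w, hw, hw2⟩ := d.pow_mod (x := c') (y := (c ^ j)⁻¹) (d.HH hc' (inv_mem hcj)) p
      have h5 : c' * (c ^ j)⁻¹ ∈ Subgroup.zpowers u := by
        apply claim1 _ (mul_mem hc' (inv_mem hcj)) (mul_mem hc'E (inv_mem (Subgroup.zpow_mem _ hcE' _)))
          (u ^ (a * k')) (Subgroup.zpow_mem _ (Subgroup.mem_zpowers u) _) w hw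
        rw [hw2, ← hk', inv_pow]
        congr 1
        have h6 : (c ^ j) ^ p = u ^ (k * j) := by
          rw [← zpow_natCast, ← zpow_mul, mul_comm, zpow_mul, zpow_natCast, ← hk, ← zpow_mul]
        rw [h6, ← zpow_neg, ← zpow_add, ← zpow_natCast, ← zpow_mul]
        congr 1
        have : k' = (a * p + b * k) * k' := by rw [hab, one_mul]
        rw [hj]
        linear_combination (this : k' = (a * p + b * k) * k')
      have h6 : c * (c' * (c ^ j)⁻¹) = (c' * (c ^ j)⁻¹) * c := d.memU.1 h5 c hc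
      have h7 : c' = (c' * (c ^ j)⁻¹) * c ^ j := by group
      rw [h7]
      have h8 : Commute c (c' * (c ^ j)⁻¹) := h6
      have h9 : Commute c (c ^ j) := (Commute.refl c).zpow_right j
      exact (h8.mul_right h9).eq.symm
    apply hcU
    rw [d.memU]
    intro h hh
    obtain ⟨e, he, c'', hc'', rfl⟩ := d.decomp h
    have h5 : c'' ∈ H := by
      have : c'' = e⁻¹ * (e * c'') := by group
      rw [this]
      exact mul_mem (inv_mem (d.EH he)) hh
    have h6 := claim2 c'' h5 hc''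
    have h7 := hcE e he
    calc e * c'' * c = e * (c'' * c) := by group
      _ = e * c * c'' := by rw [h6]; group
      _ = c * (e * c'') := by rw [h7]; group

theorem Hdecomp {h : G} (hh : h ∈ H) : ∃ e ∈ E, ∃ v ∈ Subgroup.zpowers u, h = e * v := by
  obtain ⟨e, he, c, hc, rfl⟩ := d.decomp h
  refine ⟨e, he, c, d.CHE ?_ hc, rfl⟩
  have : c = e⁻¹ * (e * c) := by group
  rw [this]
  exact mul_mem (inv_mem (d.EH he)) hh

/-- `U ≤ R` -/
theorem UR {v : G} (hv : v ∈ Subgroup.zpowers u) : v ∈ Subgroup.centralizer (E : Set G) := by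
  rw [Subgroup.mem_centralizer_iff]
  intro e he
  exact d.memU.1 hv e (d.EH he)

/-- `C_R(U) = U` -/
theorem CRU {r : G} (hr : r ∈ Subgroup.centralizer (E : Set G)) (hru : r * u = u * r) : r ∈ Subgroup.zpowers u := by
  rw [d.memU]
  intro h hh
  obtain ⟨e, he, v, hv, rfl⟩ := d.Hdecomp hh
  rw [Subgroup.mem_centralizer_iff] at hr
  have h1 := hr e he
  obtain ⟨k, rfl⟩ := Subgroup.mem_zpowers_iff.1 hv
  have h2 : Commute r (u ^ k) := Commute.zpow_right hru k
  calc e * u ^ k * r = e * (u ^ k * r) := by group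
    _ = e * r * u ^ k := by rw [← h2.eq]; group
    _ = r * (e * u ^ k) := by rw [h1]; group

end ED

end Cfsg.Agent.H64.Symp
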