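import Cfsg.Agent.H64.SympB

set_option autoImplicit false

open scoped commutatorElement

namespace Cfsg.Agent.H64.Symp

variable {G : Type*} [Group G]

namespace ED

variable [Finite G] {p n : ℕ} [hp : Fact p.Prime] {H : Subgroup G} {u : G} {E : Subgroup G} (d : ED p n H u E)
include d

theorem conjU {g v : G} (hg : g * u * g⁻¹ * u⁻¹ ∈ Subgroup.zpowers (u ^ p ^ (n - 1))) (hv : v ∈ Subgroup.zpowers u) :
    g * v * g⁻¹ * v⁻¹ ∈ Subgroup.zpowers (u ^ p ^ (n - 1)) := by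
  obtain ⟨k, rfl⟩ := Subgroup.mem_zpowers_iff.1 hv
  set c := g * u * g⁻¹ * u⁻¹ with hc
  have h1 : g * u * g⁻¹ = c * u := by rw [hc]; group
  have h2 : Commute c u := (d.Zcomm hg u).symm
  have h3 : g * u ^ k * g⁻¹ = c ^ k * u ^ k := by
    rw [← conj_zpow, h1, h2.mul_zpow]
  rw [h3, mul_inv_cancel_right]
  exact Subgroup.zpow_mem _ hg _

/-- `V = C_G(U/Z)` -/
def Vs (d : ED p n H u E) : Subgroup G where
  carrier := {g | g * u * g⁻¹ * u⁻¹ ∈ Subgroup.zpowers (u ^ p ^ (n - 1))}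
  one_mem' := by simp
  mul_mem' := by
    intro a b ha hb
    have h1 : a * (b * u * b⁻¹ * u⁻¹) * a⁻¹ = b * u * b⁻¹ * u⁻¹ := by
      rw [d.Zcomm hb a]; group
    have h2 : a * b * u * (a * b)⁻¹ * u⁻¹ = (a * (b * u * b⁻¹ * u⁻¹) * a⁻¹) * (a * u * a⁻¹ * u⁻¹) := by group
    change a * b * u * (a * b)⁻¹ * u⁻¹ ∈ Subgroup.zpowers (u ^ p ^ (n - 1))
    rw [h2, h1]
    exact mul_mem hb ha
  inv_mem' := by
    intro a ha
    change a⁻¹ * u * a⁻¹⁻¹ * u⁻¹ ∈ Subgroup.zpowers (u ^ p ^ (n - 1))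
    have h1 : a⁻¹ * (a * u * a⁻¹ * u⁻¹)⁻¹ * a = (a * u * a⁻¹ * u⁻¹)⁻¹ := by
      have := d.Zcomm (inv_mem ha) a⁻¹
      rw [this]; group
    have h2 : a⁻¹ * u * a⁻¹⁻¹ * u⁻¹ = a⁻¹ * (a * u * a⁻¹ * u⁻¹)⁻¹ * a := by group
    rw [h2, h1]
    exact inv_mem ha

theorem mem_Vs {g : G} : g ∈ d.Vs ↔ g * u * g⁻¹ * u⁻¹ ∈ Subgroup.zpowers (u ^ p ^ (n - 1)) := Iff.rfl

theorem Vchar : d.Vs.Characteristic := by
  apply char_of
  intro φ g hg
  rw [d.mem_Vs]
  have h1 : φ.symm u ∈ Subgroup.zpowers u := char_mem d.Uchar φ.symm (Subgroup.mem_zpowers u)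
  have h2 := char_mem d.Zchar φ (d.conjU hg h1)
  simpa using h2

theorem UV {v : G} (hv : v ∈ Subgroup.zpowers u) : v ∈ d.Vs := by
  rw [d.mem_Vs]
  obtain ⟨k, rfl⟩ := Subgroup.mem_zpowers_iff.1 hv
  have : u ^ k * u * (u ^ k)⁻¹ * u⁻¹ = 1 := by
    rw [← zpow_neg, ← zpow_add_one, ← zpow_add]
    have : k + 1 + -k = 1 := by ring
    rw [this]; simp
  rw [this]; exact one_mem _

theorem EV {e : G} (he : e ∈ E) : e ∈ d.Vs := by
  rw [d.mem_Vs]
  have h1 : e * u = u * e := d.memU.1 (Subgroup.mem_zpowers u) e (d.EH he)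
  have : e * u * e⁻¹ * u⁻¹ = 1 := by rw [h1]; group
  rw [this]; exact one_mem _

/-- structure of `V ∩ R` -/
theorem Tdecomp {v : G} (hv : v ∈ d.Vs) (hvR : v ∈ Subgroup.centralizer (E : Set G)) (hvU : v ∉ Subgroup.zpowers u)
    {w : G} (hw : w ∈ d.Vs) (hwR : w ∈ Subgroup.centralizer (E : Set G)) :
    ∃ y ∈ Subgroup.zpowers u, ∃ j : ℤ, w = y * v ^ j := by
  set c := v * u * v⁻¹ * u⁻¹ with hc
  have hc1 : c ≠ 1 := by
    intro h
    apply hvU
    apply d.CRU hvR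
    calc v * u = c * (u * v) := by rw [hc]; group
      _ = u * v := by rw [h, one_mul]
  have hcZ : c ∈ Subgroup.zpowers (u ^ p ^ (n - 1)) := hv
  -- c generates Z
  have hord : orderOf c = p := orderOf_eq_prime (d.Z_pow hcZ) hc1
  have hwZ : w * u * w⁻¹ * u⁻¹ ∈ Subgroup.zpowers c := by
    apply mem_zpowers_sub (A := Subgroup.zpowers (u ^ p ^ (n - 1))) inferInstance hcZ hw
    rw [hord]; exact d.Z_pow hw
  obtain ⟨j, hj⟩ := Subgroup.mem_zpowers_iff.1 hwZ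
  have h1 : v * u * v⁻¹ = c * u := by rw [hc]; group
  have h2 : ∀ j : ℤ, v ^ j * u * (v ^ j)⁻¹ = c ^ j * u := by
    intro j
    -- (v u v⁻¹ = c u) → v^j u = c^j u v^j
    have h3 : u⁻¹ * v * u = v * (u⁻¹ * c * u) := by
      have h4 : v * u = c * u * v := by rw [← h1]; group
      have h5 : c * u = u * c := (d.Zcomm hcZ u).symm
      have h6 : c * v = v * c := (d.Zcomm hcZ v).symm
      calc u⁻¹ * v * u = u⁻¹ * (v * u) := by group
        _ = u⁻¹ * (c * u) * v := by rw [h4]; group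
        _ = c * v := by rw [h5]; group
        _ = v * c := h6
        _ = v * (u⁻¹ * (u * c)) := by group
        _ = v * (u⁻¹ * c * u) := by rw [← h5]; group
    have h5 : u⁻¹ * c * u = c := by
      have := d.Zcomm hcZ u
      calc u⁻¹ * c * u = u⁻¹ * (c * u) := by group
        _ = c := by rw [← this]; group
    rw [h5] at h3
    have h6 : u⁻¹ * v ^ j * u = v ^ j * c ^ j := by
      have h7 := conj_zpow (i := j) (a := u⁻¹) (b := v)
      rw [inv_inv] at h7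
      have h8 : Commute v c := d.Zcomm hcZ v
      rw [← h7, h3, h8.mul_zpow]
    have h7 : v ^ j * u = u * (v ^ j * c ^ j) := by rw [← h6]; group
    have h8 : v ^ j * c ^ j = c ^ j * v ^ j := d.Zcomm (Subgroup.zpow_mem _ hcZ j) (v ^ j)
    have h9 : u * c ^ j = c ^ j * u := d.Zcomm (Subgroup.zpow_mem _ hcZ j) u
    calc v ^ j * u * (v ^ j)⁻¹ = u * (v ^ j * c ^ j) * (v ^ j)⁻¹ := by rw [h7]
      _ = u * c ^ j := by rw [h8]; group
      _ = c ^ j * u := h9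
  refine ⟨w * (v ^ j)⁻¹, ?_, j, by group⟩
  apply d.CRU (mul_mem hwR (inv_mem (Subgroup.zpow_mem _ hvR j)))
  have h3 : w * u * w⁻¹ = c ^ j * u := by rw [hj]; group
  have h4 : (v ^ j)⁻¹ * (c ^ j * u) * v ^ j = u := by rw [← h2 j]; group
  have h5 : (v ^ j)⁻¹ * u * v ^ j = (c ^ j)⁻¹ * u := by
    have h6 : (v ^ j)⁻¹ * c ^ j = c ^ j * (v ^ j)⁻¹ := d.Zcomm (Subgroup.zpow_mem _ hcZ j) _
    calc (v ^ j)⁻¹ * u * v ^ j = (c ^ j)⁻¹ * (c ^ j * (v ^ j)⁻¹) * u * v ^ j := by group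
      _ = (c ^ j)⁻¹ * ((v ^ j)⁻¹ * (c ^ j * u) * v ^ j) := by rw [← h6]; group
      _ = (c ^ j)⁻¹ * u := by rw [h4]
  have h6 : w * (c ^ j)⁻¹ = (c ^ j)⁻¹ * w := d.Zcomm (inv_mem (Subgroup.zpow_mem _ hcZ j)) w
  calc w * (v ^ j)⁻¹ * u = w * ((v ^ j)⁻¹ * u * v ^ j) * (v ^ j)⁻¹ := by group
    _ = (w * (c ^ j)⁻¹) * u * (v ^ j)⁻¹ := by rw [h5]; group
    _ = (c ^ j)⁻¹ * (w * u * w⁻¹) * w * (v ^ j)⁻¹ := by rw [h6]; group
    _ = u * (w * (v ^ j)⁻¹) := by rw [h3]; group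

/-- `V/Z` is abelian -/
theorem Vcomm {v : G} (hv : v ∈ d.Vs) (hvR : v ∈ Subgroup.centralizer (E : Set G)) (hvU : v ∉ Subgroup.zpowers u)
    {x y : G} (hx : x ∈ d.Vs) (hy : y ∈ d.Vs) : y * x * y⁻¹ * x⁻¹ ∈ Subgroup.zpowers (u ^ p ^ (n - 1)) := by
  haveI := d.Znormal
  let π := QuotientGroup.mk' (Subgroup.zpowers (u ^ p ^ (n - 1)))
  have hker : ∀ x : G, π x = 1 ↔ x ∈ Subgroup.zpowers (u ^ p ^ (n - 1)) := fun x => QuotientGroup.eq_one_iff x
  have hiff : ∀ x y : G, y * x * y⁻¹ * x⁻¹ ∈ Subgroup.zpowers (u ^ p ^ (n - 1)) ↔ Commute (π y) (π x) := by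
    intro x y
    rw [← hker, map_mul, map_mul, map_mul, map_inv, map_inv]
    constructor
    · intro h
      calc π y * π x = (π y * π x * (π y)⁻¹ * (π x)⁻¹) * (π x * π y) := by group
        _ = π x * π y := by rw [h, one_mul]
    · intro h
      rw [h.eq]; group
  have hdec : ∀ x ∈ d.Vs, ∃ e ∈ E, ∃ y ∈ Subgroup.zpowers u, ∃ j : ℤ, x = e * (y * v ^ j) := by
    intro x hx
    obtain ⟨e, he, c, hc, rfl⟩ := d.decomp x
    have hcV : c ∈ d.Vs := by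
      have : c = e⁻¹ * (e * c) := by group
      rw [this]
      exact mul_mem (inv_mem (d.EV he)) hx
    obtain ⟨y, hy, j, rfl⟩ := d.Tdecomp hv hvR hvU hcV hc
    exact ⟨e, he, y, hy, j, rfl⟩
  rw [hiff]
  obtain ⟨e, he, a, ha, j, rfl⟩ := hdec x hx
  obtain ⟨e', he', a', ha', j', rfl⟩ := hdec y hy
  have q1 : Commute (π e') (π e) := (hiff _ _).1 (d.HH (d.EH he) (d.EH he'))
  have q2 : ∀ f ∈ E, ∀ b ∈ Subgroup.zpowers u, Commute (π f) (π b) := by
    intro f hf b hb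
    have := congrArg π (d.memU.1 hb f (d.EH hf))
    rwa [map_mul, map_mul] at this
  have q3 : ∀ f ∈ E, Commute (π f) (π v) := by
    intro f hf
    have := congrArg π (Subgroup.mem_centralizer_iff.1 hvR f hf)
    rwa [map_mul, map_mul] at this
  have q4 : Commute (π a') (π a) := by
    have := congrArg π (d.memU.1 ha a' (d.UleH ha'))
    rwa [map_mul, map_mul] at this
  have q5 : ∀ b ∈ Subgroup.zpowers u, Commute (π v) (π b) := by
    intro b hb
    rw [← hiff]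
    exact d.conjU hv hb
  simp only [map_mul, map_zpow]
  have r1 : Commute (π e') (π e * (π a * π v ^ j)) :=
    q1.mul_right ((q2 e' he' a ha).mul_right ((q3 e' he').zpow_right j))
  have r2 : Commute (π a') (π e * (π a * π v ^ j)) :=
    (q2 e he a' ha').symm.mul_right (q4.mul_right ((q5 a' ha').symm.zpow_right j))
  have r3 : Commute (π v) (π e * (π a * π v ^ j)) :=
    (q3 e he).symm.mul_right ((q5 a ha).mul_right ((Commute.refl _).zpow_right j))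
  exact r1.mul_left (r2.mul_left (r3.zpow_left j'))

/-- an element `t ∈ V ∩ R`, outside `U`, with `t^p ∈ Z` -/
theorem exists_t {v : G} (hv : v ∈ d.Vs) (hvR : v ∈ Subgroup.centralizer (E : Set G)) (hvU : v ∉ Subgroup.zpowers u) :
    ∃ t ∈ d.Vs, t ∈ Subgroup.centralizer (E : Set G) ∧ t ∉ Subgroup.zpowers u ∧
      t ^ p ∈ Subgroup.zpowers (u ^ p ^ (n - 1)) := by
  set c := v * u * v⁻¹ * u⁻¹ with hc
  have hc1 : c ≠ 1 := by
    intro h
    apply hvU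
    apply d.CRU hvR
    calc v * u = c * (u * v) := by rw [hc]; group
      _ = u * v := by rw [h, one_mul]
  have hcZ : c ∈ Subgroup.zpowers (u ^ p ^ (n - 1)) := hv
  have hord : orderOf c = p := orderOf_eq_prime (d.Z_pow hcZ) hc1
  -- v^p ∈ U
  have h1 : u⁻¹ * v * u = v * c := by
    have h4 : v * u = c * u * v := by rw [hc]; group
    have h5 : c * u = u * c := (d.Zcomm hcZ u).symm
    have h6 : c * v = v * c := (d.Zcomm hcZ v).symm
    calc u⁻¹ * v * u = u⁻¹ * (v * u) := by group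
      _ = u⁻¹ * (c * u) * v := by rw [h4]; group
      _ = c * v := by rw [h5]; group
      _ = v * c := h6
  have h2 : u⁻¹ * v ^ p * u = v ^ p := by
    have h7 := conj_pow (i := p) (a := u⁻¹) (b := v)
    rw [inv_inv] at h7
    have h8 : Commute v c := d.Zcomm hcZ v
    rw [← h7, h1, h8.mul_pow, d.Z_pow hcZ, mul_one]
  have h3 : v ^ p ∈ Subgroup.zpowers u := by
    apply d.CRU (Subgroup.pow_mem _ hvR p)
    calc v ^ p * u = u * (u⁻¹ * v ^ p * u) := by group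
      _ = u * v ^ p := by rw [h2]
  obtain ⟨k, hk⟩ := Subgroup.mem_zpowers_iff.1 h3
  -- p ∣ k
  have h4 : v * u ^ k * v⁻¹ = c ^ k * u ^ k := by
    have h5 : v * u * v⁻¹ = c * u := by rw [hc]; group
    have h6 : Commute c u := (d.Zcomm hcZ u).symm
    rw [← conj_zpow, h5, h6.mul_zpow]
  have h5 : c ^ k = 1 := by
    rw [hk] at h4
    have h6 : v * v ^ p * v⁻¹ = v ^ p := by
      have : Commute v (v ^ p) := (Commute.refl v).pow_right p
      rw [this.eq]; group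
    rw [h6] at h4
    exact (mul_eq_right.1 h4.symm)
  have h6 : (p : ℤ) ∣ k := by
    rw [← hord]; exact orderOf_dvd_iff_zpow_eq_one.2 h5
  obtain ⟨m, rfl⟩ := h6
  have hum : (u ^ m)⁻¹ ∈ Subgroup.zpowers u := inv_mem (Subgroup.zpow_mem _ (Subgroup.mem_zpowers u) _)
  refine ⟨v * (u ^ m)⁻¹, mul_mem hv (d.UV hum), mul_mem hvR (d.UR hum), ?_, ?_⟩
  · intro h
    apply hvU
    have := mul_mem h (inv_mem hum)
    rwa [inv_inv, inv_mul_cancel_right] at this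
  · obtain ⟨w, hw, hw2⟩ := d.pow_mod (x := v) (y := (u ^ m)⁻¹) (by
      have h7 := inv_mem (d.conjU hv hum)
      have e : (v * (u ^ m)⁻¹ * v⁻¹ * (u ^ m)⁻¹⁻¹)⁻¹ = (u ^ m)⁻¹ * v * (u ^ m)⁻¹⁻¹ * v⁻¹ := by group
      rwa [e] at h7) p
    rw [hw2, ← hk, inv_pow]
    have e : (u ^ m) ^ p = u ^ ((p : ℤ) * m) := by
      rw [← zpow_natCast, ← zpow_mul, mul_comm]
    rw [e, mul_inv_cancel, one_mul]
    exact hw

end ED

end Cfsg.Agent.H64.Symp
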