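import Cfsg.Agent.H64.SympC

set_option autoImplicit false

open scoped commutatorElement

namespace Cfsg.Agent.H64.Symp

variable {G : Type*} [Group G]

namespace ED

variable [Finite G] {p n : ℕ} [hp : Fact p.Prime] {H : Subgroup G} {u : G} {E : Subgroup G} (d : ED p n H u E)
include d

/-- Case A1: `n ≥ 3` and `V ∩ R ≠ U` is impossible -/
theorem caseA1 (hn : 3 ≤ n) {v : G} (hv : v ∈ d.Vs) (hvR : v ∈ Subgroup.centralizer (E : Set G))
    (hvU : v ∉ Subgroup.zpowers u) : False := by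
  obtain ⟨t, ht, htR, htU, htp⟩ := d.exists_t hv hvR hvU
  set u₂ := u ^ p ^ (n - 2) with hu₂
  have hu₂p : u₂ ^ p = u ^ p ^ (n - 1) := by
    rw [hu₂, ← pow_mul, ← pow_succ]; congr 2; omega
  have hu₂U : u₂ ∈ Subgroup.zpowers u := Subgroup.pow_mem _ (Subgroup.mem_zpowers u) _
  have hord : orderOf u₂ = p ^ 2 := by
    rw [hu₂, orderOf_pow, d.ord, Nat.gcd_eq_right (pow_dvd_pow p (by omega)), Nat.pow_div (by omega) hp.out.pos]
    congr 1; omega
  -- u₂ centralizes V
  have hu₂V : ∀ g ∈ d.Vs, g * u₂ = u₂ * g := by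
    intro g hg
    set c := g * u * g⁻¹ * u⁻¹ with hc
    have h1 : g * u * g⁻¹ = c * u := by rw [hc]; group
    have h2 : Commute c u := (d.Zcomm hg u).symm
    have h3 : g * u₂ * g⁻¹ = u₂ := by
      rw [hu₂, ← conj_pow, h1, h2.mul_pow]
      have h4 : c ^ p ^ (n - 2) = 1 := by
        have : p ^ (n - 2) = p * p ^ (n - 3) := by rw [← pow_succ']; congr 1; omega
        rw [this, pow_mul, d.Z_pow hg, one_pow]
      rw [h4, one_mul]
    calc g * u₂ = g * u₂ * g⁻¹ * g := by group
      _ = u₂ * g := by rw [h3]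
  let Y : Subgroup G :=
    { carrier := {g | g ∈ d.Vs ∧ g ^ p ∈ Subgroup.zpowers (u ^ p ^ (n - 1))}
      one_mem' := ⟨one_mem _, by rw [one_pow]; exact one_mem _⟩
      mul_mem' := by
        rintro a b ⟨ha, ha'⟩ ⟨hb, hb'⟩
        refine ⟨mul_mem ha hb, ?_⟩
        obtain ⟨w, hw, h⟩ := d.pow_mod (d.Vcomm hv hvR hvU ha hb) p
        rw [h]
        exact mul_mem (mul_mem ha' hb') hw
      inv_mem' := by
        rintro a ⟨ha, ha'⟩
        exact ⟨inv_mem ha, by rw [inv_pow]; exact inv_mem ha'⟩ }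
  have hYchar : Y.Characteristic := by
    apply char_of
    rintro φ x ⟨hx, hx'⟩
    refine ⟨char_mem d.Vchar φ hx, ?_⟩
    rw [← map_pow]; exact char_mem d.Zchar φ hx'
  set C := Y ⊓ Subgroup.centralizer (Y : Set G) with hC
  have hCchar : C.Characteristic := by infer_instance
  have hCcomm : IsMulCommutative C := by
    rw [← Subgroup.le_centralizer_iff_isMulCommutative]
    exact inf_le_right.trans (Subgroup.centralizer_le (SetLike.coe_subset_coe.2 inf_le_left))
  have hCcyc := d.symp C hCchar hCcomm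
  have hu₂C : u₂ ∈ C := by
    refine Subgroup.mem_inf.2 ⟨⟨d.UV hu₂U, by rw [hu₂p]; exact Subgroup.mem_zpowers _⟩, ?_⟩
    rw [Subgroup.mem_centralizer_iff]
    intro y hy
    exact hu₂V y hy.1
  have htC : t ∈ C := by
    refine Subgroup.mem_inf.2 ⟨⟨ht, htp⟩, ?_⟩
    rw [Subgroup.mem_centralizer_iff]
    intro y hy
    obtain ⟨hyV, hyp⟩ := hy
    obtain ⟨e, he, c, hc, rfl⟩ := d.decomp y
    have hec : e * c = c * e := Subgroup.mem_centralizer_iff.1 hc e he
    have hcV : c ∈ d.Vs := by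
      have : c = e⁻¹ * (e * c) := by group
      rw [this]
      exact mul_mem (inv_mem (d.EV he)) hyV
    have hcp : c ^ p ∈ Subgroup.zpowers (u ^ p ^ (n - 1)) := by
      have h1 : (e * c) ^ p = e ^ p * c ^ p := (show Commute e c from hec).mul_pow p
      have h2 : c ^ p = (e ^ p)⁻¹ * (e * c) ^ p := by rw [h1]; group
      rw [h2]
      exact mul_mem (inv_mem (d.Ep e he)) hyp
    obtain ⟨a, ha, j, rfl⟩ := d.Tdecomp ht htR htU hcV hc
    have hap : a ^ p ∈ Subgroup.zpowers (u ^ p ^ (n - 1)) := by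
      obtain ⟨w, hw, hw2⟩ := d.pow_mod (x := a) (y := t ^ j) (by
        have h7 := d.conjU (Subgroup.zpow_mem d.Vs ht j) ha
        exact h7) p
      have h3 : a ^ p = (a * t ^ j) ^ p * w⁻¹ * ((t ^ p) ^ j)⁻¹ := by
        rw [hw2]
        have : (t ^ j) ^ p = (t ^ p) ^ j := by
          rw [← zpow_natCast, ← zpow_mul, ← zpow_natCast, ← zpow_mul, mul_comm]
        rw [this]; group
      rw [h3]
      exact mul_mem (mul_mem hcp (inv_mem hw)) (inv_mem (Subgroup.zpow_mem _ htp j))
    have ha2 : a ∈ Subgroup.zpowers u₂ := by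
      apply mem_zpowers_sub d.cyc hu₂U ha
      rw [hord, sq, pow_mul]; exact d.Z_pow hap
    obtain ⟨i, rfl⟩ := Subgroup.mem_zpowers_iff.1 ha2
    have q1 : Commute t e := (Subgroup.mem_centralizer_iff.1 htR e he).symm
    have q2 : Commute t (u₂ ^ i) := (show Commute t u₂ from hu₂V t ht).zpow_right i
    have q3 : Commute t (t ^ j) := (Commute.refl t).zpow_right j
    exact (q1.mul_right (q2.mul_right q3)).eq.symm
  apply htU
  have : t ∈ Subgroup.zpowers u₂ := by
    apply mem_zpowers_sub hCcyc hu₂C htC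
    rw [hord, sq, pow_mul]; exact d.Z_pow htp
  exact (Subgroup.zpowers_le.2 hu₂U) this

/-- `n = 2`: `V = G` -/
theorem V_eq_top (hn : n = 2) (g : G) : g ∈ d.Vs := by
  haveI := d.Znormal
  let π := QuotientGroup.mk' (Subgroup.zpowers (u ^ p ^ (n - 1)))
  have hker : ∀ x : G, π x = 1 ↔ x ∈ Subgroup.zpowers (u ^ p ^ (n - 1)) := fun x => QuotientGroup.eq_one_iff x
  have hUn : (Subgroup.zpowers u).Normal := by
    have := d.Uchar
    infer_instance
  haveI : ((Subgroup.zpowers u).map π).Normal := hUn.map π (QuotientGroup.mk'_surjective _)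
  have h1 : orderOf (π u) = p := by
    apply orderOf_eq_prime
    · rw [← map_pow, hker, hn]
      have : u ^ p ^ (2 - 1) = u ^ p := by norm_num
      rw [this]; exact Subgroup.mem_zpowers _
    · intro h
      rw [hker] at h
      have h2 := d.Z_pow h
      have h3 := orderOf_dvd_of_pow_eq_one h2
      rw [d.ord, hn] at h3
      have h4 := Nat.le_of_dvd hp.out.pos h3
      have h5 := hp.out.one_lt
      nlinarith
  have hcard : Nat.card ((Subgroup.zpowers u).map π) = p := by
    rw [MonoidHom.map_zpowers, Nat.card_zpowers, h1]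
  have h2 := MaxClass.le_center_of_card_eq_prime (d.pg.to_quotient _) _ hcard
  have h3 : π u ∈ Subgroup.center _ := h2 ⟨u, Subgroup.mem_zpowers u, rfl⟩
  rw [d.mem_Vs, ← hker, map_mul, map_mul, map_mul, map_inv, map_inv]
  have h4 := Subgroup.mem_center_iff.1 h3 (π g)
  rw [h4]; group

/-- Case A2: `n = 2` and `R ≠ U`: `G` is extraspecial. -/
theorem caseA2 (hn : n = 2) {v : G} (hvR : v ∈ Subgroup.centralizer (E : Set G))
    (hvU : v ∉ Subgroup.zpowers u) : Cfsg.IsExtraspecial p G := by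
  have hV := d.V_eq_top hn
  have hcen : Subgroup.center G = Subgroup.zpowers (u ^ p ^ (n - 1)) := by
    apply le_antisymm _ d.Zcen
    intro x hx
    rw [Subgroup.mem_center_iff] at hx
    have hxU : x ∈ Subgroup.zpowers u := d.memU.2 (fun h _ => hx h)
    obtain ⟨k, rfl⟩ := Subgroup.mem_zpowers_iff.1 hxU
    set c := v * u * v⁻¹ * u⁻¹ with hc
    have hc1 : c ≠ 1 := by
      intro h
      apply hvU
      apply d.CRU hvR
      calc v * u = c * (u * v) := by rw [hc]; group
        _ = u * v := by rw [h, one_mul]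
    have hcZ : c ∈ Subgroup.zpowers (u ^ p ^ (n - 1)) := hV v
    have hord : orderOf c = p := orderOf_eq_prime (d.Z_pow hcZ) hc1
    have h4 : v * u ^ k * v⁻¹ = c ^ k * u ^ k := by
      have h5 : v * u * v⁻¹ = c * u := by rw [hc]; group
      have h6 : Commute c u := (d.Zcomm hcZ u).symm
      rw [← conj_zpow, h5, h6.mul_zpow]
    have h5 : c ^ k = 1 := by
      rw [hx v] at h4
      have h6 : u ^ k * v * v⁻¹ = u ^ k := by group
      rw [h6] at h4
      exact (mul_eq_right.1 h4.symm)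
    have h6 : (p : ℤ) ∣ k := by
      rw [← hord]; exact orderOf_dvd_iff_zpow_eq_one.2 h5
    obtain ⟨m, rfl⟩ := h6
    rw [hn, zpow_mul, zpow_natCast]
    have : u ^ p ^ (2 - 1) = u ^ p := by norm_num
    rw [this]
    exact Subgroup.zpow_mem _ (Subgroup.mem_zpowers _) _
  have hges : Cfsg.Agent.Extra.GES p G := by
    constructor
    · rw [hcen, Nat.card_zpowers, d.ordz]
    · rw [Cfsg.Agent.Extra.classTwo_iff]
      intro x y
      rw [hcen, commutatorElement_def]
      exact d.Vcomm (hV v) hvR hvU (hV y) (hV x)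
  apply Cfsg.Agent.Extra.isExtraspecial_of_ges hges
  intro h
  apply hvU
  have : v ∈ Subgroup.center G := by rw [h]; trivial
  rw [hcen] at this
  exact d.Z_le this

/-- the final conclusion -/
def Concl (p : ℕ) (G : Type*) [Group G] : Prop :=
  ∃ E R : Subgroup G, (∀ e ∈ E, ∀ r ∈ R, e * r = r * e) ∧ E ⊔ R = ⊤ ∧ (E = ⊥ ∨ Cfsg.IsExtraspecial p ↥E) ∧
    (IsCyclic R ∨ (p = 2 ∧ 16 ≤ Nat.card R ∧ ((∃ m : ℕ, Nonempty (↥R ≃* DihedralGroup m)) ∨
      (∃ m : ℕ, Nonempty (↥R ≃* QuaternionGroup m)) ∨ Cfsg.IsQuasiDihedral ↥R)))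

theorem concl_of (hR : IsCyclic (Subgroup.centralizer (E : Set G)) ∨
    (p = 2 ∧ 16 ≤ Nat.card (Subgroup.centralizer (E : Set G)) ∧ ((∃ m : ℕ, Nonempty (↥(Subgroup.centralizer (E : Set G)) ≃* DihedralGroup m)) ∨
      (∃ m : ℕ, Nonempty (↥(Subgroup.centralizer (E : Set G)) ≃* QuaternionGroup m)) ∨
      Cfsg.IsQuasiDihedral ↥(Subgroup.centralizer (E : Set G))))) : Concl p G := by
  by_cases htop : Subgroup.center E = ⊤
  · refine ⟨⊥, Subgroup.centralizer (E : Set G), ?_, ?_, Or.inl rfl, hR⟩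
    · intro e he r _
      rw [Subgroup.mem_bot] at he
      rw [he, one_mul, mul_one]
    · rw [bot_sup_eq, eq_top_iff]
      intro g _
      rw [Subgroup.mem_centralizer_iff]
      intro e he
      have h1 : (⟨e, he⟩ : E) ∈ Subgroup.center E := by rw [htop]; trivial
      exact (d.Zcomm (d.mem_center.1 h1) g).symm
  · refine ⟨E, Subgroup.centralizer (E : Set G), ?_, ?_, Or.inr ?_, hR⟩
    · intro e he r hr
      exact Subgroup.mem_centralizer_iff.1 hr e he
    · rw [eq_top_iff]
      intro g _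
      obtain ⟨e, he, c, hc, rfl⟩ := d.decomp g
      exact mul_mem (Subgroup.mem_sup_left he) (Subgroup.mem_sup_right hc)
    · exact Cfsg.Agent.Extra.isExtraspecial_of_ges d.ges htop

/-- if `R = U` -/
theorem concl_cyclic (hR : ∀ r ∈ Subgroup.centralizer (E : Set G), r ∈ Subgroup.zpowers u) : Concl p G := by
  apply d.concl_of
  left
  have h1 : Subgroup.centralizer (E : Set G) = Subgroup.zpowers u :=
    le_antisymm hR (fun v hv => d.UR hv)
  rw [h1]; infer_instance

end ED

end Cfsg.Agent.H64.Symp
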