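import Cfsg.Agent.BlkInd.TCdef
import Cfsg.Agent.Char.Gallagher
import Cfsg.Agent.Char.ExtCyclic

/-! Piece TC1 of the three characters theorem (helper64 for helper16) -/

set_option autoImplicit false

namespace Cfsg.Agent.H64.TC1

open scoped BigOperators ComplexConjugate
open Cfsg Cfsg.Agent.CharBase Cfsg.Agent.Char Cfsg.Agent.BlkInd.TC

universe u

variable {X : Type u} [Group X] [Fintype X] {C : Subgroup X} [hC : C.Normal] [Fintype C]
  {θ : IrrCharacter C}

omit [Fintype X] [Fintype C] in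
theorem inv_cj (hinv : Iv C θ) (g : X) : cj C g (θ : C → ℂ) = θ := by
  funext n; exact hinv g n

theorem restr (hinv : Iv C θ) {χ : IrrCharacter X} (h : Ov C θ χ) :
    (fun n : C => (χ : X → ℂ) n) = classInner (fun n : C => (χ : X → ℂ) n) (θ : C → ℂ) • (θ : C → ℂ) :=
  restrict_eq_smul_of_invariant C χ.2 θ.2 h (inv_cj hinv)

theorem ind_ne_iff (χ : IrrCharacter X) :
    classInner (indFun C (θ : C → ℂ)) (χ : X → ℂ) ≠ 0 ↔ Ov C θ χ := by
  rw [frobenius_reciprocity C (θ : C → ℂ) (χ : X → ℂ) (irr_isClassFunction χ),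
    classInner_comm_of_isCharacter (irr_isCharacter θ) (isCharacter_restrict (irr_isCharacter χ) C)]
  rfl

theorem over_of_mul (hinv : Iv C θ) (β : IrrCharacter (X ⧸ C)) {ψ χ : IrrCharacter X}
    (hψ : Ov C θ ψ)
    (h : classInner (fun x : X => (β : X ⧸ C → ℂ) (x : X ⧸ C) * (ψ : X → ℂ) x) (χ : X → ℂ) ≠ 0) :
    Ov C θ χ := by
  have hβ : IsCharacter X (fun x : X => (β : X ⧸ C → ℂ) (x : X ⧸ C)) :=
    isCharacter_comp (irr_isCharacter β) (QuotientGroup.mk' C)
  have hΦ : IsCharacter X (fun x : X => (β : X ⧸ C → ℂ) (x : X ⧸ C) * (ψ : X → ℂ) x) :=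
    isCharacter_mul hβ (irr_isCharacter ψ)
  obtain ⟨θ', hθ', hne⟩ := exists_constituent_restrict C (irr_isCharacter χ) (irr_one_ne_zero χ.2)
  have h1 : classInner (indFun C θ') (χ : X → ℂ) ≠ 0 :=
    (ind_ne_iff (θ := ⟨θ', hθ'⟩) χ).mpr hne
  have h2 := classInner_ne_zero_of_common (indFun_isCharacter C θ' (isCharacter_of_isIrr hθ'))
    hΦ χ.2 h1 h
  rw [frobenius_reciprocity C θ' _ (isClassFunction_of_isCharacter hΦ)] at h2
  have h3 : (fun n : C => (β : X ⧸ C → ℂ) ((n : X) : X ⧸ C) * (ψ : X → ℂ) n)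
      = ((β : X ⧸ C → ℂ) 1 * classInner (fun n : C => (ψ : X → ℂ) n) (θ : C → ℂ)) • (θ : C → ℂ) := by
    funext n
    have h4 : (((n : X) : X ⧸ C)) = 1 := (QuotientGroup.eq_one_iff (n : X)).mpr n.2
    have h5 := congrFun (restr hinv hψ) n
    simp only [Pi.smul_apply, smul_eq_mul] at h5 ⊢
    rw [h4, h5, mul_assoc]
  rw [h3, classInner_smul_right] at h2
  have h6 : classInner θ' (θ : C → ℂ) ≠ 0 := right_ne_zero_of_mul h2
  have h7 := eq_of_classInner_ne_zero hθ' θ.2 h6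
  rw [h7] at hne
  exact hne

theorem coeff_zero (hinv : Iv C θ) {b : X ⧸ C → ℂ} (hb : IsClassFunction (X ⧸ C) b)
    {ψ χ : IrrCharacter X} (hψ : Ov C θ ψ) (hχ : ¬ Ov C θ χ) :
    classInner (fun x : X => b (x : X ⧸ C) * (ψ : X → ℂ) x) (χ : X → ℂ) = 0 := by
  classical
  haveI : Fintype (X ⧸ C) := Fintype.ofFinite _
  haveI : Fintype (IrrCharacter (X ⧸ C)) := Fintype.ofFinite _
  have h1 : (fun x : X => b (x : X ⧸ C) * (ψ : X → ℂ) x)
      = ∑ β : IrrCharacter (X ⧸ C), classInner b (β : X ⧸ C → ℂ) •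
        (fun x : X => (β : X ⧸ C → ℂ) (x : X ⧸ C) * (ψ : X → ℂ) x) := by
    funext x
    rw [Finset.sum_apply, classFun_apply_eq_sum hb (x : X ⧸ C), Finset.sum_mul]
    refine Finset.sum_congr rfl fun β _ => ?_
    simp [mul_assoc]
  rw [h1, classInner_sum_left]
  refine Finset.sum_eq_zero fun β _ => ?_
  rw [classInner_smul_left]
  by_contra hne
  exact hχ (over_of_mul hinv β hψ (right_ne_zero_of_mul hne))

theorem card_good (hinv : Iv C θ) {n : ℕ} (y : Fin n → X ⧸ C) (hy : ∀ i, Gd C θ (y i))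
    (hne : ∀ i j, IsConj (y i) (y j) → i = j) :
    n ≤ Nat.card {χ : IrrCharacter X // Ov C θ χ} := by
  classical
  haveI : Fintype (X ⧸ C) := Fintype.ofFinite _
  haveI : Fintype (IrrCharacter X) := Fintype.ofFinite _
  choose ψ hψ t ht h0 using hy
  let f : Fin n → X → ℂ := fun i x => classInd (y i) (x : X ⧸ C) * (ψ i : X → ℂ) x
  have hf : ∀ i j, f i (t j) = if i = j then (ψ i : X → ℂ) (t i) else 0 := by
    intro i j
    show classInd (y i) ((t j : X) : X ⧸ C) * (ψ i : X → ℂ) (t j) = _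
    rw [ht j]
    unfold classInd
    by_cases hij : i = j
    · subst hij
      rw [if_pos (IsConj.refl _), if_pos rfl, one_mul]
    · rw [if_neg (fun h => hij (hne i j h)), if_neg hij, zero_mul]
  have hli : LinearIndependent ℂ f := by
    rw [Fintype.linearIndependent_iff]
    intro a ha j
    have h1 := congrFun ha (t j)
    rw [Finset.sum_apply] at h1
    simp only [Pi.smul_apply, hf, smul_eq_mul, Pi.zero_apply, mul_ite, mul_zero,
      Finset.sum_ite_eq', Finset.mem_univ, if_true] at h1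
    exact (mul_eq_zero.mp h1).resolve_right (h0 j)
  let S : Submodule ℂ (X → ℂ) :=
    Submodule.span ℂ (Set.range (fun χ : {χ : IrrCharacter X // Ov C θ χ} => ((χ : IrrCharacter X) : X → ℂ)))
  have hcl : ∀ i, IsClassFunction X (f i) := by
    intro i x z
    show classInd (y i) ((z * x * z⁻¹ : X) : X ⧸ C) * (ψ i : X → ℂ) (z * x * z⁻¹) = _
    rw [QuotientGroup.mk_mul, QuotientGroup.mk_mul, QuotientGroup.mk_inv,
      classInd_isClassFunction (y i) (x : X ⧸ C) (z : X ⧸ C), irr_isClassFunction (ψ i) x z]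
  have hmem : ∀ i, f i ∈ S := by
    intro i
    rw [classFun_eq_sum (hcl i)]
    refine Submodule.sum_mem _ fun χ _ => ?_
    by_cases hχ : Ov C θ χ
    · exact Submodule.smul_mem _ _ (Submodule.subset_span ⟨⟨χ, hχ⟩, rfl⟩)
    · have : classInner (f i) (χ : X → ℂ) = 0 := coeff_zero hinv (classInd_isClassFunction (y i)) (hψ i) hχ
      rw [this, zero_smul]
      exact Submodule.zero_mem _
  haveI : Fintype {χ : IrrCharacter X // Ov C θ χ} := Fintype.ofFinite _
  have h2 : Module.finrank ℂ S ≤ Nat.card {χ : IrrCharacter X // Ov C θ χ} := by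
    rw [Nat.card_eq_fintype_card]
    exact finrank_range_le_card _
  have h3 : Submodule.span ℂ (Set.range f) ≤ S := by
    rw [Submodule.span_le]
    rintro _ ⟨i, rfl⟩
    exact hmem i
  have h4 : Module.finrank ℂ (Submodule.span ℂ (Set.range f)) = n := by
    rw [finrank_span_eq_card hli, Fintype.card_fin]
  rw [← h4]
  exact (Submodule.finrank_mono h3).trans h2

theorem gd_conj (hinv : Iv C θ) (h2 : Nat.card {χ : IrrCharacter X // Ov C θ χ} ≤ 2)
    (g h : X ⧸ C) (hg : Gd C θ g) (hh : Gd C θ h) (hg1 : g ≠ 1) (hh1 : h ≠ 1) : IsConj g h := by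
  by_contra hcon
  have h1 : Gd C θ (1 : X ⧸ C) := by
    obtain ⟨χ, hχ, -⟩ := hg
    exact ⟨χ, hχ, 1, rfl, irr_one_ne_zero χ.2⟩
  have key := card_good hinv (n := 3) ![1, g, h] (by
    intro i
    fin_cases i
    · exact h1
    · exact hg
    · exact hh) (by
    intro i j hij
    fin_cases i <;> fin_cases j <;> simp at hij ⊢
    · exact hg1 hij.symm
    · exact hh1 hij.symm
    · exact hg1 hij
    · exact hcon (isConj_iff.mpr hij)
    · exact hh1 hij
    · exact hcon (isConj_iff.mpr hij).symm)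
  omega

theorem exists_e (θ : IrrCharacter C) (hinv : Iv C θ) : ∃ e : IrrCharacter X → ℕ,
    (∀ χ : IrrCharacter X, classInner (indFun C (θ : C → ℂ)) (χ : X → ℂ) = e χ) ∧ (∀ χ, e χ ≠ 0 ↔ Ov C θ χ) ∧
    ∀ [Fintype (IrrCharacter X)], C.index = ∑ χ, e χ ^ 2 := by
  classical
  haveI : Fintype (IrrCharacter X) := Fintype.ofFinite _
  have hX : IsCharacter X (indFun C (θ : C → ℂ)) := indFun_isCharacter C _ (irr_isCharacter θ)
  obtain ⟨e, he, -⟩ := exists_mult_of_isCharacter hX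
  refine ⟨e, he, ?_, ?_⟩
  · intro χ
    rw [← ind_ne_iff, he]
    exact (Nat.cast_ne_zero).symm
  · intro inst
    have h1 := classInner_indFun_self_of_invariant C θ.2 (inv_cj hinv)
    rw [classInner_eq_sum (isClassFunction_of_isCharacter hX)] at h1
    have h2 : ∀ ξ : IrrCharacter X, classInner (indFun C (θ : C → ℂ)) (ξ : X → ℂ) *
        classInner (ξ : X → ℂ) (indFun C (θ : C → ℂ)) = ((e ξ ^ 2 : ℕ) : ℂ) := by
      intro ξ
      rw [classInner_comm_of_isCharacter (irr_isCharacter ξ) hX, he]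
      push_cast; ring
    simp_rw [h2] at h1
    rw [← Nat.cast_sum] at h1
    exact_mod_cast h1.symm

theorem sum_filter (θ : IrrCharacter C) (hinv : Iv C θ) : ∃ (e : IrrCharacter X → ℕ)
    (S : Finset (IrrCharacter X)), (∀ χ, χ ∈ S ↔ Ov C θ χ) ∧
      S.card = Nat.card {χ : IrrCharacter X // Ov C θ χ} ∧
      (∀ χ : IrrCharacter X, classInner (indFun C (θ : C → ℂ)) (χ : X → ℂ) = e χ) ∧
      Nat.card (X ⧸ C) = ∑ χ ∈ S, e χ ^ 2 := by
  classical
  haveI : Fintype (IrrCharacter X) := Fintype.ofFinite _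
  obtain ⟨e, he, hov, hsum⟩ := exists_e θ hinv
  refine ⟨e, Finset.univ.filter (fun χ => Ov C θ χ), ?_, ?_, he, ?_⟩
  · intro χ; simp
  · rw [Nat.card_eq_fintype_card, Fintype.card_subtype]
  · have h1 := hsum
    rw [Subgroup.index] at h1
    rw [h1, Finset.sum_filter]
    refine Finset.sum_congr rfl fun χ _ => ?_
    split_ifs with h
    · rfl
    · have : e χ = 0 := by
        by_contra h0
        exact h ((hov χ).mp h0)
      rw [this]; rfl

theorem sum_sq (hinv : Iv C θ) (h2 : Nat.card {χ : IrrCharacter X // Ov C θ χ} ≤ 2) :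
    ∃ a b : ℕ, Nat.card (X ⧸ C) = a ^ 2 + b ^ 2 := by
  classical
  obtain ⟨e, S, -, hcard, -, hsum⟩ := sum_filter θ hinv
  rw [← hcard] at h2
  have : S.card = 0 ∨ S.card = 1 ∨ S.card = 2 := by omega
  rcases this with h | h | h
  · rw [Finset.card_eq_zero] at h
    refine ⟨0, 0, ?_⟩
    rw [hsum, h]; simp
  · obtain ⟨a, ha⟩ := Finset.card_eq_one.mp h
    refine ⟨e a, 0, ?_⟩
    rw [hsum, ha]; simp
  · obtain ⟨a, b, hab, hS⟩ := Finset.card_eq_two.mp h
    refine ⟨e a, e b, ?_⟩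
    rw [hsum, hS, Finset.sum_pair hab]

theorem square_of_one (hinv : Iv C θ) (h1 : Nat.card {χ : IrrCharacter X // Ov C θ χ} = 1) :
    IsSquare (Nat.card (X ⧸ C)) ∧ (IsCyclic (X ⧸ C) → Nat.card (X ⧸ C) = 1) := by
  classical
  obtain ⟨e, S, hS, hcard, he, hsum⟩ := sum_filter θ hinv
  rw [← hcard] at h1
  obtain ⟨a, ha⟩ := Finset.card_eq_one.mp h1
  rw [ha, Finset.sum_singleton] at hsum
  refine ⟨⟨e a, by rw [hsum, sq]⟩, ?_⟩
  intro hcyc
  obtain ⟨χ, hχ, hext⟩ := exists_extension_of_cyclic C hcyc θ.2 (inv_cj hinv)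
  have h3 : (fun n : C => χ n) = (θ : C → ℂ) := funext hext
  have h4 : Ov C θ ⟨χ, hχ⟩ := by
    show classInner (fun n : C => χ n) (θ : C → ℂ) ≠ 0
    rw [h3, classInner_irr_self θ]
    exact one_ne_zero
  have h5 : (⟨χ, hχ⟩ : IrrCharacter X) = a := by
    have := (hS ⟨χ, hχ⟩).mpr h4
    rwa [ha, Finset.mem_singleton] at this
  have h6 : (e a : ℂ) = 1 := by
    rw [← he a, ← h5, frobenius_reciprocity C (θ : C → ℂ) χ
      (isClassFunction_of_isCharacter (isCharacter_of_isIrr hχ)), h3, classInner_irr_self θ]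
  have h7 : e a = 1 := by exact_mod_cast h6
  rw [hsum, h7]; rfl

end Cfsg.Agent.H64.TC1
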