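import Mathlib
import Cfsg.Agent.H33.Base

/-!
Transfer via cocycles: restriction to a 2-group, orbit by orbit, by index-two steps.
-/

set_option autoImplicit false
set_option linter.style.haveILetI false

namespace Cfsg.Agent.H64.TrA

open MulAction
open Cfsg.Agent.H33 (lt_inf_normalizer)

variable {G Ω A : Type*} [Group G] [MulAction G Ω] [CommGroup A]

/-- multiplicative cocycles -/
def IsCoc (c : G → Ω → A) : Prop := ∀ g h : G, ∀ ω : Ω, c (g * h) ω = c g (h • ω) * c h ω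

theorem IsCoc.one {c : G → Ω → A} (hc : IsCoc c) (ω : Ω) : c 1 ω = 1 := by
  have := hc 1 1 ω
  rw [one_mul, one_smul] at this
  exact (mul_eq_left.1 this.symm)

/-- the product over the `R`-orbit of `ω` -/
noncomputable def V [Finite Ω] (c : G → Ω → A) (R : Subgroup G) (ω : Ω) (g : G) : A := by
  classical
  exact ∏ w ∈ (Set.toFinite (orbit R ω)).toFinset, c g w

variable [Finite Ω]

theorem smul_orbit_prod {R : Subgroup G} {ω : Ω} {g : G} (hg : g ∈ R) (f : Ω → A) :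
    ∏ w ∈ (Set.toFinite (orbit R ω)).toFinset, f (g • w) = ∏ w ∈ (Set.toFinite (orbit R ω)).toFinset, f w := by
  classical
  refine Finset.prod_bij (fun w _ => g • w) ?_ ?_ ?_ ?_
  · intro w hw
    rw [Set.Finite.mem_toFinset] at hw ⊢
    obtain ⟨r, rfl⟩ := hw
    exact ⟨⟨g, hg⟩ * r, by simp [mul_smul]⟩
  · intro a _ b _ h
    exact MulAction.injective g h
  · intro w hw
    rw [Set.Finite.mem_toFinset] at hw
    obtain ⟨r, rfl⟩ := hw
    refine ⟨(⟨g, hg⟩⁻¹ * r) • ω, ?_, ?_⟩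
    · rw [Set.Finite.mem_toFinset]; exact ⟨_, rfl⟩
    · change g • ((g⁻¹ * (r : G)) • ω) = (r : G) • ω
      rw [← mul_smul, mul_inv_cancel_left]
  · intro w _; rfl

theorem V_mul {c : G → Ω → A} (hc : IsCoc c) {R : Subgroup G} {ω : Ω} (g : G) {h : G} (hh : h ∈ R) :
    V c R ω (g * h) = V c R ω g * V c R ω h := by
  classical
  unfold V
  calc ∏ w ∈ (Set.toFinite (orbit R ω)).toFinset, c (g * h) w
      = ∏ w ∈ (Set.toFinite (orbit R ω)).toFinset, (c g (h • w) * c h w) := by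
        refine Finset.prod_congr rfl fun w _ => hc g h w
    _ = _ := by rw [Finset.prod_mul_distrib, smul_orbit_prod hh (fun w => c g w)]

theorem V_one {c : G → Ω → A} (hc : IsCoc c) {R : Subgroup G} {ω : Ω} : V c R ω 1 = 1 := by
  unfold V
  exact Finset.prod_eq_one fun w _ => hc.one w

theorem V_inv {c : G → Ω → A} (hc : IsCoc c) {R : Subgroup G} {ω : Ω} {h : G} (hh : h ∈ R) :
    V c R ω h⁻¹ = (V c R ω h)⁻¹ := by
  rw [eq_inv_iff_mul_eq_one, ← V_mul hc _ hh, inv_mul_cancel, V_one hc]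

/-- the value for the stabiliser -/
theorem V_stab {c : G → Ω → A} {R : Subgroup G} {ω : Ω} (hR : R ≤ stabilizer G ω) (g : G) : V c R ω g = c g ω := by
  classical
  have h1 : (Set.toFinite (orbit R ω)).toFinset = {ω} := by
    ext w
    rw [Set.Finite.mem_toFinset, Finset.mem_singleton]
    constructor
    · rintro ⟨r, rfl⟩
      exact mem_stabilizer_iff.1 (hR r.2)
    · rintro rfl; exact mem_orbit_self w
  unfold V
  rw [h1, Finset.prod_singleton]

/-- one step up by an element `t` -/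
structure Step (R R' : Subgroup G) (t : G) (ω : Ω) : Prop where
  not_mem : t ∉ R
  mem : t ∈ R'
  le : R ≤ R'
  norm : ∀ r ∈ R, t⁻¹ * r * t ∈ R
  sq : t * t ∈ R
  cover : ∀ g ∈ R', g ∈ R ∨ t⁻¹ * g ∈ R
  stab : ∀ g ∈ R', g • ω = ω → g ∈ R

namespace Step

variable {c : G → Ω → A} {R R' : Subgroup G} {t : G} {ω : Ω}

omit [Finite Ω] in
theorem norm' (s : Step R R' t ω) : ∀ r ∈ R, t * r * t⁻¹ ∈ R := by
  intro r hr
  have h1 := s.norm _ (mul_mem (mul_mem s.sq hr) (inv_mem s.sq))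
  have h2 : t⁻¹ * (t * t * r * (t * t)⁻¹) * t = t * r * t⁻¹ := by group
  rwa [h2] at h1

theorem prod_eq (s : Step R R' t ω) (f : Ω → A) :
    ∏ w ∈ (Set.toFinite (orbit R' ω)).toFinset, f w =
      (∏ w ∈ (Set.toFinite (orbit R ω)).toFinset, f w) * ∏ w ∈ (Set.toFinite (orbit R ω)).toFinset, f (t • w) := by
  classical
  have h1 : (Set.toFinite (orbit R' ω)).toFinset = (Set.toFinite (orbit R ω)).toFinset ∪
      (Set.toFinite (orbit R ω)).toFinset.image (fun w => t • w) := by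
    ext w
    rw [Finset.mem_union, Finset.mem_image, Set.Finite.mem_toFinset, Set.Finite.mem_toFinset]
    constructor
    · rintro ⟨r, rfl⟩
      rcases s.cover r r.2 with h | h
      · left; exact ⟨⟨r, h⟩, rfl⟩
      · right
        refine ⟨(t⁻¹ * (r : G)) • ω, ?_, ?_⟩
        · rw [Set.Finite.mem_toFinset]; exact ⟨⟨_, h⟩, rfl⟩
        · rw [← mul_smul, mul_inv_cancel_left]; rfl
    · rintro (⟨r, rfl⟩ | ⟨w, hw, rfl⟩)
      · exact ⟨⟨r, s.le r.2⟩, rfl⟩
      · rw [Set.Finite.mem_toFinset] at hw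
        obtain ⟨r, rfl⟩ := hw
        refine ⟨⟨t * r, mul_mem s.mem (s.le r.2)⟩, ?_⟩
        change (t * (r : G)) • ω = t • (r : G) • ω
        rw [mul_smul]
  have h2 : Disjoint (Set.toFinite (orbit R ω)).toFinset
      ((Set.toFinite (orbit R ω)).toFinset.image (fun w => t • w)) := by
    rw [Finset.disjoint_left]
    intro w hw hw'
    rw [Finset.mem_image] at hw'
    obtain ⟨v, hv, rfl⟩ := hw'
    rw [Set.Finite.mem_toFinset] at hw hv
    obtain ⟨r, rfl⟩ := hv
    obtain ⟨r', hr'⟩ := hw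
    -- r' ω = t r ω
    have h3 : ((r' : G)⁻¹ * t * (r : G)) • ω = ω := by
      have h4 : (r' : G) • ω = t • (r : G) • ω := hr'
      rw [mul_smul, mul_smul, ← h4, inv_smul_smul]
    have h5 := s.stab _ (mul_mem (mul_mem (inv_mem (s.le r'.2)) s.mem) (s.le r.2)) h3
    apply s.not_mem
    have h6 := mul_mem (mul_mem r'.2 h5) (inv_mem r.2)
    have h7 : (r' : G) * ((r' : G)⁻¹ * t * (r : G)) * (r : G)⁻¹ = t := by group
    rwa [h7] at h6
  rw [h1, Finset.prod_union h2, Finset.prod_image (fun a _ b _ h => MulAction.injective t h)]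

theorem V_base (hc : IsCoc c) (s : Step R R' t ω) {g : G} (hg : g ∈ R) :
    V c R' ω g = V c R ω g * V c R ω (t⁻¹ * g * t) := by
  classical
  unfold V
  rw [s.prod_eq]
  congr 1
  have hg' := s.norm g hg
  have h1 : ∀ w : Ω, c g (t • w) = c t ((t⁻¹ * g * t) • w) * c (t⁻¹ * g * t) w * (c t w)⁻¹ := by
    intro w
    rw [← hc, eq_mul_inv_iff_mul_eq, ← hc]
    congr 1; group
  calc ∏ w ∈ (Set.toFinite (orbit R ω)).toFinset, c g (t • w)
      = ∏ w ∈ (Set.toFinite (orbit R ω)).toFinset, (c t ((t⁻¹ * g * t) • w) * c (t⁻¹ * g * t) w * (c t w)⁻¹) :=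
        Finset.prod_congr rfl fun w _ => h1 w
    _ = _ := by
        rw [Finset.prod_mul_distrib, Finset.prod_mul_distrib, smul_orbit_prod hg' (fun w => c t w),
          Finset.prod_inv_distrib]
        rw [mul_comm, ← mul_assoc, inv_mul_cancel, one_mul]

theorem V_top (hc : IsCoc c) (s : Step R R' t ω) : V c R' ω t = V c R ω (t * t) := by
  classical
  unfold V
  rw [s.prod_eq, ← Finset.prod_mul_distrib]
  refine Finset.prod_congr rfl fun w _ => ?_
  rw [hc t t w, mul_comm]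

/-- vanishing above -/
theorem vanish (hc : IsCoc c) (s : Step R R' t ω) (h1 : ∀ g ∈ R, V c R ω g * V c R ω (t⁻¹ * g * t) = 1)
    (h2 : V c R ω (t * t) = 1) : ∀ g ∈ R', V c R' ω g = 1 := by
  intro g hg
  rcases s.cover g hg with h | h
  · rw [s.V_base hc h, h1 g h]
  · have h3 : g = t * (t⁻¹ * g) := by group
    rw [h3, V_mul hc _ (s.le h), s.V_top hc, h2, s.V_base hc h, h1 _ h, one_mul]

theorem vanish' (hc : IsCoc c) (s : Step R R' t ω) (h1 : ∀ g ∈ R, V c R ω g = 1) : ∀ g ∈ R', V c R' ω g = 1 :=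
  s.vanish hc (fun g hg => by rw [h1 g hg, h1 _ (s.norm g hg), one_mul]) (h1 _ s.sq)

end Step

/-- the subgroup `R ∪ tR` -/
def ext (R : Subgroup G) (t : G) (hn : ∀ r ∈ R, t⁻¹ * r * t ∈ R) (hsq : t * t ∈ R) : Subgroup G where
  carrier := {g | g ∈ R ∨ t⁻¹ * g ∈ R}
  one_mem' := Or.inl (one_mem R)
  mul_mem' := by
    rintro g h (hg | hg) (hh | hh)
    · exact Or.inl (mul_mem hg hh)
    · right
      have : t⁻¹ * (g * h) = (t⁻¹ * g * t) * (t⁻¹ * h) := by group
      rw [this]; exact mul_mem (hn g hg) hh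
    · right
      have : t⁻¹ * (g * h) = (t⁻¹ * g) * h := by group
      rw [this]; exact mul_mem hg hh
    · left
      have : g * h = t * t * (t⁻¹ * (t⁻¹ * g) * t) * (t⁻¹ * h) := by group
      rw [this]; exact mul_mem (mul_mem hsq (hn _ hg)) hh
  inv_mem' := by
    rintro g (hg | hg)
    · exact Or.inl (inv_mem hg)
    · right
      have : t⁻¹ * g⁻¹ = (t⁻¹ * (t⁻¹ * g)⁻¹ * t) * (t * t)⁻¹ := by group
      rw [this]; exact mul_mem (hn _ (inv_mem hg)) (inv_mem hsq)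

omit [Finite Ω] in
theorem step_ext {R : Subgroup G} {t : G} {ω : Ω} (hn : ∀ r ∈ R, t⁻¹ * r * t ∈ R) (hsq : t * t ∈ R) (ht : t ∉ R)
    {P : Subgroup G} (hRP : R ≤ P) (htP : t ∈ P) (hst : ∀ g ∈ P, g • ω = ω → g ∈ R) :
    Step R (ext R t hn hsq) t ω ∧ ext R t hn hsq ≤ P := by
  have hle : ext R t hn hsq ≤ P := by
    rintro g (hg | hg)
    · exact hRP hg
    · have : g = t * (t⁻¹ * g) := by group
      rw [this]; exact mul_mem htP (hRP hg)
  refine ⟨⟨ht, Or.inr (by rw [inv_mul_cancel]; exact one_mem R), fun g hg => Or.inl hg, hn, hsq, fun g hg => hg, ?_⟩, hle⟩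
  intro g hg hgω
  exact hst g (hle hg) hgω

omit [Finite Ω] in
/-- existence of a step in a 2-group -/
theorem exists_step [Finite G] {P : Subgroup G} (hP : IsPGroup 2 P) {R : Subgroup G} (hR : R ≤ P) {ω : Ω}
    (hst : ∀ g ∈ P, g • ω = ω → g ∈ R) (hne : R ≠ P) : ∃ (R' : Subgroup G) (t : G), Step R R' t ω ∧ R' ≤ P := by
  haveI : Fact (Nat.Prime 2) := ⟨Nat.prime_two⟩
  have h1 := lt_inf_normalizer hP (lt_of_le_of_ne hR hne)
  obtain ⟨x, hx, hxR⟩ := SetLike.exists_of_lt h1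
  obtain ⟨k, hk⟩ := hP ⟨x, (Subgroup.mem_inf.1 hx).1⟩
  have hk' : x ^ (2 ^ k) = 1 := congrArg Subtype.val hk
  -- first power of the form 2^j in R
  classical
  have hex : ∃ j : ℕ, x ^ (2 ^ j) ∈ R := ⟨k, by rw [hk']; exact one_mem R⟩
  set j := Nat.find hex with hj
  have hj0 : j ≠ 0 := by
    intro h0
    have h2 := Nat.find_spec hex
    rw [← hj, h0, pow_zero, pow_one] at h2
    exact hxR h2
  obtain ⟨i, hi⟩ := Nat.exists_eq_succ_of_ne_zero hj0
  have htR : x ^ (2 ^ i) ∉ R := Nat.find_min hex (by rw [← hj, hi]; exact Nat.lt_succ_self i)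
  have hsq : x ^ (2 ^ i) * x ^ (2 ^ i) ∈ R := by
    have h2 := Nat.find_spec hex
    rw [← hj, hi, Nat.succ_eq_add_one, pow_succ, pow_mul, pow_two] at h2
    exact h2
  have hN : x ^ (2 ^ i) ∈ Subgroup.normalizer (R : Set G) := pow_mem (Subgroup.mem_inf.1 hx).2 _
  have hn : ∀ r ∈ R, (x ^ (2 ^ i))⁻¹ * r * x ^ (2 ^ i) ∈ R := by
    intro r hr
    have h3 := (Subgroup.mem_normalizer_iff.1 (inv_mem hN) r).1 hr
    rwa [inv_inv] at h3
  have h4 := step_ext (ω := ω) hn hsq htR hR (pow_mem (Subgroup.mem_inf.1 hx).1 _) hst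
  exact ⟨_, _, h4.1, h4.2⟩

/-- climbing up to the 2-group `P` -/
theorem climb [Finite G] {c : G → Ω → A} (hc : IsCoc c) {P : Subgroup G} (hP : IsPGroup 2 P) {ω : Ω} :
    ∀ (n : ℕ) {R : Subgroup G}, R ≤ P → (∀ g ∈ P, g • ω = ω → g ∈ R) → Nat.card P - Nat.card R ≤ n →
      (∀ g ∈ R, V c R ω g = 1) → ∀ g ∈ P, V c P ω g = 1 := by
  intro n
  induction n with
  | zero =>
    intro R hR _ hn hV
    have h1 : R = P := Subgroup.eq_of_le_of_card_ge hR (by omega)
    rw [← h1]; exact hV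
  | succ n ih =>
    intro R hR hst hn hV
    by_cases h1 : R = P
    · rw [← h1]; exact hV
    obtain ⟨R', t, hs, hR'⟩ := exists_step hP hR hst h1
    have h2 : Nat.card R < Nat.card R' := by
      refine lt_of_le_of_ne (Subgroup.card_le_of_le hs.le) ?_
      intro h3
      have h4 := Subgroup.eq_of_le_of_card_ge hs.le h3.ge
      exact hs.not_mem (by rw [h4]; exact hs.mem)
    have h3 : Nat.card R' ≤ Nat.card P := Subgroup.card_le_of_le hR'
    exact ih hR' (fun g hg hω => hs.le (hst g hg hω)) (by omega) (hs.vanish' hc hV)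

/-- squares stay trivial -/
theorem Step.sq_one {c : G → Ω → A} (hc : IsCoc c) {R R' : Subgroup G} {t : G} {ω : Ω} (s : Step R R' t ω)
    (h : ∀ g ∈ R, V c R ω g * V c R ω g = 1) : ∀ g ∈ R', V c R' ω g * V c R' ω g = 1 := by
  have h0 : ∀ g ∈ R, V c R' ω g * V c R' ω g = 1 := by
    intro g hg
    rw [s.V_base hc hg, mul_mul_mul_comm, h g hg, h _ (s.norm g hg), one_mul]
  intro g hg
  rcases s.cover g hg with h1 | h1
  · exact h0 g h1
  · have h3 : g = t * (t⁻¹ * g) := by group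
    rw [h3, V_mul hc _ (s.le h1), mul_mul_mul_comm, h0 _ h1, s.V_top hc, h _ s.sq, one_mul]

/-! ### the extraspecial part -/

/-- `E` is a normal subgroup of the 2-group `P` with squares and commutators in `⟨z⟩` -/
structure Env (P E : Subgroup G) (z : G) : Prop where
  two : IsPGroup 2 P
  le : E ≤ P
  norm : ∀ g ∈ P, ∀ e ∈ E, g⁻¹ * e * g ∈ E
  mem : z ∈ E
  cent : ∀ g ∈ P, g * z = z * g
  zz : z * z = 1
  sq : ∀ e ∈ E, e * e = 1 ∨ e * e = z
  com : ∀ x ∈ E, ∀ y ∈ E, y⁻¹ * x * y = x ∨ y⁻¹ * x * y = x * z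

namespace Env

variable {P E : Subgroup G} {z : G}

omit [Finite Ω] in
theorem exists_step [Finite G] (v : Env P E z) {R : Subgroup G} (hR : R ≤ P) (hz : z ∈ R) {ω : Ω}
    (hst : ∀ g ∈ P, g • ω = ω → g ∈ R) (hE : ¬ E ≤ R) :
    ∃ (R' : Subgroup G) (t : G), t ∈ E ∧ Step R R' t ω ∧ R' ≤ P := by
  haveI : Fact (Nat.Prime 2) := ⟨Nat.prime_two⟩
  have hlt : R < R ⊔ E := lt_of_le_of_ne le_sup_left (fun h => hE (h ▸ le_sup_right))
  have hle : R ⊔ E ≤ P := sup_le hR v.le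
  have h1 := lt_inf_normalizer (v.two.to_le hle) hlt
  obtain ⟨x, hx, hxR⟩ := SetLike.exists_of_lt h1
  obtain ⟨hxs, hxN⟩ := Subgroup.mem_inf.1 hx
  have hxs' : ∃ r ∈ R, ∃ e ∈ E, r * e = x := by
    have hnorm : R ≤ Subgroup.normalizer (E : Set G) := by
      intro r hr
      rw [Subgroup.mem_normalizer_iff]
      intro e
      constructor
      · intro he
        have := v.norm r⁻¹ (inv_mem (hR hr)) e he
        rwa [inv_inv] at this
      · intro he
        have := v.norm r (hR hr) _ he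
        have e1 : r⁻¹ * (r * e * r⁻¹) * r = e := by group
        rwa [e1] at this
    obtain ⟨r, hr, e, he, h⟩ := (Cfsg.Agent.H33.mem_sup_right_norm hnorm).1 hxs
    exact ⟨r, hr, e, he, h.symm⟩
  obtain ⟨r, hr, e, he, rfl⟩ := hxs'
  have heR : e ∉ R := fun h => hxR (mul_mem hr h)
  have heN : e ∈ Subgroup.normalizer (R : Set G) := by
    have : e = r⁻¹ * (r * e) := by group
    rw [this]
    exact mul_mem (inv_mem (Subgroup.le_normalizer hr)) hxN
  have hn : ∀ r ∈ R, e⁻¹ * r * e ∈ R := by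
    intro r hr
    have h3 := (Subgroup.mem_normalizer_iff.1 (inv_mem heN) r).1 hr
    rwa [inv_inv] at h3
  have hsq : e * e ∈ R := by
    rcases v.sq e he with h | h <;> rw [h]
    · exact one_mem R
    · exact hz
  have h4 := step_ext (ω := ω) hn hsq heR hR (v.le he) hst
  exact ⟨_, e, he, h4.1, h4.2⟩

/-- one step: trivial on `E ∩ R'` -/
theorem one_step (v : Env P E z) {c : G → Ω → A} (hc : IsCoc c) {R R' : Subgroup G} {t : G} {ω : Ω}
    (s : Step R R' t ω) (hRP : R ≤ P) (ht : t ∈ E) (hzR : z ∈ R) (hsq : ∀ g ∈ R, V c R ω g * V c R ω g = 1)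
    (hz : V c R ω z = 1) : ∀ a ∈ E, a ∈ R' → V c R' ω a = 1 := by
  have h0 : ∀ a ∈ E, a ∈ R → V c R' ω a = 1 := by
    intro a ha haR
    rw [s.V_base hc haR]
    rcases v.com a ha t ht with h | h
    · rw [h]; exact hsq a haR
    · rw [h, V_mul hc _ hzR, hz, mul_one]; exact hsq a haR
  intro a ha haR'
  rcases s.cover a haR' with h | h
  · exact h0 a ha h
  · have h3 : a = t * (t⁻¹ * a) := by group
    have h4 : t⁻¹ * a ∈ E := mul_mem (inv_mem ht) ha
    rw [h3, V_mul hc _ (s.le h), h0 _ h4 h, mul_one, s.V_top hc]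
    rcases v.sq t ht with h5 | h5 <;> rw [h5]
    · exact V_one hc
    · exact hz

theorem V_z (v : Env P E z) {c : G → Ω → A} (hc : IsCoc c) {R R' : Subgroup G} {t : G} {ω : Ω}
    (s : Step R R' t ω) (ht : t ∈ E) (hzR : z ∈ R) (hsq : ∀ g ∈ R, V c R ω g * V c R ω g = 1) :
    V c R' ω z = 1 := by
  rw [s.V_base hc hzR]
  have h1 : t⁻¹ * z * t = z := by
    have := v.cent t (v.le ht)
    rw [mul_assoc, ← this]; group
  rw [h1]; exact hsq z hzR

/-- the second step kills everything -/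
theorem second_step (v : Env P E z) {c : G → Ω → A} (hc : IsCoc c) {R R' : Subgroup G} {t : G} {ω : Ω}
    (s : Step R R' t ω) (hRP : R ≤ P) (ht : t ∈ E) (hsq : ∀ g ∈ R, V c R ω g * V c R ω g = 1)
    (hE : ∀ a ∈ E, a ∈ R → V c R ω a = 1) : ∀ g ∈ R', V c R' ω g = 1 := by
  apply s.vanish hc
  · intro g hg
    have h1 : t⁻¹ * g * t = g * (g⁻¹ * t⁻¹ * g * t) := by group
    have h2 : g⁻¹ * t⁻¹ * g * t ∈ E := mul_mem (v.norm g (hRP hg) _ (inv_mem ht)) ht
    have h3 : g⁻¹ * t⁻¹ * g * t ∈ R := by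
      have : g⁻¹ * t⁻¹ * g * t = g⁻¹ * (t⁻¹ * g * t) := by group
      rw [this]; exact mul_mem (inv_mem hg) (s.norm g hg)
    rw [h1, V_mul hc _ h3, hE _ h2 h3, mul_one]
    exact hsq g hg
  · exact hE _ (mul_mem ht ht) s.sq

/-- the size of `E ∩ R'` -/
theorem card_le [Finite G] {R R' : Subgroup G} {t : G} {ω : Ω} (s : Step R R' t ω) (ht : t ∈ E) :
    Nat.card (E ⊓ R' : Subgroup G) ≤ 2 * Nat.card (E ⊓ R : Subgroup G) := by
  classical
  have h1 : Function.Injective (fun a : (E ⊓ R' : Subgroup G) =>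
      (if h : (a : G) ∈ R then (Sum.inl ⟨a, Subgroup.mem_inf.2 ⟨(Subgroup.mem_inf.1 a.2).1, h⟩⟩ :
        (E ⊓ R : Subgroup G) ⊕ (E ⊓ R : Subgroup G))
      else Sum.inr ⟨t⁻¹ * a, Subgroup.mem_inf.2 ⟨mul_mem (inv_mem ht) (Subgroup.mem_inf.1 a.2).1,
        (s.cover a (Subgroup.mem_inf.1 a.2).2).resolve_left h⟩⟩)) := by
    intro a b hab
    by_cases ha : (a : G) ∈ R <;> by_cases hb : (b : G) ∈ R <;> simp [ha, hb] at hab
    · exact hab
    · exact hab
  have h2 := Nat.card_le_card_of_injective _ h1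
  rw [Nat.card_sum] at h2
  omega

end Env

end Cfsg.Agent.H64.TrA
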