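import Cfsg.Agent.H64.TrA
import Cfsg.Prelude.Def_Transfer

/-!
The transfer cocycle on `G ⧸ H` and the vanishing criterion.
-/

set_option autoImplicit false
set_option linter.style.haveILetI false

namespace Cfsg.Agent.H64.TrA

open MulAction

variable {G A : Type*} [Group G] [CommGroup A]

section coc

variable {H : Subgroup G} (χ : H →* A)

theorem out_mem (g : G) (q : G ⧸ H) : (Quotient.out (g • q))⁻¹ * g * Quotient.out q ∈ H := by
  have h1 : ((Quotient.out (g • q) : G) : G ⧸ H) = g • q := QuotientGroup.out_eq' _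
  have h2 : ((Quotient.out q : G) : G ⧸ H) = q := QuotientGroup.out_eq' _
  have h3 : ((g * Quotient.out q : G) : G ⧸ H) = g • q := by
    conv_rhs => rw [← h2]
    rfl
  rw [mul_assoc]
  exact QuotientGroup.eq.1 (h1.trans h3.symm)

/-- the transfer cocycle -/
noncomputable def coc (g : G) (q : G ⧸ H) : A := χ ⟨(Quotient.out (g • q))⁻¹ * g * Quotient.out q, out_mem g q⟩

theorem isCoc_coc : IsCoc (coc χ) := by
  intro g h q
  unfold coc
  rw [← map_mul]
  congr 1
  apply Subtype.ext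
  simp only [Subgroup.coe_mul, mul_smul]
  group

theorem coc_stab {g : G} {q : G ⧸ H} (h : g • q = q) :
    ∃ hm : (Quotient.out q)⁻¹ * g * Quotient.out q ∈ H, coc χ g q = χ ⟨(Quotient.out q)⁻¹ * g * Quotient.out q, hm⟩ := by
  refine ⟨?_, ?_⟩
  · have := out_mem g q
    rwa [h] at this
  · unfold coc
    congr 1
    apply Subtype.ext
    simp only [h]

theorem coc_one {g : G} (h : g ∈ H) : coc χ g ((1 : G) : G ⧸ H) = χ ⟨g, h⟩ := by
  have h1 : g • ((1 : G) : G ⧸ H) = ((1 : G) : G ⧸ H) := by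
    change ((g * 1 : G) : G ⧸ H) = _
    rw [mul_one, QuotientGroup.eq, mul_one]
    exact inv_mem h
  obtain ⟨hm, h2⟩ := coc_stab χ h1
  rw [h2]
  have h3 : (Quotient.out ((1 : G) : G ⧸ H)) ∈ H := by
    have h4 : ((Quotient.out ((1 : G) : G ⧸ H) : G) : G ⧸ H) = ((1 : G) : G ⧸ H) := QuotientGroup.out_eq' _
    have h5 := QuotientGroup.eq.1 h4
    rw [mul_one] at h5
    exact inv_mem_iff.1 h5
  set t : H := ⟨Quotient.out ((1 : G) : G ⧸ H), h3⟩ with ht
  have h6 : (⟨(Quotient.out ((1 : G) : G ⧸ H))⁻¹ * g * Quotient.out ((1 : G) : G ⧸ H), hm⟩ : H) = t⁻¹ * ⟨g, h⟩ * t := by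
    apply Subtype.ext; rfl
  rw [h6, map_mul, map_mul, map_inv, mul_comm, ← mul_assoc, mul_inv_cancel, one_mul]

end coc

/-- a multiplicative cocycle on a group without 2-quotients has trivial total product -/
theorem total_eq_one {Ω : Type*} [MulAction G Ω] [Fintype Ω] [Finite G] (hres : Cfsg.pResidual 2 G = ⊤)
    {c : G → Ω → A} (hc : IsCoc c) (hA : ∀ a : A, ∃ k : ℕ, a ^ (2 ^ k) = 1) (g : G) : ∏ w, c g w = 1 := by
  let f : G →* A :=
    { toFun := fun g => ∏ w, c g w
      map_one' := Finset.prod_eq_one fun w _ => hc.one w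
      map_mul' := by
        intro g h
        calc ∏ w, c (g * h) w = ∏ w, (c g (h • w) * c h w) := Finset.prod_congr rfl fun w _ => hc g h w
          _ = (∏ w, c g (h • w)) * ∏ w, c h w := Finset.prod_mul_distrib
          _ = _ := by
            congr 1
            exact Fintype.prod_equiv (MulAction.toPerm h) _ _ (fun w => rfl) }
  have h1 : (⊤ : Subgroup G) ≤ f.ker := by
    rw [← hres]
    unfold Cfsg.pResidual
    rw [Subgroup.closure_le]
    intro x hx
    obtain ⟨k, hk⟩ := hA (f x)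
    have h2 : orderOf (f x) ∣ 2 ^ k := orderOf_dvd_of_pow_eq_one hk
    have h3 : orderOf (f x) ∣ orderOf x := orderOf_map_dvd f x
    have h4 : Nat.Coprime (orderOf x) (2 ^ k) := Nat.Coprime.pow_right k hx
    have h5 : orderOf (f x) = 1 := Nat.Coprime.eq_one_of_dvd (h4.coprime_dvd_left h3) h2
    exact orderOf_eq_one_iff.1 h5
  exact h1 (Subgroup.mem_top g)

/-- the criterion -/
theorem local_criterion [Finite G] {H : Subgroup G} (χ : H →* A) (hres : Cfsg.pResidual 2 G = ⊤)
    (hA : ∀ a : A, ∃ k : ℕ, a ^ (2 ^ k) = 1) {P : Subgroup G} (hP : P ≤ H)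
    (hV : ∀ q : G ⧸ H, q ≠ ((1 : G) : G ⧸ H) → ∀ g ∈ P, V (coc χ) P q g = 1) {x : G} (hx : x ∈ P) :
    χ ⟨x, hP hx⟩ = 1 := by
  classical
  haveI : Fintype (G ⧸ H) := Fintype.ofFinite _
  have h1 := total_eq_one hres (isCoc_coc χ) hA x
  rw [← Finset.mul_prod_erase Finset.univ _ (Finset.mem_univ ((1 : G) : G ⧸ H)), coc_one χ (hP hx)] at h1
  rw [← h1]
  have h2 : ∏ q ∈ Finset.univ.erase ((1 : G) : G ⧸ H), coc χ x q = 1 := by
    apply Finset.prod_cancels_of_partition_cancels (orbitRel P (G ⧸ H))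
    intro q hq
    have hq1 : q ≠ ((1 : G) : G ⧸ H) := (Finset.mem_erase.1 hq).1
    have h3 := hV q hq1 x hx
    unfold V at h3
    rw [← h3]
    refine Finset.prod_congr ?_ fun _ _ => rfl
    ext w
    rw [Finset.mem_filter, Finset.mem_erase, Set.Finite.mem_toFinset]
    constructor
    · rintro ⟨_, hw⟩
      exact hw
    · intro hw
      refine ⟨⟨?_, Finset.mem_univ _⟩, hw⟩
      rintro rfl
      obtain ⟨r, hr⟩ := hw
      apply hq1
      have h5 : (r : G) • q = ((1 : G) : G ⧸ H) := hr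
      have h6 : q = (r : G)⁻¹ • ((1 : G) : G ⧸ H) := by rw [← h5, inv_smul_smul]
      rw [h6]
      change (((r : G)⁻¹ * 1 : G) : G ⧸ H) = _
      rw [mul_one, QuotientGroup.eq, mul_one, inv_inv]
      exact hP r.2
  rw [h2, mul_one]

end Cfsg.Agent.H64.TrA
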