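import Cfsg.Agent.H64.TrB

/-!
Vanishing of the orbit products: the three cases.
-/

set_option autoImplicit false
set_option linter.style.haveILetI false

namespace Cfsg.Agent.H64.TrA

open MulAction

variable {G Ω A : Type*} [Group G] [MulAction G Ω] [CommGroup A] [Finite Ω] [Finite G]

namespace Env

variable {P E : Subgroup G} {z : G} {c : G → Ω → A} {ω : Ω}

theorem sq_stab (hsq : ∀ g ∈ P, g • ω = ω → c g ω * c g ω = 1) :
    ∀ g ∈ P ⊓ stabilizer G ω, V c (P ⊓ stabilizer G ω) ω g * V c (P ⊓ stabilizer G ω) ω g = 1 := by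
  intro g hg
  rw [V_stab inf_le_right]
  exact hsq g (Subgroup.mem_inf.1 hg).1 (mem_stabilizer_iff.1 (Subgroup.mem_inf.1 hg).2)

omit [Finite Ω] [Finite G] in
theorem stab_le {g : G} (hg : g ∈ P) (h : g • ω = ω) : g ∈ P ⊓ stabilizer G ω :=
  Subgroup.mem_inf.2 ⟨hg, mem_stabilizer_iff.2 h⟩

/-- `z` moves `ω` -/
theorem caseA (v : Env P E z) (hc : IsCoc c) (hz : z • ω ≠ ω) (hsq : ∀ g ∈ P, g • ω = ω → c g ω * c g ω = 1) :
    ∀ g ∈ P, V c P ω g = 1 := by
  set R := P ⊓ stabilizer G ω with hR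
  have hzP : z ∈ P := v.le v.mem
  have hn : ∀ r ∈ R, z⁻¹ * r * z ∈ R := by
    intro r hr
    have : z⁻¹ * r * z = r := by
      rw [mul_assoc, v.cent r (Subgroup.mem_inf.1 hr).1, inv_mul_cancel_left]
    rw [this]; exact hr
  have hsqz : z * z ∈ R := by rw [v.zz]; exact one_mem R
  have hzR : z ∉ R := fun h => hz (mem_stabilizer_iff.1 (Subgroup.mem_inf.1 h).2)
  obtain ⟨hs, hle⟩ := step_ext (ω := ω) hn hsqz hzR inf_le_left hzP (fun g hg h => stab_le hg h)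
  have h1 : ∀ g ∈ ext R z hn hsqz, V c (ext R z hn hsqz) ω g = 1 := by
    apply hs.vanish hc
    · intro g hg
      have : z⁻¹ * g * z = g := by
        rw [mul_assoc, v.cent g (Subgroup.mem_inf.1 hg).1, inv_mul_cancel_left]
      rw [this]; exact sq_stab hsq g hg
    · rw [v.zz]; exact V_one hc
  exact climb hc v.two _ hle (fun g hg h => hs.le (stab_le hg h)) le_rfl h1

theorem not_le_of_card {R : Subgroup G} {k : ℕ} (h1 : Nat.card (E ⊓ R : Subgroup G) ≤ k) (h2 : k < Nat.card E) :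
    ¬ E ≤ R := by
  intro h
  rw [inf_eq_left.2 h] at h1
  omega

/-- `z` fixes `ω` and has value 1 -/
theorem caseB (v : Env P E z) (hc : IsCoc c) (hz : z • ω = ω) (hz1 : c z ω = 1)
    (hsq : ∀ g ∈ P, g • ω = ω → c g ω * c g ω = 1)
    (hE : 2 * Nat.card (E ⊓ (P ⊓ stabilizer G ω) : Subgroup G) < Nat.card E) :
    ∀ g ∈ P, V c P ω g = 1 := by
  set R := P ⊓ stabilizer G ω with hR
  have hzR : z ∈ R := stab_le (v.le v.mem) hz
  have h0 : ¬ E ≤ R := not_le_of_card (k := 2 * Nat.card (E ⊓ R : Subgroup G)) (by omega) hE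
  obtain ⟨R', t, ht, hs, hle⟩ := v.exists_step (ω := ω) inf_le_left hzR (fun g hg h => stab_le hg h) h0
  have hsqR := sq_stab hsq
  have hz1' : V c R ω z = 1 := by rw [V_stab inf_le_right]; exact hz1
  have h1 := v.one_step hc hs inf_le_left ht hzR hsqR hz1'
  have h2 := card_le (E := E) hs ht
  have h3 : ¬ E ≤ R' := not_le_of_card h2 hE
  obtain ⟨R'', s, hs', hss, hle'⟩ := v.exists_step (ω := ω) hle (hs.le hzR) (fun g hg h => hs.le (stab_le hg h)) h3
  have h4 := v.second_step hc hss hle hs' (hs.sq_one hc hsqR) h1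
  exact climb hc v.two _ hle' (fun g hg h => hss.le (hs.le (stab_le hg h))) le_rfl h4

/-- `z` fixes `ω`, large index -/
theorem caseC (v : Env P E z) (hc : IsCoc c) (hz : z • ω = ω)
    (hsq : ∀ g ∈ P, g • ω = ω → c g ω * c g ω = 1)
    (hE : 4 * Nat.card (E ⊓ (P ⊓ stabilizer G ω) : Subgroup G) < Nat.card E) :
    ∀ g ∈ P, V c P ω g = 1 := by
  set R := P ⊓ stabilizer G ω with hR
  have hzR : z ∈ R := stab_le (v.le v.mem) hz
  have h0 : ¬ E ≤ R := not_le_of_card (k := 4 * Nat.card (E ⊓ R : Subgroup G)) (by omega) hE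
  obtain ⟨R₁, t₁, ht₁, hs₁, hle₁⟩ := v.exists_step (ω := ω) inf_le_left hzR (fun g hg h => stab_le hg h) h0
  have hsqR := sq_stab hsq
  have hz1' : V c R₁ ω z = 1 := v.V_z hc hs₁ ht₁ hzR hsqR
  have hsq₁ := hs₁.sq_one hc hsqR
  have hc₁ : Nat.card (E ⊓ R₁ : Subgroup G) ≤ 2 * Nat.card (E ⊓ R : Subgroup G) := card_le (E := E) hs₁ ht₁
  have h1' : ¬ E ≤ R₁ := not_le_of_card (k := 4 * Nat.card (E ⊓ R : Subgroup G)) (by omega) hE
  obtain ⟨R', t, ht, hs, hle⟩ := v.exists_step (ω := ω) hle₁ (hs₁.le hzR) (fun g hg h => hs₁.le (stab_le hg h)) h1'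
  have h1 := v.one_step hc hs hle₁ ht (hs₁.le hzR) hsq₁ hz1'
  have h2 : Nat.card (E ⊓ R' : Subgroup G) ≤ 2 * Nat.card (E ⊓ R₁ : Subgroup G) := card_le (E := E) hs ht
  have h3 : ¬ E ≤ R' := not_le_of_card (k := 4 * Nat.card (E ⊓ R : Subgroup G)) (by omega) hE
  obtain ⟨R'', s, hs', hss, hle'⟩ := v.exists_step (ω := ω) hle (hs.le (hs₁.le hzR))
    (fun g hg h => hs.le (hs₁.le (stab_le hg h))) h3
  have h4 := v.second_step hc hss hle hs' (hs.sq_one hc hsq₁) h1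
  exact climb hc v.two _ hle' (fun g hg h => hss.le (hs.le (hs₁.le (stab_le hg h)))) le_rfl h4

/-- `P = E`, `z` has value 1 -/
theorem caseB' (v : Env E E z) (hc : IsCoc c) (hz : z • ω = ω) (hz1 : c z ω = 1)
    (hsq : ∀ g ∈ E, g • ω = ω → c g ω * c g ω = 1) (hE : ¬ E ≤ stabilizer G ω) :
    ∀ g ∈ E, V c E ω g = 1 := by
  set R := E ⊓ stabilizer G ω with hR
  have hzR : z ∈ R := stab_le (v.le v.mem) hz
  have h0 : ¬ E ≤ R := fun h => hE (h.trans inf_le_right)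
  obtain ⟨R', t, ht, hs, hle⟩ := v.exists_step (ω := ω) inf_le_left hzR (fun g hg h => stab_le hg h) h0
  have hsqR := sq_stab hsq
  have hz1' : V c R ω z = 1 := by rw [V_stab inf_le_right]; exact hz1
  have h1 := v.one_step hc hs inf_le_left ht hzR hsqR hz1'
  exact climb hc v.two _ hle (fun g hg h => hs.le (stab_le hg h)) le_rfl (fun g hg => h1 g (hle hg) hg)

/-- `P = E`, two steps -/
theorem caseC' (v : Env E E z) (hc : IsCoc c) (hz : z • ω = ω)
    (hsq : ∀ g ∈ E, g • ω = ω → c g ω * c g ω = 1)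
    (hE : 2 * Nat.card (E ⊓ stabilizer G ω : Subgroup G) < Nat.card E) :
    ∀ g ∈ E, V c E ω g = 1 := by
  set R := E ⊓ stabilizer G ω with hR
  have hER : E ⊓ R = R := inf_eq_right.2 inf_le_left
  have hzR : z ∈ R := stab_le (v.le v.mem) hz
  have h0 : ¬ E ≤ R := not_le_of_card (k := 2 * Nat.card (E ⊓ R : Subgroup G)) (by omega) (by rw [hER]; exact hE)
  obtain ⟨R₁, t₁, ht₁, hs₁, hle₁⟩ := v.exists_step (ω := ω) inf_le_left hzR (fun g hg h => stab_le hg h) h0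
  have hsqR := sq_stab hsq
  have hz1' : V c R₁ ω z = 1 := v.V_z hc hs₁ ht₁ hzR hsqR
  have hsq₁ := hs₁.sq_one hc hsqR
  have hc₁ : Nat.card (E ⊓ R₁ : Subgroup G) ≤ 2 * Nat.card (E ⊓ R : Subgroup G) := card_le (E := E) hs₁ ht₁
  rw [hER] at hc₁
  have h1' : ¬ E ≤ R₁ := not_le_of_card hc₁ hE
  obtain ⟨R', t, ht, hs, hle⟩ := v.exists_step (ω := ω) hle₁ (hs₁.le hzR) (fun g hg h => hs₁.le (stab_le hg h)) h1'
  have h1 := v.one_step hc hs hle₁ ht (hs₁.le hzR) hsq₁ hz1'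
  exact climb hc v.two _ hle (fun g hg h => hs.le (hs₁.le (stab_le hg h))) le_rfl (fun g hg => h1 g (hle hg) hg)

end Env

end Cfsg.Agent.H64.TrA
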