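import Cfsg.Agent.H64.TrC
import Cfsg.Agent.H90.Extraspecial

/-!
Transfer into the centraliser of an involution `z` with an extraspecial normal subgroup `E`, `C_G(E) ≤ E`.
-/

set_option autoImplicit false
set_option linter.style.haveILetI false

namespace Cfsg.Agent.H64.TrA

open MulAction
open Cfsg.Agent.H90 (XS)

variable {G A : Type*} [Group G] [CommGroup A]

/-- the setting -/
structure ZE (E : Subgroup G) (z : G) : Prop extends XS E z where
  norm : ∀ h : G, h * z = z * h → ∀ e ∈ E, h⁻¹ * e * h ∈ E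
  cent : ∀ g : G, (∀ q ∈ E, g * q = q * g) → g = 1 ∨ g = z

namespace ZE

variable {E : Subgroup G} {z : G}

theorem conj_eq' (v : ZE E z) {x y : G} (hx : x ∈ E) (hy : y ∈ E) : y⁻¹ * x * y = x ∨ y⁻¹ * x * y = x * z := by
  have := v.toXS.conj_eq hx (inv_mem hy)
  rwa [inv_inv] at this

/-- the local environment -/
theorem env (v : ZE E z) {P : Subgroup G} (hP : IsPGroup 2 P) (hEP : E ≤ P)
    (hPz : ∀ g ∈ P, g * z = z * g) : Env P E z where
  two := hP
  le := hEP
  norm := fun g hg e he => v.norm g (hPz g hg) e he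
  mem := v.mem
  cent := hPz
  zz := v.sq
  sq := fun e he => v.toXS.sqr he
  com := fun x hx y hy => v.conj_eq' hx hy

/-- exclusion: an involution centralising a subgroup of index two of `E` lies in `E` -/
theorem mem_of_index_two [Finite G] (v : ZE E z) {y t : G} {F : Subgroup G} (hFE : F ≤ E) (hzF : z ∈ F) (ht : t ∈ E)
    (htF : t ∉ F) (hcov : ∀ e ∈ E, e ∈ F ∨ t⁻¹ * e ∈ F) (hyF : ∀ a ∈ F, y * a = a * y)
    (hF : ∀ a ∈ E, y * a = a * y → a ∈ F)
    (hyy : y * y = 1) (hy1 : y ≠ 1) (hyz : y ≠ z) : y ∈ E := by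
  have hyz' : y * z = z * y := hyF z hzF
  have hyinv : y⁻¹ = y := inv_eq_of_mul_eq_one_left hyy
  set d := t⁻¹ * (y⁻¹ * t * y) with hd
  have hty : y⁻¹ * t * y = t * d := by rw [hd]; group
  have hEy : y⁻¹ * t * y ∈ E := v.norm y hyz' t ht
  have hdE : d ∈ E := mul_mem (inv_mem ht) hEy
  have hdF : d ∈ F := by
    rcases hcov _ hEy with h | h
    · exfalso
      have h1 := hyF _ h
      -- y * (y⁻¹ t y) = (y⁻¹ t y) * y
      have h2 : t = y⁻¹ * t * y := by
        have h3 : y * (y⁻¹ * t * y) = t * y := by group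
        rw [h3] at h1
        exact mul_right_cancel h1
      exact htF (h2 ▸ h)
    · exact h
  have hyd := hyF d hdF
  have hdd : d * d = 1 := by
    have h1 : y⁻¹ * (y⁻¹ * t * y) * y = t := by
      calc y⁻¹ * (y⁻¹ * t * y) * y = (y * y)⁻¹ * t * (y * y) := by group
        _ = t := by rw [hyy]; group
    rw [hty] at h1
    have h2 : y⁻¹ * (t * d) * y = (y⁻¹ * t * y) * (y⁻¹ * d * y) := by group
    have h3 : y⁻¹ * d * y = d := by rw [mul_assoc, ← hyd]; group
    rw [h2, h3, hty] at h1
    have h4 : t * (d * d) = t * 1 := by rw [← mul_assoc, h1, mul_one]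
    exact mul_left_cancel h4
  have hd1 : d ≠ 1 := by
    intro h1
    rw [h1, mul_one] at hty
    rcases v.cent y (by
      intro q hq
      have hyt : y * t = t * y := by
        have : y * (y⁻¹ * t * y) = t * y := by group
        rw [hty] at this; exact this
      rcases hcov q hq with h | h
      · exact hyF q h
      · have h2 : q = t * (t⁻¹ * q) := by group
        rw [h2, ← mul_assoc, hyt, mul_assoc, hyF _ h, ← mul_assoc]) with h | h
    · exact hy1 h
    · exact hyz h
  have htt : t * d * (t * d) = t * t := by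
    have h1 : y⁻¹ * (t * t) * y = t * t := by
      rcases v.toXS.sqr ht with h | h <;> rw [h]
      · group
      · rw [mul_assoc, ← hyz']; group
    have h2 : y⁻¹ * (t * t) * y = (y⁻¹ * t * y) * (y⁻¹ * t * y) := by group
    rw [h2, hty] at h1; exact h1
  have hdt : d * t = t * d := by
    have h1 : t * (d * t * d) = t * t := by rw [← htt]; group
    have h2 := mul_left_cancel h1
    calc d * t = (d * t * d) * d⁻¹ := by group
      _ = t * d := by rw [h2, inv_eq_of_mul_eq_one_left hdd]
  have hda : ∀ a ∈ F, d * a = a * d := by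
    intro a ha
    have haE := hFE ha
    have h0 : y⁻¹ * (t⁻¹ * a * t) * y = t⁻¹ * a * t := by
      rcases v.conj_eq' haE ht with h | h <;> rw [h]
      · rw [mul_assoc, ← hyF a ha]; group
      · have h3 : y * (a * z) = (a * z) * y := hyF _ (mul_mem ha hzF)
        rw [mul_assoc, ← h3]; group
    have h1 : y⁻¹ * (t⁻¹ * a * t) * y = (y⁻¹ * t * y)⁻¹ * (y⁻¹ * a * y) * (y⁻¹ * t * y) := by group
    have h2 : y⁻¹ * a * y = a := by rw [mul_assoc, ← hyF a ha]; group
    rw [h1, h2, hty] at h0
    -- (t d)⁻¹ a (t d) = t⁻¹ a t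
    have h3 : (t * d)⁻¹ * a * (t * d) = d⁻¹ * (t⁻¹ * a * t) * d := by group
    rw [h3] at h0
    have h4 : (t⁻¹ * a * t) * d = d * (t⁻¹ * a * t) := by
      calc (t⁻¹ * a * t) * d = d * (d⁻¹ * (t⁻¹ * a * t) * d) := by group
        _ = d * (t⁻¹ * a * t) := by rw [h0]
    rcases v.conj_eq' haE ht with h | h
    · rw [h] at h4; exact h4.symm
    · rw [h] at h4
      have hzd : z * d = d * z := (v.central d hdE).symm
      have h5 : a * z * d = a * d * z := by rw [mul_assoc, hzd, ← mul_assoc]
      have h6 : a * d * z = d * a * z := by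
        calc a * d * z = a * z * d := h5.symm
          _ = d * (a * z) := h4
          _ = d * a * z := (mul_assoc _ _ _).symm
      exact (mul_right_cancel h6).symm
  have hdz : d = z := by
    rcases v.nondeg d hdE (by
      intro q hq
      rcases hcov q hq with h | h
      · exact hda q h
      · have h2 : q = t * (t⁻¹ * q) := by group
        rw [h2, ← mul_assoc, hdt, mul_assoc, hda _ h, ← mul_assoc]) with h | h
    · exact absurd h hd1
    · exact h
  -- an element e of C_E(F) outside <z>
  have hcard := v.toXS.dual F hFE hzF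
  have hFcard : Nat.card F < Nat.card E := by
    refine lt_of_le_of_ne (Subgroup.card_le_of_le hFE) ?_
    intro h
    have := Subgroup.eq_of_le_of_card_ge hFE h.ge
    exact htF (this ▸ ht)
  obtain ⟨e, he, he1, hez⟩ : ∃ e ∈ E ⊓ Subgroup.centralizer (F : Set G), e ≠ 1 ∧ e ≠ z := by
    by_contra hcon
    push Not at hcon
    have h1 : Nat.card ↥(E ⊓ Subgroup.centralizer (F : Set G)) ≤ 2 := by
      have h2 : (E ⊓ Subgroup.centralizer (F : Set G)) ≤ Subgroup.zpowers z := by
        intro x hx
        by_cases hx1 : x = 1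
        · rw [hx1]; exact one_mem _
        · rw [hcon x hx hx1]; exact Subgroup.mem_zpowers z
      refine (Subgroup.card_le_of_le h2).trans ?_
      rw [Nat.card_zpowers, v.toXS.orderOf_z]
    have h3 := Nat.mul_le_mul_left (Nat.card F) h1
    rw [hcard] at h3
    omega
  have heE := (Subgroup.mem_inf.1 he).1
  have heF : ∀ a ∈ F, e * a = a * e := by
    intro a ha
    exact ((Subgroup.mem_centralizer_iff.1 (Subgroup.mem_inf.1 he).2) a ha).symm
  have hte : e⁻¹ * t * e = t * z := by
    rcases v.conj_eq' ht heE with h | h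
    · exfalso
      have het : e * t = t * e := by
        have : e * (e⁻¹ * t * e) = t * e := by group
        rw [h] at this; exact this
      rcases v.nondeg e heE (by
        intro q hq
        rcases hcov q hq with h | h
        · exact heF q h
        · have h2 : q = t * (t⁻¹ * q) := by group
          rw [h2, ← mul_assoc, het, mul_assoc, heF _ h, ← mul_assoc]) with h | h
      · exact he1 h
      · exact hez h
    · exact h
  have hte' : e * t * e⁻¹ = t * z := by
    have h1 : t = e * (t * z) * e⁻¹ := by rw [← hte]; group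
    have hze : z * e⁻¹ = e⁻¹ * z := (v.central _ (inv_mem heE)).symm
    have h2 : e * (t * z) * e⁻¹ = e * t * e⁻¹ * z := by
      rw [mul_assoc e (t * z), mul_assoc t z, hze]; group
    rw [h2] at h1
    calc e * t * e⁻¹ = e * t * e⁻¹ * (z * z) := by rw [v.sq, mul_one]
      _ = (e * t * e⁻¹ * z) * z := by group
      _ = t * z := by rw [← h1]
  rw [hdz] at hty
  have hk : y * e⁻¹ = 1 ∨ y * e⁻¹ = z := by
    apply v.cent
    have hkF : ∀ a ∈ F, y * e⁻¹ * a = a * (y * e⁻¹) := by
      intro a ha
      have h1 : e⁻¹ * a = a * e⁻¹ := by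
        have := heF a ha
        calc e⁻¹ * a = e⁻¹ * (a * e) * e⁻¹ := by group
          _ = a * e⁻¹ := by rw [← this]; group
      rw [mul_assoc, h1, ← mul_assoc, hyF a ha, mul_assoc]
    have hkt : y * e⁻¹ * t = t * (y * e⁻¹) := by
      have h1 : (y * e⁻¹)⁻¹ * t * (y * e⁻¹) = t := by
        calc (y * e⁻¹)⁻¹ * t * (y * e⁻¹) = e * (y⁻¹ * t * y) * e⁻¹ := by group
          _ = e * (t * z) * e⁻¹ := by rw [hty]
          _ = e * t * (z * e⁻¹) := by group
          _ = e * t * (e⁻¹ * z) := by rw [(v.central _ (inv_mem heE)).symm]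
          _ = (e * t * e⁻¹) * z := by group
          _ = t := by rw [hte', mul_assoc, v.sq, mul_one]
      calc y * e⁻¹ * t = (y * e⁻¹) * ((y * e⁻¹)⁻¹ * t * (y * e⁻¹)) := by rw [h1]
        _ = t * (y * e⁻¹) := by group
    intro q hq
    rcases hcov q hq with h | h
    · exact hkF q h
    · have h2 : q = t * (t⁻¹ * q) := by group
      rw [h2, ← mul_assoc, hkt, mul_assoc, hkF _ h, ← mul_assoc]
  rcases hk with h | h
  · have : y = e := by rw [mul_inv_eq_one] at h; exact h
    rw [this]; exact heE
  · have : y = z * e := by rw [← h]; group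
    rw [this]; exact mul_mem v.mem heE

/-- cardinality of an abelian subgroup -/
theorem card_abelian [Finite G] (v : ZE E z) {F : Subgroup G} (hFE : F ≤ E) (hzF : z ∈ F)
    (hab : ∀ x ∈ F, ∀ y ∈ F, x * y = y * x) : Nat.card F * Nat.card F ≤ 2 * Nat.card E := by
  rw [← v.toXS.dual F hFE hzF]
  apply Nat.mul_le_mul_left
  apply Subgroup.card_le_of_le
  refine le_inf hFE ?_
  intro x hx
  rw [Subgroup.mem_centralizer_iff]
  intro y hy
  exact hab y hy x hx

end ZE

end Cfsg.Agent.H64.TrA
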