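import Cfsg.Agent.H64.TrD
import Cfsg.Prelude.Def_CaseTheorems

/-!
Transfer into the centraliser of an involution with a large extraspecial normal subgroup: points of `G ⧸ C(z)`.
-/

set_option autoImplicit false
set_option linter.style.haveILetI false

namespace Cfsg.Agent.H64.TrA

open MulAction
open Cfsg.Agent.H90 (XS)

variable {G A : Type*} [Group G] [CommGroup A]

/-- from the hypotheses of the rows -/
theorem ze_of_core {z : G} (hz : orderOf z = 2)
    {E : Subgroup G} (hE : E = (Cfsg.pCore 2 ↥(Subgroup.centralizer ({z} : Set G))).map (Subgroup.centralizer ({z} : Set G)).subtype)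
    (hext : Cfsg.IsExtraspecial 2 ↥E) (hcent : Subgroup.centralizer (E : Set G) ≤ E) : ZE E z := by
  have hEH : E ≤ Subgroup.centralizer ({z} : Set G) := by
    rw [hE]; exact Subgroup.map_subtype_le _
  have hcomm : ∀ e ∈ E, e * z = z * e := fun e he => Subgroup.mem_centralizer_singleton_iff.1 (hEH he)
  have hzE : z ∈ E := hcent (by
    rw [Subgroup.mem_centralizer_iff]
    intro e he
    exact hcomm e he)
  obtain ⟨z', h', -⟩ := XS.of_isExtraspecial hext
  have hz1 : z ≠ 1 := by
    rintro rfl
    rw [orderOf_one] at hz; omega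
  have hzz' : z = z' := by
    rcases h'.nondeg z hzE (fun y hy => (hcomm y hy).symm) with h | h
    · exact absurd h hz1
    · exact h
  subst hzz'
  refine ⟨h', ?_, ?_⟩
  · intro h hh e he
    rw [hE] at he ⊢
    obtain ⟨w, hw, rfl⟩ := he
    have hn : (Cfsg.pCore 2 ↥(Subgroup.centralizer ({z} : Set G))).Normal := inferInstance
    have hhH : h ∈ Subgroup.centralizer ({z} : Set G) := Subgroup.mem_centralizer_singleton_iff.2 hh
    have h2 := hn.conj_mem w hw (⟨h, hhH⟩ : Subgroup.centralizer ({z} : Set G))⁻¹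
    rw [inv_inv] at h2
    exact ⟨_, h2, rfl⟩
  · intro g hg
    have hgE : g ∈ E := hcent (by
      rw [Subgroup.mem_centralizer_iff]
      intro e he
      exact (hg e he).symm)
    exact h'.nondeg g hgE hg

section pts

variable {z : G} {E : Subgroup G}

/-- the conjugate of `z` attached to a point -/
noncomputable def yq (q : G ⧸ Subgroup.centralizer ({z} : Set G)) : G := Quotient.out q * z * (Quotient.out q)⁻¹

theorem smul_eq_iff (g : G) (q : G ⧸ Subgroup.centralizer ({z} : Set G)) :
    g • q = q ↔ g * yq q = yq q * g := by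
  have h2 : ((Quotient.out q : G) : G ⧸ Subgroup.centralizer ({z} : Set G)) = q := QuotientGroup.out_eq' _
  have h3 : ((g * Quotient.out q : G) : G ⧸ Subgroup.centralizer ({z} : Set G)) = g • q := by
    conv_rhs => rw [← h2]
    rfl
  rw [← h3]
  conv_lhs => rw [← h2]
  rw [eq_comm, QuotientGroup.eq, QuotientGroup.out_eq' q, Subgroup.mem_centralizer_singleton_iff]
  unfold yq
  constructor
  · intro h
    calc g * (Quotient.out q * z * (Quotient.out q)⁻¹)
        = Quotient.out q * ((Quotient.out q)⁻¹ * (g * Quotient.out q) * z) * (Quotient.out q)⁻¹ := by group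
      _ = _ := by rw [h]; group
  · intro h
    calc (Quotient.out q)⁻¹ * (g * Quotient.out q) * z
        = (Quotient.out q)⁻¹ * (g * (Quotient.out q * z * (Quotient.out q)⁻¹)) * Quotient.out q := by group
      _ = _ := by rw [h]; group

theorem yq_ne {q : G ⧸ Subgroup.centralizer ({z} : Set G)} (hq : q ≠ ((1 : G) : G ⧸ Subgroup.centralizer ({z} : Set G))) :
    yq q ≠ z := by
  intro h
  apply hq
  have h2 : ((Quotient.out q : G) : G ⧸ Subgroup.centralizer ({z} : Set G)) = q := QuotientGroup.out_eq' _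
  rw [← h2, eq_comm, QuotientGroup.eq, inv_one, one_mul, Subgroup.mem_centralizer_singleton_iff]
  unfold yq at h
  rw [mul_inv_eq_iff_eq_mul] at h
  exact h

theorem yq_ne_one (hz : z ≠ 1) (q : G ⧸ Subgroup.centralizer ({z} : Set G)) : yq q ≠ 1 := by
  intro h
  apply hz
  unfold yq at h
  rw [mul_inv_eq_one, mul_eq_left] at h
  exact h

theorem yq_sq (hz : z * z = 1) (q : G ⧸ Subgroup.centralizer ({z} : Set G)) : yq q * yq q = 1 := by
  unfold yq
  calc _ = Quotient.out q * (z * z) * (Quotient.out q)⁻¹ := by group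
    _ = 1 := by rw [hz]; group

/-- `E` fixes no point but the first -/
theorem ZE.not_le (v : ZE E z) {q : G ⧸ Subgroup.centralizer ({z} : Set G)}
    (hq : q ≠ ((1 : G) : G ⧸ Subgroup.centralizer ({z} : Set G))) : ¬ E ≤ stabilizer G q := by
  intro h
  rcases v.cent (yq q) (fun e he => ((smul_eq_iff e q).1 (mem_stabilizer_iff.1 (h he))).symm) with h1 | h1
  · exact yq_ne_one v.ne_one q h1
  · exact yq_ne hq h1

/-- if the value of `z` at a fixed point is nontrivial then `E_q` is abelian -/
theorem ZE.abelian (v : ZE E z) (χ : Subgroup.centralizer ({z} : Set G) →* A)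
    {q : G ⧸ Subgroup.centralizer ({z} : Set G)} (hzq : z • q = q) (h1 : coc χ z q ≠ 1) :
    ∀ x ∈ E ⊓ stabilizer G q, ∀ y ∈ E ⊓ stabilizer G q, x * y = y * x := by
  intro x hx y hy
  obtain ⟨hx, hxq⟩ := Subgroup.mem_inf.1 hx
  obtain ⟨hy, hyq⟩ := Subgroup.mem_inf.1 hy
  rw [mem_stabilizer_iff] at hxq hyq
  rcases v.comm x hx y hy with h | h
  · exact h
  · exfalso
    apply h1
    have hc := isCoc_coc χ
    have e1 : coc χ (x * y) q = coc χ x q * coc χ y q := by rw [hc, hyq]
    have e2 : coc χ (z * (y * x)) q = coc χ z q * (coc χ y q * coc χ x q) := by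
      rw [hc z (y * x) q, mul_smul, hxq, hyq, hc y x q, hxq]
    rw [h, e2, mul_comm (coc χ y q)] at e1
    exact mul_eq_right.1 e1

end pts

end Cfsg.Agent.H64.TrA
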