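import Cfsg.Agent.H64.TrE

/-!
Transfer into the centraliser of an involution with a large extraspecial normal subgroup: index two subgroups.
-/

set_option autoImplicit false
set_option linter.style.haveILetI false

namespace Cfsg.Agent.H64.TrA

open MulAction
open Cfsg.Agent.H90 (XS)

variable {G A : Type*} [Group G] [CommGroup A]

/-- the sign character of a subgroup of index two -/
noncomputable def sgn {H : Type*} [Group H] (K : Subgroup H) (hK : K.index = 2) : H →* ℤˣ := by
  classical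
  exact
  { toFun := fun h => if h ∈ K then 1 else -1
    map_one' := if_pos (one_mem K)
    map_mul' := by
      intro a b
      have h := Subgroup.mul_mem_iff_of_index_two hK (a := a) (b := b)
      by_cases ha : a ∈ K <;> by_cases hb : b ∈ K <;> simp [ha, hb] at h ⊢ <;> exact h }

theorem sgn_eq_one {H : Type*} [Group H] {K : Subgroup H} (hK : K.index = 2) {x : H} (h : sgn K hK x = 1) : x ∈ K := by
  classical
  by_contra hx
  have h1 : sgn K hK x = -1 := if_neg hx
  rw [h1] at h
  exact absurd h (by decide)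

variable {z : G} {E : Subgroup G} [Finite G]

theorem ZE.le_H (v : ZE E z) : E ≤ Subgroup.centralizer ({z} : Set G) :=
  fun e he => Subgroup.mem_centralizer_singleton_iff.2 (v.central e he)

theorem ZE.card_stab_abelian (v : ZE E z) (χ : Subgroup.centralizer ({z} : Set G) →* A)
    {q : G ⧸ Subgroup.centralizer ({z} : Set G)} (hzq : z • q = q) (h1 : coc χ z q ≠ 1) {n : ℕ}
    (hcard : Nat.card E = 2 ^ (2 * n + 1)) : Nat.card (E ⊓ stabilizer G q : Subgroup G) ≤ 2 ^ (n + 1) := by
  have h2 := v.card_abelian (F := E ⊓ stabilizer G q) inf_le_left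
    (Subgroup.mem_inf.2 ⟨v.mem, mem_stabilizer_iff.2 hzq⟩) (v.abelian χ hzq h1)
  rw [hcard] at h2
  have h3 : 2 * 2 ^ (2 * n + 1) = 2 ^ (n + 1) * 2 ^ (n + 1) := by ring
  rw [h3] at h2
  exact Nat.mul_self_le_mul_self_iff.1 h2

/-- first row -/
theorem ZE.row_one (v : ZE E z) (hres : Cfsg.pResidual 2 G = ⊤) {n : ℕ} (hn : 2 ≤ n)
    (hcard : Nat.card E = 2 ^ (2 * n + 1)) (χ : Subgroup.centralizer ({z} : Set G) →* A)
    (hA : ∀ a : A, a * a = 1) {x : G} (hx : x ∈ E) : χ ⟨x, v.le_H hx⟩ = 1 := by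
  have hc := isCoc_coc χ
  have env : Env E E z := v.env v.isPGroup le_rfl v.central
  refine local_criterion χ hres (fun a => ⟨1, by rw [pow_one, pow_two]; exact hA a⟩) v.le_H ?_ hx
  intro q hq
  have hsq : ∀ g ∈ E, g • q = q → coc χ g q * coc χ g q = 1 := fun g _ _ => hA _
  by_cases hzq : z • q = q
  · by_cases h1 : coc χ z q = 1
    · exact env.caseB' hc hzq h1 hsq (v.not_le hq)
    · apply env.caseC' hc hzq hsq
      have h2 := v.card_stab_abelian χ hzq h1 hcard
      rw [hcard]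
      calc 2 * Nat.card (E ⊓ stabilizer G q : Subgroup G) ≤ 2 * 2 ^ (n + 1) := Nat.mul_le_mul_left _ h2
        _ = 2 ^ (n + 2) := by ring
        _ < 2 ^ (2 * n + 1) := Nat.pow_lt_pow_right (by norm_num) (by omega)
  · exact env.caseA hc hzq hsq

/-- a subgroup of `E` of index at most two: cosets -/
theorem cover_of_card {F E' : Subgroup G} (hFE : F ≤ E') (h2 : Nat.card E' ≤ 2 * Nat.card F) {t : G} (ht : t ∈ E')
    (htF : t ∉ F) : ∀ e ∈ E', e ∈ F ∨ t⁻¹ * e ∈ F := by
  intro e he
  have h3 : (F.subgroupOf E').index ∣ 2 ∨ (F.subgroupOf E').index ≤ 2 := by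
    right
    have h4 := Subgroup.card_mul_index (F.subgroupOf E')
    have h5 : Nat.card (F.subgroupOf E') = Nat.card F := Nat.card_congr (Subgroup.subgroupOfEquivOfLe hFE).toEquiv
    rw [h5] at h4
    have hpos : 0 < Nat.card F := Nat.card_pos
    rw [← h4, mul_comm] at h2
    exact Nat.le_of_mul_le_mul_right h2 hpos
  have h4 : (F.subgroupOf E').index = 2 := by
    have h5 : (F.subgroupOf E').index ≤ 2 := by
      rcases h3 with h | h
      · exact Nat.le_of_dvd (by norm_num) h
      · exact h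
    have h6 : (F.subgroupOf E').index ≠ 0 := Subgroup.index_ne_zero_of_finite
    have h7 : (F.subgroupOf E').index ≠ 1 := by
      intro h7
      rw [Subgroup.index_eq_one] at h7
      apply htF
      have : (⟨t, ht⟩ : E') ∈ F.subgroupOf E' := by rw [h7]; exact Subgroup.mem_top _
      exact Subgroup.mem_subgroupOf.1 this
    omega
  by_cases heF : e ∈ F
  · exact Or.inl heF
  · right
    have h5 := Subgroup.mul_mem_iff_of_index_two h4 (a := (⟨t, ht⟩ : E')⁻¹) (b := ⟨e, he⟩)
    rw [inv_mem_iff, Subgroup.mem_subgroupOf, Subgroup.mem_subgroupOf, Subgroup.mem_subgroupOf] at h5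
    have h6 : ((⟨t, ht⟩ : E')⁻¹ * ⟨e, he⟩ : E').1 ∈ F ↔ (t ∈ F ↔ e ∈ F) := h5
    exact h6.2 ⟨fun h => absurd h htF, fun h => absurd h heF⟩

/-- second row -/
theorem ZE.row_two (v : ZE E z) (hres : Cfsg.pResidual 2 G = ⊤) {n : ℕ} (hn : 3 ≤ n)
    (hcard : Nat.card E = 2 ^ (2 * n + 1)) (χ : Subgroup.centralizer ({z} : Set G) →* A)
    (hA : ∀ a : A, a * a = 1) (hfus : ∀ g : G, g * z * g⁻¹ ∈ E → g * z * g⁻¹ = z)
    {P : Subgroup G} (hP : IsPGroup 2 P) (hPH : P ≤ Subgroup.centralizer ({z} : Set G)) (hEP : E ≤ P)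
    {x : G} (hx : x ∈ P) : χ ⟨x, hPH hx⟩ = 1 := by
  have hc := isCoc_coc χ
  have env : Env P E z := v.env hP hEP (fun g hg => Subgroup.mem_centralizer_singleton_iff.1 (hPH hg))
  refine local_criterion χ hres (fun a => ⟨1, by rw [pow_one, pow_two]; exact hA a⟩) hPH ?_ hx
  intro q hq
  have hsq : ∀ g ∈ P, g • q = q → coc χ g q * coc χ g q = 1 := fun g _ _ => hA _
  by_cases hzq : z • q = q
  · have hinf : (E ⊓ (P ⊓ stabilizer G q) : Subgroup G) = E ⊓ stabilizer G q := by
      rw [← inf_assoc, inf_eq_left.2 hEP]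
    by_cases h1 : coc χ z q = 1
    · apply env.caseB hc hzq h1 hsq
      rw [hinf]
      by_contra hcon
      rw [not_lt] at hcon
      obtain ⟨t, ht, htq⟩ := SetLike.not_le_iff_exists.1 (v.not_le hq)
      have htF : t ∉ E ⊓ stabilizer G q := fun h => htq (Subgroup.mem_inf.1 h).2
      have h2 := v.mem_of_index_two (y := yq q) (t := t) (F := E ⊓ stabilizer G q) inf_le_left
        (Subgroup.mem_inf.2 ⟨v.mem, mem_stabilizer_iff.2 hzq⟩) ht htF
        (cover_of_card inf_le_left hcon ht htF)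
        (fun a ha => ((smul_eq_iff a q).1 (mem_stabilizer_iff.1 (Subgroup.mem_inf.1 ha).2)).symm)
        (fun a ha h => Subgroup.mem_inf.2 ⟨ha, mem_stabilizer_iff.2 ((smul_eq_iff a q).2 h.symm)⟩)
        (yq_sq v.sq q) (yq_ne_one v.ne_one q) (yq_ne hq)
      exact yq_ne hq (hfus _ h2)
    · apply env.caseC hc hzq hsq
      have h2 := v.card_stab_abelian χ hzq h1 hcard
      rw [hinf, hcard]
      calc 4 * Nat.card (E ⊓ stabilizer G q : Subgroup G) ≤ 4 * 2 ^ (n + 1) := Nat.mul_le_mul_left _ h2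
        _ = 2 ^ (n + 3) := by ring
        _ < 2 ^ (2 * n + 1) := Nat.pow_lt_pow_right (by norm_num) (by omega)
  · exact env.caseA hc hzq hsq

end Cfsg.Agent.H64.TrA
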