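import Cfsg.Agent.H64.TrF

/-!
Transfer into the centraliser of an involution with a large extraspecial normal subgroup: characters of order four.
-/

set_option autoImplicit false
set_option linter.style.haveILetI false

namespace Cfsg.Agent.H64.TrA

open MulAction
open Cfsg.Agent.H90 (XS)

variable {G A : Type*} [Group G] [CommGroup A]

theorem coc_mul_stab {H : Subgroup G} (χ : H →* A) {g h : G} {q : G ⧸ H} (hh : h • q = q) :
    coc χ (g * h) q = coc χ g q * coc χ h q := by
  rw [isCoc_coc χ g h q, hh]

/-- the square of a character -/
noncomputable def sqc {H : Type*} [Group H] (χ : H →* A) : H →* A := (powMonoidHom 2).comp χ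

theorem coc_sqc {H : Subgroup G} (χ : H →* A) (g : G) (q : G ⧸ H) : coc (sqc χ) g q = coc χ g q * coc χ g q := by
  rw [← pow_two]; rfl

theorem coc_sqc_stab {H : Subgroup G} (χ : H →* A) {g : G} {q : G ⧸ H} (hg : g • q = q) :
    coc (sqc χ) g q = coc χ (g * g) q := by
  rw [coc_sqc, coc_mul_stab χ hg]

variable {z : G} {E : Subgroup G} [Finite G]

/-- third row -/
theorem ZE.row_three (v : ZE E z) (hres : Cfsg.pResidual 2 G = ⊤) (lam : Subgroup.centralizer ({z} : Set G) →* A)
    (hA : ∀ a : A, a ^ 4 = 1)
    {P : Subgroup G} (hP : IsPGroup 2 P) (hPH : P ≤ Subgroup.centralizer ({z} : Set G)) (hEP : E ≤ P)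
    {x : G} (hx : x ∈ P) : lam ⟨x, hPH hx⟩ ^ 2 = 1 := by
  have hc := isCoc_coc (sqc lam)
  have hcl := isCoc_coc lam
  have env : Env P E z := v.env hP hEP (fun g hg => Subgroup.mem_centralizer_singleton_iff.1 (hPH hg))
  refine local_criterion (sqc lam) hres (fun a => ⟨2, hA a⟩) hPH ?_ hx
  intro q hq
  have hsq : ∀ g ∈ P, g • q = q → coc (sqc lam) g q * coc (sqc lam) g q = 1 := by
    intro g _ _
    rw [coc_sqc, ← pow_two, ← pow_two, ← pow_mul]
    exact hA _
  by_cases hzq : z • q = q
  · have hinf : (E ⊓ (P ⊓ stabilizer G q) : Subgroup G) = E ⊓ stabilizer G q := by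
      rw [← inf_assoc, inf_eq_left.2 hEP]
    have hz1 : coc (sqc lam) z q = 1 := by
      rw [coc_sqc_stab lam hzq, v.sq]; exact hcl.one q
    by_cases hcd : 2 * Nat.card (E ⊓ (P ⊓ stabilizer G q) : Subgroup G) < Nat.card E
    · exact env.caseB hc hzq hz1 hsq hcd
    · rw [not_lt, hinf] at hcd
      have hzR : z ∈ P ⊓ stabilizer G q := Env.stab_le (env.le env.mem) hzq
      obtain ⟨R', t, ht, hs, hle⟩ := env.exists_step (ω := q) inf_le_left hzR
        (fun g hg h => Env.stab_le hg h) (fun h => v.not_le hq (h.trans inf_le_right))
      have htF : t ∉ E ⊓ stabilizer G q := fun h =>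
        hs.not_mem (Subgroup.mem_inf.2 ⟨hEP ht, (Subgroup.mem_inf.1 h).2⟩)
      have hcov := cover_of_card (F := E ⊓ stabilizer G q) inf_le_left hcd ht htF
      have hsqR := Env.sq_stab (c := coc (sqc lam)) hsq
      have hyF : ∀ a ∈ E ⊓ stabilizer G q, yq q * a = a * yq q :=
        fun a ha => ((smul_eq_iff a q).1 (mem_stabilizer_iff.1 (Subgroup.mem_inf.1 ha).2)).symm
      have hzF : z ∈ E ⊓ stabilizer G q := Subgroup.mem_inf.2 ⟨v.mem, mem_stabilizer_iff.2 hzq⟩
      have key : ∀ a ∈ E, a ∈ P ⊓ stabilizer G q → V (coc (sqc lam)) (P ⊓ stabilizer G q) q a = 1 := by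
        intro a ha haR
        have haq : a • q = q := mem_stabilizer_iff.1 (Subgroup.mem_inf.1 haR).2
        rw [V_stab inf_le_right, coc_sqc_stab lam haq]
        rcases v.toXS.sqr ha with h | h
        · rw [h]; exact hcl.one q
        · rw [h]
          by_contra hl
          have hab := v.abelian lam hzq hl
          have hyE := v.mem_of_index_two (y := yq q) (t := t) (F := E ⊓ stabilizer G q) inf_le_left hzF ht htF hcov hyF
            (fun a ha h => Subgroup.mem_inf.2 ⟨ha, mem_stabilizer_iff.2 ((smul_eq_iff a q).2 h.symm)⟩)
            (yq_sq v.sq q) (yq_ne_one v.ne_one q) (yq_ne hq)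
          have haF : a ∈ E ⊓ stabilizer G q := Subgroup.mem_inf.2 ⟨ha, (Subgroup.mem_inf.1 haR).2⟩
          have haz : a ≠ 1 ∧ a ≠ z := by
            constructor
            · rintro rfl
              rw [mul_one] at h; exact v.ne_one h.symm
            · rintro rfl
              rw [v.sq] at h; exact v.ne_one h.symm
          have hyz : yq q ≠ 1 ∧ yq q ≠ z := ⟨yq_ne_one v.ne_one q, yq_ne hq⟩
          have hcent : ∀ b ∈ E, (∀ f ∈ E ⊓ stabilizer G q, b * f = f * b) → b * t = t * b → b = 1 ∨ b = z := by
            intro b hb hbF hbt
            apply v.nondeg b hb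
            intro e he
            rcases hcov e he with h1 | h1
            · exact hbF e h1
            · have h2 : e = t * (t⁻¹ * e) := by group
              rw [h2, ← mul_assoc, hbt, mul_assoc, hbF _ h1, ← mul_assoc]
          have hta : a * t = z * (t * a) := by
            rcases v.comm a ha t ht with h1 | h1
            · rcases hcent a ha (fun f hf => hab a haF f hf) h1 with h2 | h2
              · exact absurd h2 haz.1
              · exact absurd h2 haz.2
            · exact h1
          have hty : yq q * t = z * (t * yq q) := by
            rcases v.comm (yq q) hyE t ht with h1 | h1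
            · rcases hcent (yq q) hyE hyF h1 with h2 | h2
              · exact absurd h2 hyz.1
              · exact absurd h2 hyz.2
            · exact h1
          have h3 : a * yq q = 1 ∨ a * yq q = z := by
            apply hcent _ (mul_mem ha hyE)
            · intro f hf
              rw [mul_assoc, hyF f hf, ← mul_assoc, hab a haF f hf, mul_assoc]
            · calc a * yq q * t = a * (yq q * t) := mul_assoc _ _ _
                _ = a * (z * (t * yq q)) := by rw [hty]
                _ = (a * z) * t * yq q := by group
                _ = z * (a * t) * yq q := by rw [v.central a ha]; group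
                _ = (z * z) * t * (a * yq q) := by rw [hta]; group
                _ = t * (a * yq q) := by rw [v.sq, one_mul]
          have h4 : a * a = 1 := by
            have hyy := yq_sq v.sq q
            rcases h3 with h3 | h3
            · have h5 : a = yq q := by
                calc a = a * (yq q * yq q) := by rw [hyy, mul_one]
                  _ = (a * yq q) * yq q := by group
                  _ = yq q := by rw [h3, one_mul]
              rw [h5]; exact hyy
            · have h5 : a = z * yq q := by
                calc a = a * (yq q * yq q) := by rw [hyy, mul_one]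
                  _ = (a * yq q) * yq q := by group
                  _ = z * yq q := by rw [h3]
              rw [h5]
              calc z * yq q * (z * yq q) = z * (yq q * z) * yq q := by group
                _ = (z * z) * (yq q * yq q) := by rw [v.central _ hyE]; group
                _ = 1 := by rw [v.sq, hyy, mul_one]
          rw [h] at h4
          exact v.ne_one h4
      have h1 : ∀ g ∈ R', V (coc (sqc lam)) R' q g = 1 := env.second_step hc hs inf_le_left ht hsqR key
      exact climb hc env.two _ hle (fun g hg h => hs.le (Env.stab_le hg h)) le_rfl h1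
  · exact env.caseA hc hzq hsq

end Cfsg.Agent.H64.TrA
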