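import Cfsg.Agent.H64.TrG
import Cfsg.Agent.Solv.Core

/-!
Transfer into the centraliser of an involution with a large extraspecial normal subgroup: the rows.
-/

set_option autoImplicit false
set_option linter.style.haveILetI false

namespace Cfsg.Agent.H64.TrA

open MulAction
open Cfsg.Agent.H90 (XS)

variable {G A : Type*} [Group G] [CommGroup A]

/-- a 2-element of the centraliser lies in a 2-subgroup containing `E` -/
theorem exists_two_group [Finite G] {z : G}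
    {E : Subgroup G} (hE : E = (Cfsg.pCore 2 ↥(Subgroup.centralizer ({z} : Set G))).map (Subgroup.centralizer ({z} : Set G)).subtype)
    (P : Sylow 2 ↥(Subgroup.centralizer ({z} : Set G))) :
    IsPGroup 2 ((P : Subgroup ↥(Subgroup.centralizer ({z} : Set G))).map (Subgroup.centralizer ({z} : Set G)).subtype) ∧
    (P : Subgroup ↥(Subgroup.centralizer ({z} : Set G))).map (Subgroup.centralizer ({z} : Set G)).subtype ≤ Subgroup.centralizer ({z} : Set G) ∧
    E ≤ (P : Subgroup ↥(Subgroup.centralizer ({z} : Set G))).map (Subgroup.centralizer ({z} : Set G)).subtype := by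
  haveI : Fact (Nat.Prime 2) := ⟨Nat.prime_two⟩
  refine ⟨P.isPGroup'.map _, Subgroup.map_subtype_le _, ?_⟩
  rw [hE]
  exact Subgroup.map_mono (Cfsg.Agent.Solv.pCore_le_sylow P)

/-- replacing an element by its 2-part -/
theorem exists_two_part {M : Type*} [Group M] [Finite M] (r : M) (k : ℕ) :
    ∃ m : ℕ, (∃ j : ℕ, (r ^ m) ^ (2 ^ j) = 1) ∧ ∃ l : ℕ, m = 1 + 2 ^ k * l := by
  have hr : orderOf r ≠ 0 := (orderOf_pos r).ne'
  obtain ⟨a, m, hm, hrm⟩ := Nat.exists_eq_two_pow_mul_odd hr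
  -- find s with m * s ≡ 1 mod 2 ^ k
  have hcop : Nat.Coprime m (2 ^ k) := Nat.Coprime.pow_right k hm.coprime_two_right
  by_cases hk : 2 ^ k = 1
  · refine ⟨m, ⟨a, ?_⟩, m - 1, ?_⟩
    · rw [← pow_mul, mul_comm, ← hrm, pow_orderOf_eq_one]
    · rw [hk]; have := hm.pos; omega
  have hk1 : 1 < 2 ^ k := by
    have := Nat.one_le_two_pow (n := k); omega
  obtain ⟨s, hs⟩ := Nat.exists_mul_mod_eq_one_of_coprime hcop hk1
  refine ⟨m * s, ⟨a, ?_⟩, m * s / 2 ^ k, ?_⟩
  · rw [← pow_mul, mul_assoc, mul_comm s, ← mul_assoc, mul_comm m, ← hrm, pow_mul, pow_orderOf_eq_one, one_pow]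
  · have := Nat.mod_add_div (m * s) (2 ^ k)
    rw [hs.2] at this
    exact this.symm

theorem pow_two_part {M : Type*} [Group M] {q : M} {k l : ℕ} (h : q ^ (2 ^ k) = 1) : q ^ (1 + 2 ^ k * l) = q := by
  rw [pow_add, pow_one, pow_mul, h, one_pow, mul_one]

/-- an abelian group in which the squares of 2-elements are fourth powers -/
theorem two_elementary {M : Type*} [CommGroup M] [Finite M]
    (h : ∀ q : M, (∃ k : ℕ, q ^ (2 ^ k) = 1) → ∃ r : M, q ^ 2 = r ^ 4) (q : M) (hq : ∃ k : ℕ, q ^ (2 ^ k) = 1) :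
    q ^ 2 = 1 := by
  have h' : ∀ q : M, (∃ k : ℕ, q ^ (2 ^ k) = 1) → ∃ r : M, (∃ k : ℕ, r ^ (2 ^ k) = 1) ∧ q ^ 2 = r ^ 4 := by
    intro q hq
    obtain ⟨r, hr⟩ := h q hq
    obtain ⟨k, hk⟩ := hq
    obtain ⟨m, hj, l, hl⟩ := exists_two_part r k
    refine ⟨r ^ m, hj, ?_⟩
    rw [← pow_mul, mul_comm, pow_mul, ← hr, hl]
    have : (q ^ 2) ^ (2 ^ k) = 1 := by rw [← pow_mul, mul_comm, pow_mul, hk, one_pow]
    exact (pow_two_part this).symm
  have h'' : ∀ n : ℕ, ∀ q : M, (∃ k : ℕ, q ^ (2 ^ k) = 1) →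
      ∃ r : M, (∃ k : ℕ, r ^ (2 ^ k) = 1) ∧ q ^ 2 = (r ^ 2) ^ (2 ^ n) := by
    intro n
    induction n with
    | zero => intro q hq; exact ⟨q, hq, by rw [pow_zero, pow_one]⟩
    | succ n ih =>
      intro q hq
      obtain ⟨r, hr, hqr⟩ := ih q hq
      obtain ⟨s, hs, hrs⟩ := h' r hr
      refine ⟨s, hs, ?_⟩
      rw [hqr, hrs, ← pow_mul, ← pow_mul]
      congr 1
      ring
  -- exponent
  obtain ⟨n, m, hm, hcard⟩ := Nat.exists_eq_two_pow_mul_odd (Nat.card_pos (α := M)).ne'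
  obtain ⟨r, ⟨k, hk⟩, hqr⟩ := h'' n q hq
  rw [hqr]
  have h1 : orderOf r ∣ 2 ^ k := orderOf_dvd_of_pow_eq_one hk
  have h2 : orderOf r ∣ 2 ^ n * m := by rw [← hcard]; exact orderOf_dvd_natCard r
  have h3 : orderOf r ∣ 2 ^ n := by
    refine Nat.Coprime.dvd_of_dvd_mul_right ?_ h2
    exact Nat.Coprime.coprime_dvd_left h1 (Nat.Coprime.pow_left k hm.coprime_two_left)
  rw [← pow_mul, mul_comm, pow_mul, orderOf_dvd_iff_pow_eq_one.1 h3, one_pow]

theorem row3301 [Finite G] (hres : Cfsg.pResidual 2 G = ⊤) (z : G) (hz : orderOf z = 2)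
    (E : Subgroup G) (hE : E = (Cfsg.pCore 2 ↥(Subgroup.centralizer ({z} : Set G))).map (Subgroup.centralizer ({z} : Set G)).subtype)
    (hext : Cfsg.IsExtraspecial 2 ↥E) (hcent : Subgroup.centralizer (E : Set G) ≤ E) :
    ∀ q : Abelianization ↥(Subgroup.centralizer ({z} : Set G)), (∃ k : ℕ, orderOf q = 2 ^ k) → q ^ 2 = 1 := by
  haveI : Fact (Nat.Prime 2) := ⟨Nat.prime_two⟩
  have v := ze_of_core hz hE hext hcent
  rintro q ⟨k, hk⟩
  have hfin : Finite (Abelianization ↥(Subgroup.centralizer ({z} : Set G))) :=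
    Finite.of_surjective _ (QuotientGroup.mk'_surjective _)
  refine two_elementary ?_ q ⟨k, by rw [← hk]; exact pow_orderOf_eq_one q⟩
  rintro q ⟨k, hk⟩
  obtain ⟨h, rfl⟩ := QuotientGroup.mk'_surjective _ q
  obtain ⟨m, ⟨j, hj⟩, l, hl⟩ := exists_two_part h k
  -- a 2-element of `H`
  have hpg : IsPGroup 2 (Subgroup.zpowers (h ^ m)) := by
    rw [IsPGroup.iff_card]
    rw [Nat.card_zpowers]
    obtain ⟨i, -, hi⟩ := (Nat.dvd_prime_pow Nat.prime_two).1 (orderOf_dvd_of_pow_eq_one hj)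
    exact ⟨i, hi⟩
  obtain ⟨P, hP⟩ := hpg.exists_le_sylow
  obtain ⟨h1, h2, h3⟩ := exists_two_group hE P
  set N : Subgroup (Abelianization ↥(Subgroup.centralizer ({z} : Set G))) := (powMonoidHom 4).range with hN
  let lam : Subgroup.centralizer ({z} : Set G) →* Abelianization ↥(Subgroup.centralizer ({z} : Set G)) ⧸ N :=
    (QuotientGroup.mk' N).comp Abelianization.of
  have hA : ∀ a : Abelianization ↥(Subgroup.centralizer ({z} : Set G)) ⧸ N, a ^ 4 = 1 := by
    intro a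
    obtain ⟨b, rfl⟩ := QuotientGroup.mk'_surjective N a
    rw [← map_pow, QuotientGroup.mk'_apply, QuotientGroup.eq_one_iff]
    exact ⟨b, rfl⟩
  have hm : ((h ^ m : ↥(Subgroup.centralizer ({z} : Set G))) : G) ∈
      (P : Subgroup ↥(Subgroup.centralizer ({z} : Set G))).map (Subgroup.centralizer ({z} : Set G)).subtype :=
    ⟨_, hP (Subgroup.mem_zpowers _), rfl⟩
  have h4 := v.row_three hres lam hA h1 h2 h3 hm
  have h5 : lam (h ^ m) ^ 2 = 1 := h4
  have h6 : (Abelianization.of h) ^ (1 + 2 ^ k * l) = Abelianization.of h := pow_two_part hk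
  rw [map_pow, hl] at h5
  have h7 : lam h ^ (1 + 2 ^ k * l) = lam h := by
    change (QuotientGroup.mk' N (Abelianization.of h)) ^ (1 + 2 ^ k * l) = QuotientGroup.mk' N (Abelianization.of h)
    rw [← map_pow, h6]
  rw [h7] at h5
  have h8 : QuotientGroup.mk' N (Abelianization.of h ^ 2) = 1 := by rw [map_pow]; exact h5
  rw [QuotientGroup.mk'_apply, QuotientGroup.eq_one_iff] at h8
  obtain ⟨r, hr⟩ := h8
  exact ⟨r, hr.symm⟩

theorem row3299 [Finite G] (hres : Cfsg.pResidual 2 G = ⊤) (z : G) (hz : orderOf z = 2)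
    (E : Subgroup G) (hE : E = (Cfsg.pCore 2 ↥(Subgroup.centralizer ({z} : Set G))).map (Subgroup.centralizer ({z} : Set G)).subtype)
    (hext : Cfsg.IsExtraspecial 2 ↥E) (hcent : Subgroup.centralizer (E : Set G) ≤ E) (n : ℕ) (hn : 2 ≤ n) (hcard : Nat.card ↥E = 2 ^ (2 * n + 1))
    (K : Subgroup G)
    (hKi : K.relIndex (Subgroup.centralizer ({z} : Set G)) = 2) : E ≤ K := by
  have v := ze_of_core hz hE hext hcent
  intro x hx
  have h1 := v.row_one hres hn hcard (sgn _ hKi) Int.units_mul_self hx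
  exact Subgroup.mem_subgroupOf.1 (sgn_eq_one hKi h1)

theorem row3300 [Finite G] (hres : Cfsg.pResidual 2 G = ⊤) (z : G) (hz : orderOf z = 2)
    (E : Subgroup G) (hE : E = (Cfsg.pCore 2 ↥(Subgroup.centralizer ({z} : Set G))).map (Subgroup.centralizer ({z} : Set G)).subtype)
    (hext : Cfsg.IsExtraspecial 2 ↥E) (hcent : Subgroup.centralizer (E : Set G) ≤ E) (n : ℕ) (hn : 3 ≤ n) (hcard : Nat.card ↥E = 2 ^ (2 * n + 1))
    (K : Subgroup G)
    (hKi : K.relIndex (Subgroup.centralizer ({z} : Set G)) = 2) : ∃ g : G, g * z * g⁻¹ ∈ E ∧ g * z * g⁻¹ ≠ z := by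
  haveI : Fact (Nat.Prime 2) := ⟨Nat.prime_two⟩
  have v := ze_of_core hz hE hext hcent
  by_contra hcon
  push Not at hcon
  obtain ⟨P⟩ : Nonempty (Sylow 2 ↥(Subgroup.centralizer ({z} : Set G))) := inferInstance
  obtain ⟨h1, h2, h3⟩ := exists_two_group hE P
  have h4 : (P : Subgroup ↥(Subgroup.centralizer ({z} : Set G))) ≤ K.subgroupOf (Subgroup.centralizer ({z} : Set G)) := by
    intro x hx
    have h5 : (x : G) ∈ (P : Subgroup ↥(Subgroup.centralizer ({z} : Set G))).map (Subgroup.centralizer ({z} : Set G)).subtype :=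
      ⟨x, hx, rfl⟩
    have h6 := v.row_two hres hn hcard (sgn _ hKi) Int.units_mul_self hcon h1 h2 h3 h5
    exact sgn_eq_one hKi h6
  have h5 : (K.subgroupOf (Subgroup.centralizer ({z} : Set G))).index ∣ (P : Subgroup ↥(Subgroup.centralizer ({z} : Set G))).index :=
    Subgroup.index_dvd_of_le h4
  have h6 : (K.subgroupOf (Subgroup.centralizer ({z} : Set G))).index = 2 := hKi
  rw [h6] at h5
  exact P.not_dvd_index h5

end Cfsg.Agent.H64.TrA
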